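import Mathlib

/-!
# Abelian `p`-groups of permutations: order at most `(n/k)^k`
-/

set_option autoImplicit false

namespace Cfsg.Agent.H25.AbPerm

theorem amgm_step (b y j : ℕ) : b * y ^ j * (j + 1) ^ (j + 1) ≤ (b + y) ^ (j + 1) * j ^ j := by
  rcases Nat.eq_zero_or_pos j with rfl | hj
  · simp
  rcases Nat.eq_zero_or_pos y with rfl | hy
  · simp [hj.ne']
  have hjR : (0 : ℝ) < j := by exact_mod_cast hj
  have hyR : (0 : ℝ) < y := by exact_mod_cast hy
  have hbR : (0 : ℝ) ≤ b := by exact_mod_cast Nat.zero_le b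
  set m : ℝ := (y : ℝ) / j with hm
  have hmpos : 0 < m := div_pos hyR hjR
  set t : ℝ := ((b : ℝ) / m - 1) / ((j : ℝ) + 1) with ht
  have hj1 : (0 : ℝ) < (j : ℝ) + 1 := by positivity
  have ht2 : -2 ≤ t := by
    rw [ht, le_div_iff₀ hj1]
    have : 0 ≤ (b : ℝ) / m := div_nonneg hbR hmpos.le
    nlinarith
  have hB := one_add_mul_le_pow ht2 (j + 1)
  have h1 : 1 + ((j + 1 : ℕ) : ℝ) * t = (b : ℝ) / m := by
    rw [ht]; push_cast; field_simp; ring
  rw [h1] at hB
  have h2 : m * (1 + t) = ((b : ℝ) + y) / ((j : ℝ) + 1) := by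
    rw [ht, hm]; field_simp; ring
  have h3 : (((b : ℝ) + y) / ((j : ℝ) + 1)) ^ (j + 1) = m ^ (j + 1) * (1 + t) ^ (j + 1) := by
    rw [← h2, mul_pow]
  have h4 : m ^ j * b ≤ (((b : ℝ) + y) / ((j : ℝ) + 1)) ^ (j + 1) := by
    rw [h3]
    calc m ^ j * b = m ^ (j + 1) * ((b : ℝ) / m) := by
          rw [pow_succ]; field_simp
      _ ≤ m ^ (j + 1) * (1 + t) ^ (j + 1) := by
          apply mul_le_mul_of_nonneg_left hB (by positivity)
  rw [hm, div_pow, div_pow, div_mul_eq_mul_div, div_le_div_iff₀ (by positivity) (by positivity)] at h4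
  have h5 : ((b * y ^ j * (j + 1) ^ (j + 1) : ℕ) : ℝ) ≤ (((b + y) ^ (j + 1) * j ^ j : ℕ) : ℝ) := by
    push_cast
    nlinarith [h4]
  exact_mod_cast h5

theorem step_one (b y j X : ℕ) (h : X * j ^ j ≤ y ^ j) :
    b * X * (j + 1) ^ (j + 1) ≤ (b + y) ^ (j + 1) := by
  have hpos : 0 < j ^ j := by
    rcases Nat.eq_zero_or_pos j with rfl | hj
    · simp
    · positivity
  apply Nat.le_of_mul_le_mul_right _ hpos
  calc b * X * (j + 1) ^ (j + 1) * j ^ j = b * (X * j ^ j) * (j + 1) ^ (j + 1) := by ring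
    _ ≤ b * y ^ j * (j + 1) ^ (j + 1) := by gcongr
    _ ≤ (b + y) ^ (j + 1) * j ^ j := amgm_step b y j

theorem step_many (p : ℕ) (hp : 2 ≤ p) (y j X : ℕ) (h : X * j ^ j ≤ y ^ j) :
    ∀ d e : ℕ, 1 ≤ d → d ≤ e → p ^ e * X * (j + d) ^ (j + d) ≤ (p ^ e + y) ^ (j + d) := by
  intro d
  induction d with
  | zero => intro e h0; omega
  | succ d ih =>
    intro e _ hde
    rcases Nat.eq_zero_or_pos d with rfl | hd
    · exact step_one (p ^ e) y j X h
    · obtain ⟨e', rfl⟩ : ∃ e', e = e' + 1 := ⟨e - 1, by omega⟩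
      have h1 := ih e' hd (by omega)
      have h2 := step_one p (p ^ e' + y) (j + d) (p ^ e' * X) h1
      have h3 : p + (p ^ e' + y) ≤ p ^ (e' + 1) + y := by
        have h4 : p ≤ p ^ e' := by
          calc p = p ^ 1 := (pow_one p).symm
            _ ≤ p ^ e' := Nat.pow_le_pow_right (by omega) (by omega)
        have h5 : p ^ (e' + 1) = p ^ e' * p := pow_succ p e'
        nlinarith
      calc p ^ (e' + 1) * X * (j + (d + 1)) ^ (j + (d + 1))
          = p * (p ^ e' * X) * (j + d + 1) ^ (j + d + 1) := by rw [pow_succ]; ring_nf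
        _ ≤ (p + (p ^ e' + y)) ^ (j + d + 1) := h2
        _ ≤ (p ^ (e' + 1) + y) ^ (j + (d + 1)) := by
            exact Nat.pow_le_pow_left h3 _

universe u

theorem main (p : ℕ) (hp : p.Prime) : ∀ (N : ℕ) (A : Type u) [CommGroup A] [Finite A] (X : Type u)
    [Fintype X] [MulAction A X] [FaithfulSMul A X], IsPGroup p A → Nat.card A = N →
    ∀ k : ℕ, Nat.card {x : A // x ^ p = 1} = p ^ k → Nat.card A * k ^ k ≤ Fintype.card X ^ k := by
  intro N
  induction N using Nat.strong_induction_on with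
  | _ N ih =>
  intro A _ _ X _ _ _ hA hN k hk
  haveI : Fact p.Prime := ⟨hp⟩
  classical
  by_cases hA1 : Nat.card A = 1
  · have hsub : Subsingleton A := (Nat.card_eq_one_iff_unique.1 hA1).1
    have h1 : Nat.card {x : A // x ^ p = 1} = 1 := by
      rw [Nat.card_eq_one_iff_unique]
      exact ⟨inferInstance, ⟨⟨1, one_pow p⟩⟩⟩
    rw [h1] at hk
    have hk0 : k = 0 := by
      by_contra hne
      have : 1 < p ^ k := Nat.one_lt_pow hne hp.one_lt
      omega
    subst hk0
    simp [hA1]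
  -- an element of order p
  obtain ⟨m, hm⟩ := IsPGroup.iff_card.1 hA
  have hm0 : m ≠ 0 := by
    rintro rfl
    exact hA1 (by rw [hm, pow_zero])
  obtain ⟨e, he⟩ := exists_prime_orderOf_dvd_card' p (by rw [hm]; exact dvd_pow_self p hm0 : p ∣ Nat.card A)
  have he1 : e ≠ 1 := by
    rintro rfl
    rw [orderOf_one] at he
    exact hp.one_lt.ne he
  have hep : e ^ p = 1 := by rw [← he]; exact pow_orderOf_eq_one e
  obtain ⟨ω, hω⟩ : ∃ ω : X, e • ω ≠ ω := by
    by_contra hcon
    push Not at hcon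
    exact he1 (FaithfulSMul.eq_of_smul_eq_smul (α := X) (fun x => by rw [hcon x, one_smul]))
  set K : Subgroup A := MulAction.stabilizer A ω with hK
  let Oc : SubMulAction A X :=
    { carrier := (MulAction.orbit A ω)ᶜ
      smul_mem' := by
        intro c x hx hcx
        apply hx
        have := MulAction.mem_orbit_of_mem_orbit c⁻¹ hcx
        rwa [inv_smul_smul] at this }
  have hfix : ∀ κ ∈ K, ∀ x ∈ MulAction.orbit A ω, κ • x = x := by
    rintro κ hκ _ ⟨g, rfl⟩
    change κ • g • ω = g • ω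
    rw [smul_smul, mul_comm, ← smul_smul, MulAction.mem_stabilizer_iff.1 hκ]
  haveI : FaithfulSMul K Oc := by
    refine ⟨fun {κ₁ κ₂} h => ?_⟩
    apply Subtype.ext
    apply FaithfulSMul.eq_of_smul_eq_smul (α := X)
    intro x
    by_cases hx : x ∈ MulAction.orbit A ω
    · rw [hfix _ κ₁.2 x hx, hfix _ κ₂.2 x hx]
    · exact congrArg (fun z : Oc => (z : X)) (h ⟨x, hx⟩)
  haveI : Fintype Oc := Fintype.ofFinite _
  let E : Subgroup A := (powMonoidHom p : A →* A).ker
  have hE : Nat.card E = p ^ k := by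
    rw [← hk]
    exact Nat.card_congr (Equiv.subtypeEquivRight (fun x => by
      change x ∈ (powMonoidHom p : A →* A).ker ↔ _
      rw [MonoidHom.mem_ker, powMonoidHom_apply]))
  let KE : Subgroup E := K.subgroupOf E
  obtain ⟨k', hk'⟩ := IsPGroup.iff_card.1 ((hA.to_subgroup E).to_subgroup KE)
  have hKcard : Nat.card {x : K // x ^ p = 1} = p ^ k' := by
    rw [← hk']
    refine Nat.card_congr
      { toFun := fun x => ⟨⟨(x.1 : A), by
            change (x.1 : A) ∈ (powMonoidHom p : A →* A).ker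
            rw [MonoidHom.mem_ker, powMonoidHom_apply]
            exact congrArg (fun z : K => (z : A)) x.2⟩, x.1.2⟩
        invFun := fun y => ⟨⟨(y.1 : A), y.2⟩, by
            apply Subtype.ext
            have h1 : ((y.1 : E) : A) ∈ (powMonoidHom p : A →* A).ker := y.1.2
            rw [MonoidHom.mem_ker, powMonoidHom_apply] at h1
            exact h1⟩
        left_inv := fun x => rfl
        right_inv := fun y => rfl }
  have hmul := KE.card_mul_index
  rw [hk', hE] at hmul
  have hdvd : KE.index ∣ K.index := Subgroup.relIndex_dvd_index_of_normal K E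
  obtain ⟨e', he'⟩ := hA.index K
  rw [he'] at hdvd
  obtain ⟨d, hde, hd⟩ := (Nat.dvd_prime_pow hp).1 hdvd
  have hd1 : 1 ≤ d := by
    by_contra hcon
    have hd0 : d = 0 := by omega
    rw [hd0, pow_zero, Subgroup.index_eq_one] at hd
    have h1 : (⟨e, by
        change e ∈ (powMonoidHom p : A →* A).ker
        rw [MonoidHom.mem_ker, powMonoidHom_apply]; exact hep⟩ : E) ∈ KE := by
      rw [hd]; exact Subgroup.mem_top _
    exact hω (MulAction.mem_stabilizer_iff.1 h1)
  rw [hd, ← pow_add] at hmul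
  have hkk : k = k' + d := (Nat.pow_right_injective hp.two_le hmul).symm
  have hcardA := K.card_mul_index
  rw [he'] at hcardA
  have hlt : Nat.card K < N := by
    rw [← hN, ← hcardA]
    have h2 : 2 ≤ p ^ e' := by
      calc 2 ≤ p := hp.two_le
        _ = p ^ 1 := (pow_one p).symm
        _ ≤ p ^ e' := Nat.pow_le_pow_right hp.pos (by omega)
    have h3 : 0 < Nat.card K := Nat.card_pos
    nlinarith
  have hIH := ih (Nat.card K) hlt K Oc (hA.to_subgroup K) rfl k' hKcard
  have hX : p ^ e' + Fintype.card Oc = Fintype.card X := by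
    rw [← he', MulAction.index_stabilizer, ← Nat.card_eq_fintype_card, ← Nat.card_eq_fintype_card,
      ← Set.ncard_add_ncard_compl (MulAction.orbit A ω)]
    congr 1
  have hfin := step_many p hp.two_le (Fintype.card Oc) k' (Nat.card K) hIH d e' hd1 hde
  rw [hX, ← hkk] at hfin
  rw [← hcardA, mul_comm (Nat.card K)]
  exact hfin

end Cfsg.Agent.H25.AbPerm
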