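import Cfsg.Agent.H25.Osima
import Cfsg.Agent.S0188

set_option autoImplicit false
open Cfsg

namespace Cfsg.Agent.H25.CentralProdU

open Cfsg Cfsg.Agent.CharLib Cfsg.Agent.BlockLib
open scoped ComplexConjugate

variable {G : Type*} [Group G] {U₁ U₂ : Subgroup G}

/-- the multiplication map `U₁ × U₂ → G` of two commuting subgroups -/
noncomputable def prodHom (hcomm : ∀ u ∈ U₁, ∀ v ∈ U₂, u * v = v * u) : U₁ × U₂ →* G :=
  MonoidHom.noncommCoprod U₁.subtype U₂.subtype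
    (fun u v => (show Commute (U₁.subtype u) (U₂.subtype v) from hcomm u u.2 v v.2))

theorem prodHom_apply (hcomm : ∀ u ∈ U₁, ∀ v ∈ U₂, u * v = v * u) (x : U₁ × U₂) :
    prodHom hcomm x = (x.1 : G) * (x.2 : G) := rfl

theorem prodHom_surjective (hcomm : ∀ u ∈ U₁, ∀ v ∈ U₂, u * v = v * u) (hgen : U₁ ⊔ U₂ = ⊤) :
    Function.Surjective (prodHom hcomm) := by
  rw [← MonoidHom.range_eq_top]
  unfold prodHom
  rw [MonoidHom.noncommCoprod_range, Subgroup.range_subtype, Subgroup.range_subtype, hgen]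

theorem exists_factor [Finite G] (hcomm : ∀ u ∈ U₁, ∀ v ∈ U₂, u * v = v * u) (hgen : U₁ ⊔ U₂ = ⊤)
    (θ : IrrCharacter G) :
    ∃ (ζ : IrrCharacter U₁) (ψ : IrrCharacter U₂), ∀ (u : U₁) (c : U₂),
      (θ : G → ℂ) ((u : G) * (c : G)) = (ζ : U₁ → ℂ) u * (ψ : U₂ → ℂ) c := by
  have h1 := isIrrCharacter_comp_of_surjective θ.2 (prodHom hcomm) (prodHom_surjective hcomm hgen)
  obtain ⟨φ, ψ, hφ, hψ, h⟩ := (Cfsg.Agent.S0188.result _).1 h1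
  exact ⟨⟨φ, hφ⟩, ⟨ψ, hψ⟩, fun u c => congrFun h (u, c)⟩

/-- class sizes multiply, as soon as commutators with `u₁` falling into `U₂` are trivial -/
theorem index_centralizer_mul (hcomm : ∀ u ∈ U₁, ∀ v ∈ U₂, u * v = v * u) (hgen : U₁ ⊔ U₂ = ⊤)
    (u₁ : U₁) (u₂ : U₂)
    (Hz : ∀ v₁ : U₁, ((u₁ : G) * v₁)⁻¹ * ((v₁ : G) * u₁) ∈ U₂ → v₁ * u₁ = u₁ * v₁) :
    (Subgroup.centralizer ({(u₁ : G) * (u₂ : G)} : Set G)).index =
      (Subgroup.centralizer ({u₁} : Set U₁)).index * (Subgroup.centralizer ({u₂} : Set U₂)).index := by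
  rw [← Subgroup.index_comap_of_surjective _ (prodHom_surjective hcomm hgen), ← Subgroup.index_prod]
  congr 1
  ext ⟨v₁, v₂⟩
  rw [Subgroup.mem_comap, Subgroup.mem_prod, Subgroup.mem_centralizer_singleton_iff,
    Subgroup.mem_centralizer_singleton_iff, Subgroup.mem_centralizer_singleton_iff, prodHom_apply]
  constructor
  · intro h
    have c1 : (v₂ : G) * u₁ = u₁ * v₂ := (hcomm u₁ u₁.2 v₂ v₂.2).symm
    have c2 : (u₂ : G) * v₁ = v₁ * u₂ := (hcomm v₁ v₁.2 u₂ u₂.2).symm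
    have e1 : ((v₁ : G) * u₁) * ((v₂ : G) * u₂) = ((u₁ : G) * v₁) * ((u₂ : G) * v₂) := by
      calc ((v₁ : G) * u₁) * ((v₂ : G) * u₂) = (v₁ : G) * ((u₁ : G) * v₂) * u₂ := by group
        _ = (v₁ : G) * ((v₂ : G) * u₁) * u₂ := by rw [c1]
        _ = (v₁ : G) * v₂ * ((u₁ : G) * u₂) := by group
        _ = (u₁ : G) * u₂ * ((v₁ : G) * v₂) := h
        _ = (u₁ : G) * ((u₂ : G) * v₁) * v₂ := by group
        _ = (u₁ : G) * ((v₁ : G) * u₂) * v₂ := by rw [c2]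
        _ = ((u₁ : G) * v₁) * ((u₂ : G) * v₂) := by group
    have e2 : ((u₁ : G) * v₁)⁻¹ * ((v₁ : G) * u₁) = ((u₂ : G) * v₂) * ((v₂ : G) * u₂)⁻¹ := by
      rw [inv_mul_eq_iff_eq_mul, ← mul_assoc, eq_mul_inv_iff_mul_eq]
      exact e1
    have h1 : v₁ * u₁ = u₁ * v₁ := by
      apply Hz
      rw [e2]
      exact U₂.mul_mem (U₂.mul_mem u₂.2 v₂.2) (U₂.inv_mem (U₂.mul_mem v₂.2 u₂.2))
    refine ⟨h1, ?_⟩
    have h1' : (v₁ : G) * u₁ = u₁ * v₁ := congrArg Subtype.val h1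
    rw [h1'] at e1
    exact Subtype.ext (mul_left_cancel e1)
  · rintro ⟨h1, h2⟩
    have h1' : (v₁ : G) * u₁ = u₁ * v₁ := congrArg Subtype.val h1
    have h2' : (v₂ : G) * u₂ = u₂ * v₂ := congrArg Subtype.val h2
    have c1 : (v₂ : G) * u₁ = u₁ * v₂ := (hcomm u₁ u₁.2 v₂ v₂.2).symm
    have c2 : (u₂ : G) * v₁ = v₁ * u₂ := (hcomm v₁ v₁.2 u₂ u₂.2).symm
    calc (v₁ : G) * v₂ * ((u₁ : G) * u₂) = (v₁ : G) * ((v₂ : G) * u₁) * u₂ := by group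
      _ = (v₁ : G) * ((u₁ : G) * v₂) * u₂ := by rw [c1]
      _ = ((v₁ : G) * u₁) * ((v₂ : G) * u₂) := by group
      _ = ((u₁ : G) * v₁) * ((u₂ : G) * v₂) := by rw [h1', h2']
      _ = (u₁ : G) * ((v₁ : G) * u₂) * v₂ := by group
      _ = (u₁ : G) * ((u₂ : G) * v₁) * v₂ := by rw [c2]
      _ = (u₁ : G) * u₂ * ((v₁ : G) * v₂) := by group

/-- the hypothesis of `index_centralizer_mul` holds for `p`-regular `u₁` when `U₁ ⊓ U₂` is a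
`p`-group -/
theorem comm_of_regular {p : ℕ} [Fact p.Prime] (hcomm : ∀ u ∈ U₁, ∀ v ∈ U₂, u * v = v * u)
    (hZ : IsPGroup p ↥(U₁ ⊓ U₂)) (u₁ : U₁) (hreg : ¬ p ∣ orderOf u₁) (v₁ : U₁)
    (h : ((u₁ : G) * v₁)⁻¹ * ((v₁ : G) * u₁) ∈ U₂) : v₁ * u₁ = u₁ * v₁ := by
  set w : G := ((u₁ : G) * v₁)⁻¹ * ((v₁ : G) * u₁) with hw
  have hw1 : w ∈ U₁ := U₁.mul_mem (U₁.inv_mem (U₁.mul_mem u₁.2 v₁.2)) (U₁.mul_mem v₁.2 u₁.2)
  have e1 : (v₁ : G) * u₁ = u₁ * v₁ * w := by rw [hw]; group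
  have cw : (v₁ : G) * w = w * v₁ := hcomm v₁ v₁.2 w h
  have cu : Commute (u₁ : G) w := hcomm u₁ u₁.2 w h
  have e2 : (v₁ : G) * u₁ * (v₁ : G)⁻¹ = u₁ * w := by
    rw [e1, mul_assoc, mul_assoc, ← mul_assoc (v₁ : G) w, cw]; group
  have e3 : ((v₁ : G) * u₁ * (v₁ : G)⁻¹) ^ orderOf (u₁ : G) = 1 := by
    rw [conj_pow, pow_orderOf_eq_one]; group
  rw [e2, cu.mul_pow, pow_orderOf_eq_one, one_mul] at e3
  have hwZ : w ∈ U₁ ⊓ U₂ := Subgroup.mem_inf.mpr ⟨hw1, h⟩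
  obtain ⟨k, hk⟩ := (IsPGroup.iff_orderOf.mp hZ) ⟨w, hwZ⟩
  rw [Subgroup.orderOf_mk] at hk
  have h1 : orderOf w ∣ orderOf (u₁ : G) := orderOf_dvd_of_pow_eq_one e3
  have hw0 : w = 1 := by
    rcases k with _ | k
    · rwa [pow_zero, orderOf_eq_one_iff] at hk
    · exfalso
      apply hreg
      rw [hk, Subgroup.orderOf_coe] at h1
      exact (dvd_pow_self p (Nat.succ_ne_zero k)).trans h1
  apply Subtype.ext
  rw [Subgroup.coe_mul, Subgroup.coe_mul, e1, hw0, mul_one]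

end Cfsg.Agent.H25.CentralProdU
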