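import Mathlib
import Cfsg.Prelude.Def_Characters
import Cfsg.Agent.CharLib.Complete
import Cfsg.Agent.CharLib.EquivChar
import Cfsg.Agent.CharLib.Clifford
import Cfsg.Agent.CharLib.Ind
import Cfsg.Agent.H25.FS

set_option autoImplicit false

namespace Cfsg.Agent.H25.FSInd

open Module Representation Cfsg Cfsg.Agent.CharLib
open scoped ComplexConjugate

universe u v

/-- A representation whose character is an irreducible character is irreducible. -/
theorem isIrreducible_of_char {G : Type u} [Group G] [Finite G] {V : Type v} [AddCommGroup V]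
    [Module ℂ V] [FiniteDimensional ℂ V] (ρ : Representation ℂ G V)
    (h : IsIrrCharacter G ρ.character) : ρ.IsIrreducible := by
  obtain ⟨n, σ, hσ, hc⟩ := h
  obtain ⟨e⟩ := H2.nonempty_equiv_of_char_eq σ ρ hc
  exact isIrreducible_of_equiv e hσ

/-- If `θ ∈ Irr(I)` restricts irreducibly along `ι : N → I`, then class functions of `N` act by
scalars. -/
theorem sum_mul_shift {I : Type u} [Group I] [Fintype I] {N : Type v} [Group N] [Fintype N]
    (ι : N →* I) {θ : I → ℂ} (hθ : IsIrrCharacter I θ)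
    (hres : IsIrrCharacter N (fun n => θ (ι n))) {f : N → ℂ} (hf : IsClassFunction N f) (x : I) :
    ∑ m : N, f m * θ (x * ι m) = (∑ m : N, f m * θ (ι m)) / θ 1 * θ x := by
  obtain ⟨n, Y, hY, rfl⟩ := hθ
  set ρ : Representation ℂ N (Fin n → ℂ) := Y.comp ι with hρ
  have hchar : ρ.character = fun m => Y.character (ι m) := rfl
  have hirr : ρ.IsIrreducible := isIrreducible_of_char ρ (by rw [hchar]; exact hres)
  have h1 := opSum_irr ρ hf
  have h2 : ∑ m : N, f m * Y.character (x * ι m) =
      LinearMap.trace ℂ (Fin n → ℂ) (Y x * opSum ρ f) := by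
    rw [opSum, Finset.mul_sum, map_sum]
    refine Finset.sum_congr rfl fun m _ => ?_
    rw [mul_smul_comm, map_smul, smul_eq_mul]
    congr 1
    show LinearMap.trace ℂ _ (Y (x * ι m)) = _
    rw [map_mul]
    rfl
  rw [h2, h1, mul_smul_comm, map_smul, smul_eq_mul]
  have h3 : Y.character 1 = (finrank ℂ (Fin n → ℂ) : ℂ) := by
    rw [Representation.char_one]
  rw [h3]
  rfl

variable {G : Type u} [Group G] [Fintype G]

theorem coset_sum_eq_zero (N I : Subgroup G) (hN : N.Normal) (hNI : N ≤ I) [Fintype N] [Fintype I]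
    {φ : N → ℂ} (hφ : IsIrrCharacter N φ) (hreal : ∀ n, conj (φ n) = φ n)
    {θ : I → ℂ} (hθ : IsIrrCharacter I θ) (hres : ∀ n : N, θ (Subgroup.inclusion hNI n) = φ n)
    (g : G) (hg : H2.conjFun hN φ g ≠ φ) (y : I) :
    ∑ n : N, θ (y * Subgroup.inclusion hNI (MulAut.conjNormal g⁻¹ n) *
      Subgroup.inclusion hNI n) = 0 := by
  set ι := Subgroup.inclusion hNI with hι
  set σ : N ≃* N := MulAut.conjNormal g⁻¹ with hσ
  have hresI : IsIrrCharacter N (fun n => θ (ι n)) := by
    have : (fun n => θ (ι n)) = φ := funext hres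
    rw [this]; exact hφ
  have hcl := isClassFunction_of_irr hθ
  have hcyc : ∀ a b : I, θ (a * b) = θ (b * a) := by
    intro a b
    have := hcl (b * a) a
    rw [← this]
    congr 1
    group
  have hN0 : (Nat.card N : ℂ) ≠ 0 := card_ne_zero_complex
  have hconjcl : IsClassFunction N (fun m => conj (φ m)) := by
    intro a b
    show conj (φ _) = conj (φ _)
    rw [isClassFunction_of_irr hφ a b]
  have L1 := fun x => sum_mul_shift ι hθ hresI hconjcl x
  have L2 := fun x => sum_mul_shift ι hθ hresI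
    (isClassFunction_of_irr (H2.isIrrCharacter_conjFun hN hφ g)) x
  have c1 : ∑ m : N, conj (φ m) * θ (ι m) = (Nat.card N : ℂ) := by
    have h := classInner_irr_self hφ
    rw [classInner] at h
    have h2 : ∑ m : N, conj (φ m) * θ (ι m) = ∑ m : N, φ m * conj (φ m) :=
      Finset.sum_congr rfl fun m _ => by rw [hres, mul_comm]
    rw [h2]
    field_simp at h
    exact h
  have c2 : ∑ m : N, H2.conjFun hN φ g m * θ (ι m) = 0 := by
    have h := classInner_irr_ne (H2.isIrrCharacter_conjFun hN hφ g) hφ hg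
    rw [classInner] at h
    have h2 : ∑ m : N, H2.conjFun hN φ g m * θ (ι m) =
        ∑ m : N, H2.conjFun hN φ g m * conj (φ m) :=
      Finset.sum_congr rfl fun m _ => by rw [hres, hreal]
    rw [h2]
    rcases mul_eq_zero.1 h with h | h
    · exact absurd (inv_eq_zero.1 h) hN0
    · exact h
  have hinv : ∀ m : N, φ m⁻¹ = conj (φ m) := by
    obtain ⟨k, ρ, -, rfl⟩ := hφ
    intro m
    exact character_inv ρ m
  have hD1 : ∑ n : N, ∑ m : N, conj (φ m) * θ (y * ι (σ n) * ι n * ι m) =
      (Nat.card N : ℂ) / θ 1 * ∑ n : N, θ (y * ι (σ n) * ι n) := by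
    rw [Finset.mul_sum]
    refine Finset.sum_congr rfl fun n _ => ?_
    rw [L1, c1]
  have hD2 : ∑ n : N, ∑ m : N, conj (φ m) * θ (y * ι (σ n) * ι n * ι m) = 0 := by
    rw [Finset.sum_comm]
    have h1 : ∀ m : N, ∑ n : N, conj (φ m) * θ (y * ι (σ n) * ι n * ι m) =
        ∑ n : N, conj (φ m) * θ ((ι n * y * ι (σ n)) * ι (σ m⁻¹)) := by
      intro m
      refine Fintype.sum_equiv (Equiv.mulRight m) _ _ ?_
      intro n
      show _ = conj (φ m) * θ (ι (n * m) * y * ι (σ (n * m)) * ι (σ m⁻¹))
      congr 1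
      have e1 : σ (n * m) * σ m⁻¹ = σ n := by
        rw [← map_mul, mul_assoc, mul_inv_cancel, mul_one]
      rw [mul_assoc (y * ι (σ n)), hcyc, mul_assoc (ι (n * m) * y), ← map_mul, ← map_mul, e1,
        mul_assoc]
    rw [Finset.sum_congr rfl fun m _ => h1 m, Finset.sum_comm]
    refine Finset.sum_eq_zero fun n _ => ?_
    have h2 : ∑ m : N, conj (φ m) * θ ((ι n * y * ι (σ n)) * ι (σ m⁻¹)) =
        ∑ k : N, H2.conjFun hN φ g k * θ ((ι n * y * ι (σ n)) * ι k) := by
      refine Fintype.sum_equiv ((Equiv.inv N).trans σ.toEquiv) _ _ ?_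
      intro m
      show _ = H2.conjFun hN φ g (σ m⁻¹) * θ ((ι n * y * ι (σ n)) * ι (σ m⁻¹))
      congr 1
      rw [H2.conjFun_apply, ← hinv]
      congr 1
      apply Subtype.ext
      simp [hσ, mul_assoc]
    rw [h2, L2, c2, zero_div, zero_mul]
  rw [hD2] at hD1
  have hθ1 : θ 1 ≠ 0 := irr_apply_one_ne_zero ⟨θ, hθ⟩
  rcases mul_eq_zero.1 hD1.symm with h | h
  · exact absurd h (div_ne_zero hN0 hθ1)
  · exact h

theorem fsInd_indFun_eq (I : Subgroup G) (θ : I → ℂ) :
    fsInd (indFun I θ) = (Nat.card I : ℂ)⁻¹ * ∑ s : G, extendByZero I θ (s * s) := by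
  have hG : (Nat.card G : ℂ) ≠ 0 := card_ne_zero_complex
  unfold fsInd
  simp only [H2.indFun_apply]
  rw [← Finset.mul_sum, Finset.sum_comm]
  have h1 : ∀ x : G, ∑ s : G, extendByZero I θ (x⁻¹ * (s * s) * x) =
      ∑ s : G, extendByZero I θ (s * s) := by
    intro x
    refine Fintype.sum_equiv (MulAut.conj x⁻¹).toEquiv _ _ ?_
    intro s
    simp only [MulEquiv.toEquiv_eq_coe, MulEquiv.coe_toEquiv, MulAut.conj_apply, inv_inv]
    congr 1
    group
  rw [Finset.sum_congr rfl fun x _ => h1 x, Finset.sum_const, Finset.card_univ, nsmul_eq_mul,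
    ← Nat.card_eq_fintype_card]
  field_simp

/-- The Frobenius–Schur indicator is preserved by Clifford induction of an extension of a real
character from its stabiliser. -/
theorem fsInd_indFun (N I : Subgroup G) (hN : N.Normal) (hNI : N ≤ I) [Fintype N] [Fintype I]
    {φ : N → ℂ} (hφ : IsIrrCharacter N φ) (hreal : ∀ n, conj (φ n) = φ n)
    (hT : ∀ g : G, g ∈ I ↔ H2.conjFun hN φ g = φ)
    {θ : I → ℂ} (hθ : IsIrrCharacter I θ) (hres : ∀ n : N, θ (Subgroup.inclusion hNI n) = φ n) :
    fsInd (indFun I θ) = fsInd θ := by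
  classical
  rw [fsInd_indFun_eq]
  unfold fsInd
  congr 1
  set W : G → ℂ := fun s => if s ∈ I then 0 else extendByZero I θ (s * s) with hW
  have hsplit : ∀ s : G, extendByZero I θ (s * s) =
      extendByZero I (fun t : I => θ (t * t)) s + W s := by
    intro s
    by_cases hs : s ∈ I
    · rw [hW]
      simp only [if_pos hs, add_zero]
      rw [H2.extendByZero_of_mem I _ hs, H2.extendByZero_of_mem I _ (I.mul_mem hs hs)]
      rfl
    · rw [hW]
      simp only [if_neg hs]
      rw [H2.extendByZero_of_not_mem I _ hs, zero_add]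
  have hN0 : (Nat.card N : ℂ) ≠ 0 := card_ne_zero_complex
  have h1 : ∀ n : N, ∑ s : G, W (s * n) = ∑ s : G, W s :=
    fun n => Equiv.sum_comp (Equiv.mulRight (n : G)) W
  have h2 : (Nat.card N : ℂ) * ∑ s : G, W s = ∑ s : G, ∑ n : N, W (s * n) := by
    rw [Finset.sum_comm, Finset.sum_congr rfl fun n _ => h1 n, Finset.sum_const, Finset.card_univ,
      nsmul_eq_mul, ← Nat.card_eq_fintype_card]
  have h3 : ∀ s : G, ∑ n : N, W (s * n) = 0 := by
    intro s
    by_cases hs : s ∈ I
    · refine Finset.sum_eq_zero fun n _ => ?_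
      rw [hW]
      simp only [if_pos (I.mul_mem hs (hNI n.2))]
    · have hsn : ∀ n : N, s * n ∉ I := by
        intro n h
        exact hs ((Subgroup.mul_mem_cancel_right I (hNI n.2)).1 h)
      have e : ∀ n : N, s * n * (s * n) = s * s * ((MulAut.conjNormal s⁻¹ n : N) : G) * n := by
        intro n
        simp [mul_assoc]
      by_cases hy : s * s ∈ I
      · have := coset_sum_eq_zero N I hN hNI hφ hreal hθ hres s (fun h => hs ((hT s).2 h))
          ⟨s * s, hy⟩
        rw [← this]
        refine Finset.sum_congr rfl fun n _ => ?_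
        rw [hW]
        simp only [if_neg (hsn n)]
        rw [e n, ← H2.extendByZero_coe I θ]
        rfl
      · refine Finset.sum_eq_zero fun n _ => ?_
        rw [hW]
        simp only [if_neg (hsn n)]
        apply H2.extendByZero_of_not_mem
        rw [e n]
        intro h
        apply hy
        rw [mul_assoc] at h
        exact (Subgroup.mul_mem_cancel_right I
          (I.mul_mem (hNI (MulAut.conjNormal s⁻¹ n : N).2) (hNI n.2))).1 h
  have hW0 : ∑ s : G, W s = 0 := by
    rw [Finset.sum_congr rfl fun s _ => h3 s, Finset.sum_const_zero] at h2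
    rcases mul_eq_zero.1 h2 with h | h
    · exact absurd h hN0
    · exact h
  rw [Finset.sum_congr rfl fun s _ => hsplit s, Finset.sum_add_distrib, hW0, add_zero,
    H2.sum_extendByZero]

end Cfsg.Agent.H25.FSInd
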