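import Mathlib
import Cfsg.Agent.H25.FSInd

set_option autoImplicit false

namespace Cfsg.Agent.H25.FSInd

open Module Representation Cfsg Cfsg.Agent.CharLib
open scoped ComplexConjugate

universe u v

variable {G : Type u} [Group G] [Fintype G]

theorem coset_sum_eq_zero' (N I : Subgroup G) (hN : N.Normal) (hNI : N ≤ I) [Fintype N] [Fintype I]
    {φ : N → ℂ} (hφ : IsIrrCharacter N φ)
    {θ : I → ℂ} (hθ : IsIrrCharacter I θ) (hres : ∀ n : N, θ (Subgroup.inclusion hNI n) = φ n)
    (g : G) (hg : H2.conjFun hN φ g ≠ fun n => conj (φ n)) (y : I) :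
    ∑ n : N, θ (y * Subgroup.inclusion hNI (MulAut.conjNormal g⁻¹ n) *
      Subgroup.inclusion hNI n) = 0 := by
  set ι := Subgroup.inclusion hNI with hι
  set σ : N ≃* N := MulAut.conjNormal g⁻¹ with hσ
  have hresI : IsIrrCharacter N (fun n => θ (ι n)) := by
    have : (fun n => θ (ι n)) = φ := funext hres
    rw [this]; exact hφ
  have hcl := isClassFunction_of_irr hθ
  have hcyc : ∀ a b : I, θ (a * b) = θ (b * a) := by
    intro a b
    have := hcl (b * a) a
    rw [← this]
    congr 1
    group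
  have hN0 : (Nat.card N : ℂ) ≠ 0 := card_ne_zero_complex
  have hconjcl : IsClassFunction N (fun m => conj (φ m)) := by
    intro a b
    show conj (φ _) = conj (φ _)
    rw [isClassFunction_of_irr hφ a b]
  have L1 := fun x => sum_mul_shift ι hθ hresI hconjcl x
  have L2 := fun x => sum_mul_shift ι hθ hresI
    (isClassFunction_of_irr (H2.isIrrCharacter_conjFun hN hφ g)) x
  have c1 : ∑ m : N, conj (φ m) * θ (ι m) = (Nat.card N : ℂ) := by
    have h := classInner_irr_self hφ
    rw [classInner] at h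
    have h2 : ∑ m : N, conj (φ m) * θ (ι m) = ∑ m : N, φ m * conj (φ m) :=
      Finset.sum_congr rfl fun m _ => by rw [hres, mul_comm]
    rw [h2]
    field_simp at h
    exact h
  have c2 : ∑ m : N, H2.conjFun hN φ g m * θ (ι m) = 0 := by
    have h := classInner_irr_ne (H2.isIrrCharacter_conjFun hN hφ g) (isIrrCharacter_conj hφ) hg
    rw [classInner] at h
    have h2 : ∑ m : N, H2.conjFun hN φ g m * θ (ι m) =
        ∑ m : N, H2.conjFun hN φ g m * conj (conj (φ m)) :=
      Finset.sum_congr rfl fun m _ => by rw [hres, Complex.conj_conj]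
    rw [h2]
    rcases mul_eq_zero.1 h with h | h
    · exact absurd (inv_eq_zero.1 h) hN0
    · exact h
  have hinv : ∀ m : N, φ m⁻¹ = conj (φ m) := by
    obtain ⟨k, ρ, -, rfl⟩ := hφ
    intro m
    exact character_inv ρ m
  have hD1 : ∑ n : N, ∑ m : N, conj (φ m) * θ (y * ι (σ n) * ι n * ι m) =
      (Nat.card N : ℂ) / θ 1 * ∑ n : N, θ (y * ι (σ n) * ι n) := by
    rw [Finset.mul_sum]
    refine Finset.sum_congr rfl fun n _ => ?_
    rw [L1, c1]
  have hD2 : ∑ n : N, ∑ m : N, conj (φ m) * θ (y * ι (σ n) * ι n * ι m) = 0 := by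
    rw [Finset.sum_comm]
    have h1 : ∀ m : N, ∑ n : N, conj (φ m) * θ (y * ι (σ n) * ι n * ι m) =
        ∑ n : N, conj (φ m) * θ ((ι n * y * ι (σ n)) * ι (σ m⁻¹)) := by
      intro m
      refine Fintype.sum_equiv (Equiv.mulRight m) _ _ ?_
      intro n
      show _ = conj (φ m) * θ (ι (n * m) * y * ι (σ (n * m)) * ι (σ m⁻¹))
      congr 1
      have e1 : σ (n * m) * σ m⁻¹ = σ n := by
        rw [← map_mul, mul_assoc, mul_inv_cancel, mul_one]
      rw [mul_assoc (y * ι (σ n)), hcyc, mul_assoc (ι (n * m) * y), ← map_mul, ← map_mul, e1,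
        mul_assoc]
    rw [Finset.sum_congr rfl fun m _ => h1 m, Finset.sum_comm]
    refine Finset.sum_eq_zero fun n _ => ?_
    have h2 : ∑ m : N, conj (φ m) * θ ((ι n * y * ι (σ n)) * ι (σ m⁻¹)) =
        ∑ k : N, H2.conjFun hN φ g k * θ ((ι n * y * ι (σ n)) * ι k) := by
      refine Fintype.sum_equiv ((Equiv.inv N).trans σ.toEquiv) _ _ ?_
      intro m
      show _ = H2.conjFun hN φ g (σ m⁻¹) * θ ((ι n * y * ι (σ n)) * ι (σ m⁻¹))
      congr 1
      rw [H2.conjFun_apply, ← hinv]
      congr 1
      apply Subtype.ext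
      simp [hσ, mul_assoc]
    rw [h2, L2, c2, zero_div, zero_mul]
  rw [hD2] at hD1
  have hθ1 : θ 1 ≠ 0 := irr_apply_one_ne_zero ⟨θ, hθ⟩
  rcases mul_eq_zero.1 hD1.symm with h | h
  · exact absurd h (div_ne_zero hN0 hθ1)
  · exact h

/-- General formula for the Frobenius–Schur indicator of a character induced from an extension
to the stabiliser: only the elements inverting `φ` contribute. -/
theorem fsInd_indFun' (N I : Subgroup G) (hN : N.Normal) (hNI : N ≤ I) [Fintype N] [Fintype I]
    {φ : N → ℂ} (hφ : IsIrrCharacter N φ)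
    {θ : I → ℂ} (hθ : IsIrrCharacter I θ) (hres : ∀ n : N, θ (Subgroup.inclusion hNI n) = φ n) :
    fsInd (indFun I θ) = (Nat.card I : ℂ)⁻¹ * ∑ s : G,
      (open Classical in if H2.conjFun hN φ s = fun n => conj (φ n) then
        extendByZero I θ (s * s) else 0) := by
  classical
  rw [fsInd_indFun_eq]
  congr 1
  set C : G → Prop := fun s => H2.conjFun hN φ s = fun n => conj (φ n) with hC
  have hCn : ∀ (s : G) (n : N), C (s * n) ↔ C s := by
    intro s n
    rw [hC]
    show H2.conjFun hN φ (s * n) = _ ↔ _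
    rw [← H2.conjFun_conjFun,
      H2.conjFun_of_mem hN (isClassFunction_of_irr (H2.isIrrCharacter_conjFun hN hφ s)) n.2]
  set W : G → ℂ := fun s => if C s then 0 else extendByZero I θ (s * s) with hW
  have hsplit : ∀ s : G, extendByZero I θ (s * s) =
      (if C s then extendByZero I θ (s * s) else 0) + W s := by
    intro s
    rw [hW]
    by_cases hs : C s
    · simp only [if_pos hs, add_zero]
    · simp only [if_neg hs, zero_add]
  have hN0 : (Nat.card N : ℂ) ≠ 0 := card_ne_zero_complex
  have h1 : ∀ n : N, ∑ s : G, W (s * n) = ∑ s : G, W s :=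
    fun n => Equiv.sum_comp (Equiv.mulRight (n : G)) W
  have h2 : (Nat.card N : ℂ) * ∑ s : G, W s = ∑ s : G, ∑ n : N, W (s * n) := by
    rw [Finset.sum_comm, Finset.sum_congr rfl fun n _ => h1 n, Finset.sum_const, Finset.card_univ,
      nsmul_eq_mul, ← Nat.card_eq_fintype_card]
  have h3 : ∀ s : G, ∑ n : N, W (s * n) = 0 := by
    intro s
    by_cases hs : C s
    · refine Finset.sum_eq_zero fun n _ => ?_
      rw [hW]
      simp only [if_pos ((hCn s n).2 hs)]
    · have hsn : ∀ n : N, ¬ C (s * n) := fun n h => hs ((hCn s n).1 h)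
      have e : ∀ n : N, s * n * (s * n) = s * s * ((MulAut.conjNormal s⁻¹ n : N) : G) * n := by
        intro n
        simp [mul_assoc]
      by_cases hy : s * s ∈ I
      · have := coset_sum_eq_zero' N I hN hNI hφ hθ hres s hs ⟨s * s, hy⟩
        rw [← this]
        refine Finset.sum_congr rfl fun n _ => ?_
        rw [hW]
        simp only [if_neg (hsn n)]
        rw [e n, ← H2.extendByZero_coe I θ]
        rfl
      · refine Finset.sum_eq_zero fun n _ => ?_
        rw [hW]
        simp only [if_neg (hsn n)]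
        apply H2.extendByZero_of_not_mem
        rw [e n]
        intro h
        apply hy
        rw [mul_assoc] at h
        exact (Subgroup.mul_mem_cancel_right I
          (I.mul_mem (hNI (MulAut.conjNormal s⁻¹ n : N).2) (hNI n.2))).1 h
  have hW0 : ∑ s : G, W s = 0 := by
    rw [Finset.sum_congr rfl fun s _ => h3 s, Finset.sum_const_zero] at h2
    rcases mul_eq_zero.1 h2 with h | h
    · exact absurd h hN0
    · exact h
  rw [Finset.sum_congr rfl fun s _ => hsplit s, Finset.sum_add_distrib, hW0, add_zero]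

end Cfsg.Agent.H25.FSInd
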