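import Mathlib
import Cfsg.Prelude.Def_Transfer

set_option autoImplicit false

namespace Cfsg.Agent.H25.InvAct

open Cfsg

universe u

variable {G : Type u} [Group G] [Finite G]

theorem exists_central_invol (P : Subgroup G) (hP : IsPGroup 2 P) (hP1 : P ≠ ⊥) :
    ∃ z ∈ P, z ≠ 1 ∧ z * z = 1 ∧ ∀ p ∈ P, p * z = z * p := by
  have : Nontrivial P := (Subgroup.nontrivial_iff_ne_bot P).2 hP1
  have hc : Nontrivial (Subgroup.center P) := hP.center_nontrivial
  have hc2 : IsPGroup 2 (Subgroup.center P) := hP.to_subgroup _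
  obtain ⟨n, hn, hcard⟩ := (hc2.nontrivial_iff_card).1 hc
  have hdvd : 2 ∣ Nat.card (Subgroup.center P) := by rw [hcard]; exact dvd_pow_self 2 hn.ne'
  obtain ⟨x, hx⟩ := exists_prime_orderOf_dvd_card' 2 hdvd
  refine ⟨((x : P) : G), (x : P).2, ?_, ?_, ?_⟩
  · intro h
    have h1 : x = 1 := Subtype.ext (Subtype.ext h)
    rw [h1, orderOf_one] at hx
    omega
  · have h1 : x ^ 2 = 1 := by rw [← hx]; exact pow_orderOf_eq_one x
    have h2 := congrArg (fun y : Subgroup.center P => ((y : P) : G)) h1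
    simpa [pow_two] using h2
  · intro p hp
    have h1 := Subgroup.mem_center_iff.1 x.2 ⟨p, hp⟩
    exact congrArg Subtype.val h1

omit [Finite G] in
/-- every element is a product `n * p`. -/
theorem exists_mul (N P : Subgroup G) (hN : N.Normal) (hprod : N ⊔ P = ⊤) (g : G) :
    ∃ n ∈ N, ∃ p ∈ P, g = n * p := by
  have h : g ∈ N ⊔ P := by rw [hprod]; trivial
  have h2 : g ∈ ((N ⊔ P : Subgroup G) : Set G) := h
  rw [Subgroup.normal_mul] at h2
  obtain ⟨n, hn, p, hp, rfl⟩ := Set.mem_mul.1 h2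
  exact ⟨n, hn, p, hp, rfl⟩

omit [Finite G] in
theorem inverts (N P : Subgroup G) (hN : N.Normal) (hcomm : ∀ a ∈ N, ∀ b ∈ N, a * b = b * a)
    (hdisj : N ⊓ P = ⊥) (hprod : N ⊔ P = ⊤)
    (hmin : N ≠ ⊥ ∧ ∀ M : Subgroup G, M.Normal → M ≠ ⊥ → N ≤ M)
    {z : G} (hzP : z ∈ P) (hz1 : z ≠ 1) (hzz : z * z = 1) (hzc : ∀ p ∈ P, p * z = z * p) :
    ∀ n ∈ N, z * n * z⁻¹ = n⁻¹ := by
  have hzinv : z⁻¹ = z := inv_eq_of_mul_eq_one_left hzz
  set C : Subgroup G := N ⊓ Subgroup.centralizer {z} with hC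
  have hmemC : ∀ c, c ∈ C ↔ c ∈ N ∧ z * c = c * z := by
    intro c
    rw [hC, Subgroup.mem_inf, Subgroup.mem_centralizer_iff]
    simp
  have hCn : C.Normal := by
    constructor
    intro c hc g
    obtain ⟨hcN, hcz⟩ := (hmemC c).1 hc
    obtain ⟨n, hn, p, hp, rfl⟩ := exists_mul N P hN hprod g
    have h1 : p * c * p⁻¹ ∈ N := hN.conj_mem c hcN p
    have h2 : n * p * c * (n * p)⁻¹ = p * c * p⁻¹ := by
      have : n * p * c * (n * p)⁻¹ = n * (p * c * p⁻¹) * n⁻¹ := by group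
      rw [this, hcomm n hn _ h1, mul_assoc, mul_inv_cancel, mul_one]
    rw [h2, hmemC]
    refine ⟨h1, ?_⟩
    have hpz := hzc p hp
    have hpz' : p⁻¹ * z = z * p⁻¹ := by
      have := hzc p⁻¹ (P.inv_mem hp)
      exact this
    calc z * (p * c * p⁻¹) = (z * p) * c * p⁻¹ := by group
      _ = p * (z * c) * p⁻¹ := by rw [← hpz]; group
      _ = p * c * (z * p⁻¹) := by rw [hcz]; group
      _ = p * c * p⁻¹ * z := by rw [← hpz']; group
  have hCbot : C = ⊥ := by
    by_contra hne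
    have hNC := hmin.2 C hCn hne
    -- z is central
    have hzG : ∀ g : G, g * z = z * g := by
      intro g
      obtain ⟨n, hn, p, hp, rfl⟩ := exists_mul N P hN hprod g
      have h1 := ((hmemC n).1 (hNC hn)).2
      rw [mul_assoc, hzc p hp, ← mul_assoc, ← h1, mul_assoc]
    have hZn : (Subgroup.zpowers z).Normal := by
      constructor
      intro x hx g
      obtain ⟨k, rfl⟩ := Subgroup.mem_zpowers_iff.1 hx
      have : g * z ^ k * g⁻¹ = z ^ k := by
        have h2 : Commute g z := hzG g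
        rw [(h2.zpow_right k).eq, mul_assoc, mul_inv_cancel, mul_one]
      rw [this]
      exact hx
    have hZne : Subgroup.zpowers z ≠ ⊥ := by
      intro h
      exact hz1 (Subgroup.zpowers_eq_bot.1 h)
    have hNZ := hmin.2 _ hZn hZne
    have hNP : N ≤ P := hNZ.trans ((Subgroup.zpowers_le).2 hzP)
    apply hmin.1
    rw [← hdisj]
    exact (inf_eq_left.2 hNP).symm
  intro n hn
  have h1 : z * n * z⁻¹ ∈ N := hN.conj_mem n hn z
  have h2 : n * (z * n * z⁻¹) ∈ C := by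
    rw [hmemC]
    refine ⟨N.mul_mem hn h1, ?_⟩
    rw [hzinv]
    have hm : z * n * z ∈ N := by
      have := h1
      rwa [hzinv] at this
    calc z * (n * (z * n * z)) = (z * n * z) * n * z := by group
      _ = n * (z * n * z) * z := by rw [hcomm _ hm n hn]
  rw [hCbot, Subgroup.mem_bot] at h2
  exact (eq_inv_of_mul_eq_one_right h2)

omit [Finite G] in
/-- retraction onto the complement -/
theorem exists_retract (N P : Subgroup G) (hN : N.Normal) (hdisj : N ⊓ P = ⊥)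
    (hprod : N ⊔ P = ⊤) :
    ∃ π : G →* G, (∀ g, π g ∈ P) ∧ (∀ g, g * (π g)⁻¹ ∈ N) ∧ (∀ p ∈ P, π p = p) ∧
      Nat.card P = N.index := by
  set f : P →* G ⧸ N := (QuotientGroup.mk' N).comp P.subtype with hf
  have hinj : Function.Injective f := by
    rw [injective_iff_map_eq_one]
    intro p hp
    have h1 : (p : G) ∈ N := (QuotientGroup.eq_one_iff (p : G)).1 hp
    have h2 : (p : G) ∈ N ⊓ P := ⟨h1, p.2⟩
    rw [hdisj, Subgroup.mem_bot] at h2
    exact Subtype.ext h2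
  have hsurj : Function.Surjective f := by
    intro x
    obtain ⟨g, rfl⟩ := QuotientGroup.mk'_surjective N x
    obtain ⟨n, hn, p, hp, rfl⟩ := exists_mul N P hN hprod g
    refine ⟨⟨p, hp⟩, ?_⟩
    rw [map_mul]
    have : QuotientGroup.mk' N n = 1 := (QuotientGroup.eq_one_iff n).2 hn
    rw [this, one_mul]
    rfl
  set e : P ≃* G ⧸ N := MulEquiv.ofBijective f ⟨hinj, hsurj⟩ with he
  refine ⟨P.subtype.comp (e.symm.toMonoidHom.comp (QuotientGroup.mk' N)), ?_, ?_, ?_, ?_⟩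
  · intro g
    exact (e.symm (QuotientGroup.mk' N g)).2
  · intro g
    rw [← QuotientGroup.eq_one_iff]
    have h1 : QuotientGroup.mk' N ((e.symm (QuotientGroup.mk' N g) : P) : G) =
        QuotientGroup.mk' N g := e.apply_symm_apply _
    show QuotientGroup.mk' N (g * ((e.symm (QuotientGroup.mk' N g) : P) : G)⁻¹) = 1
    rw [map_mul, map_inv, h1, mul_inv_cancel]
  · intro p hp
    have h1 : QuotientGroup.mk' N p = e ⟨p, hp⟩ := rfl
    show ((e.symm (QuotientGroup.mk' N p) : P) : G) = p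
    rw [h1, e.symm_apply_apply]
  · exact Nat.card_congr e.toEquiv

omit [Finite G] in
theorem exists_extension (N P I : Subgroup G) (hN : N.Normal) (hdisj : N ⊓ P = ⊥)
    (hprod : N ⊔ P = ⊤) (hNI : N ≤ I) (l₀ : N →* ℂˣ)
    (hinv : ∀ g ∈ I, ∀ n : N, l₀ ⟨g * n * g⁻¹, hN.conj_mem n n.2 g⟩ = l₀ n) :
    ∃ ψ₀ : I →* ℂˣ, (∀ n : N, ψ₀ (Subgroup.inclusion hNI n) = l₀ n) ∧
      (∀ x : I, (x : G) ∈ P → ψ₀ x = 1) := by
  obtain ⟨π, hπP, hπN, hπp, -⟩ := exists_retract N P hN hdisj hprod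
  set ν : G → N := fun g => ⟨g * (π g)⁻¹, hπN g⟩ with hν
  have hπI : ∀ a ∈ I, π a ∈ I := by
    intro a ha
    have : π a = (a * (π a)⁻¹)⁻¹ * a := by group
    rw [this]
    exact I.mul_mem (I.inv_mem (hNI (hπN a))) ha
  have hmul : ∀ a b : I, l₀ (ν ((a * b : I) : G)) = l₀ (ν a) * l₀ (ν b) := by
    intro a b
    have e : ν ((a * b : I) : G) =
        ν a * ⟨π a * (ν b : N) * (π a)⁻¹, hN.conj_mem _ (ν b).2 (π a)⟩ := by
      apply Subtype.ext
      simp only [hν, Subgroup.coe_mul, map_mul]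
      group
    rw [e, map_mul, hinv (π a) (hπI a a.2)]
  refine ⟨MonoidHom.mk' (fun x : I => l₀ (ν x)) hmul, ?_, ?_⟩
  · intro n
    show l₀ (ν (n : G)) = l₀ n
    have h1 : π (n : G) ∈ N := by
      have h2 := hπN (n : G)
      have h3 : π (n : G) = (n * (π (n : G))⁻¹)⁻¹ * n := by group
      rw [h3]
      exact N.mul_mem (N.inv_mem h2) n.2
    have h2 : π (n : G) ∈ N ⊓ P := ⟨h1, hπP _⟩
    rw [hdisj, Subgroup.mem_bot] at h2
    congr 1
    apply Subtype.ext
    simp [hν, h2]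
  · intro x hx
    show l₀ (ν (x : G)) = 1
    have : ν (x : G) = 1 := by
      apply Subtype.ext
      simp [hν, hπp _ hx]
    rw [this, map_one]

end Cfsg.Agent.H25.InvAct
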