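import Mathlib
import Cfsg.Agent.H25.FSCount
import Cfsg.Agent.H25.InvAct

set_option autoImplicit false

namespace Cfsg.Agent.H25.FSInd

open Cfsg Cfsg.Agent.CharLib Cfsg.Agent.Lib.Helper10 Cfsg.Agent.Lib.Helper23 Cfsg.Agent.H25
open scoped ComplexConjugate

universe u

theorem fsInd_indFun_of_invol {G : Type u} [Group G] [Fintype G] (N P I : Subgroup G)
    (hN : N.Normal) [Fintype N] [Fintype I] (hprod : N ⊔ P = ⊤) (hNI : N ≤ I) (l₀ : N →* ℂˣ)
    (hT : ∀ g, g ∈ I ↔ H2.conjFun hN (fun n => ((l₀ n : ℂˣ) : ℂ)) g = fun n => ((l₀ n : ℂˣ) : ℂ))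
    {z : G} (hzz : z * z = 1) (hzc : ∀ p ∈ P, p * z = z * p)
    (hzinv : ∀ n ∈ N, z * n * z⁻¹ = n⁻¹)
    (θ₀ : I →* ℂˣ) (hres : ∀ n : N, θ₀ (Subgroup.inclusion hNI n) = l₀ n)
    (hsq : ∀ x : I, (x : G) ∈ P → θ₀ (x * x) = 1) :
    fsInd (indFun I (fun x => ((θ₀ x : ℂˣ) : ℂ))) = 1 := by
  classical
  set φ : N → ℂ := fun n => ((l₀ n : ℂˣ) : ℂ) with hφdef
  have hφ : IsIrrCharacter N φ := isIrrCharacter_of_hom l₀
  have hθ : IsIrrCharacter I (fun x => ((θ₀ x : ℂˣ) : ℂ)) := isIrrCharacter_of_hom θ₀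
  rw [fsInd_indFun' N I hN hNI hφ hθ (by
    intro n
    show ((θ₀ _ : ℂˣ) : ℂ) = _
    rw [hres])]
  have hinv : ∀ m : N, φ m⁻¹ = conj (φ m) := by
    obtain ⟨k, ρ, -, hρ⟩ := hφ
    intro m
    rw [← hρ]
    exact character_inv ρ m
  have hCz : H2.conjFun hN φ z = fun n => conj (φ n) := by
    funext n
    rw [H2.conjFun_apply, ← hinv]
    congr 1
    exact Subtype.ext (hzinv n n.2)
  have hC : ∀ t, (H2.conjFun hN φ (z * t) = fun n => conj (φ n)) ↔ t ∈ I := by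
    intro t
    rw [← H2.conjFun_conjFun, hCz, H2.conjFun_conj, hT]
    constructor
    · intro h
      funext n
      exact (starRingEnd ℂ).injective (congrFun h n)
    · intro h
      rw [h]
  rw [← Equiv.sum_comp (Equiv.mulLeft z)]
  have hsum : ∀ F : G → ℂ, (∀ t, F t = extendByZero I (fun _ => (1 : ℂ)) t) →
      (Nat.card I : ℂ)⁻¹ * ∑ t : G, F t = 1 := by
    intro F hF
    rw [Finset.sum_congr rfl fun t _ => hF t, H2.sum_extendByZero, Finset.sum_const,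
      Finset.card_univ, nsmul_eq_mul, mul_one, ← Nat.card_eq_fintype_card]
    exact inv_mul_cancel₀ card_ne_zero_complex
  apply hsum
  · intro t
    by_cases ht : t ∈ I
    · have hc : H2.conjFun hN φ ((Equiv.mulLeft z) t) = fun n => conj (φ n) := (hC t).2 ht
      rw [if_pos hc, H2.extendByZero_of_mem I _ ht]
      show extendByZero I _ (z * t * (z * t)) = 1
      obtain ⟨n, hn, p, hp, rfl⟩ := InvAct.exists_mul N P hN hprod t
      have hpI : p ∈ I := by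
        have : p = n⁻¹ * (n * p) := by group
        rw [this]
        exact I.mul_mem (I.inv_mem (hNI hn)) ht
      have hzn : z * n = n⁻¹ * z := by
        rw [← hzinv n hn]; group
      have e : z * (n * p) * (z * (n * p)) =
          (((⟨n, hNI hn⟩ : I)⁻¹ * ⟨p, hpI⟩ * ⟨n, hNI hn⟩ * ⟨p, hpI⟩ : I) : G) := by
        show _ = n⁻¹ * p * n * p
        calc z * (n * p) * (z * (n * p)) = (z * n) * (p * z) * n * p := by group
          _ = n⁻¹ * (z * z) * p * n * p := by rw [hzn, hzc p hp]; group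
          _ = n⁻¹ * p * n * p := by rw [hzz, mul_one]
      rw [e, H2.extendByZero_coe]
      have h1 : θ₀ ((⟨n, hNI hn⟩ : I)⁻¹ * ⟨p, hpI⟩ * ⟨n, hNI hn⟩ * ⟨p, hpI⟩) = 1 := by
        rw [← hsq ⟨p, hpI⟩ hp]
        simp only [map_mul, map_inv]
        rw [mul_comm (θ₀ ⟨n, hNI hn⟩)⁻¹, mul_assoc (θ₀ ⟨p, hpI⟩), inv_mul_cancel, mul_one]
      show ((θ₀ _ : ℂˣ) : ℂ) = 1
      rw [h1]
      rfl
    · have hc : ¬ (H2.conjFun hN φ ((Equiv.mulLeft z) t) = fun n => conj (φ n)) :=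
        fun h => ht ((hC t).1 h)
      rw [if_neg hc, H2.extendByZero_of_not_mem I _ ht]

end Cfsg.Agent.H25.FSInd
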