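import Mathlib
import Cfsg.Agent.H25.NormalSum

set_option autoImplicit false

namespace Cfsg.Agent.H25

open Cfsg Cfsg.Agent.CharLib Module
open scoped ComplexConjugate

universe u

variable {G : Type u} [Group G]

/-- `χ` is non-zero exactly on `1` and on the class of `g ≠ 1`. -/
structure TwoClass (χ : IrrCharacter G) (g : G) : Prop where
  ne_one : g ≠ 1
  ne_zero : (χ : G → ℂ) g ≠ 0
  supp : ∀ x, (χ : G → ℂ) x ≠ 0 → x = 1 ∨ IsConj g x

theorem exists_twoClass (χ : IrrCharacter G)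
    (hχ : Nat.card {C : ConjClasses G // ∃ g ∈ C.carrier, (χ : G → ℂ) g ≠ 0} = 2) :
    ∃ g, TwoClass χ g := by
  obtain ⟨C₁, C₂, hne, huniv⟩ := Nat.card_eq_two_iff.1 hχ
  have h1 : ∃ g ∈ (ConjClasses.mk (1 : G)).carrier, (χ : G → ℂ) g ≠ 0 :=
    ⟨1, ConjClasses.mem_carrier_mk, irr_apply_one_ne_zero χ⟩
  -- there is a class in the set different from the class of 1
  obtain ⟨C, hC⟩ : ∃ C : {C : ConjClasses G // ∃ g ∈ C.carrier, (χ : G → ℂ) g ≠ 0},
      C.1 ≠ ConjClasses.mk 1 := by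
    by_contra hcon
    push Not at hcon
    exact hne (Subtype.ext ((hcon C₁).trans (hcon C₂).symm))
  obtain ⟨g, hgC, hg0⟩ := C.2
  rw [ConjClasses.mem_carrier_iff_mk_eq] at hgC
  refine ⟨g, ?_, hg0, ?_⟩
  · rintro rfl
    exact hC hgC.symm
  · intro x hx
    let Cx : {C : ConjClasses G // ∃ g ∈ C.carrier, (χ : G → ℂ) g ≠ 0} :=
      ⟨ConjClasses.mk x, x, ConjClasses.mem_carrier_mk, hx⟩
    let C1 : {C : ConjClasses G // ∃ g ∈ C.carrier, (χ : G → ℂ) g ≠ 0} :=
      ⟨ConjClasses.mk 1, h1⟩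
    have hC1 : C ≠ C1 := fun h => hC (congrArg Subtype.val h)
    -- three elements of a two element set
    have hmem : ∀ D : {C : ConjClasses G // ∃ g ∈ C.carrier, (χ : G → ℂ) g ≠ 0},
        D = C₁ ∨ D = C₂ := by
      intro D
      have : D ∈ ({C₁, C₂} : Set _) := by rw [huniv]; trivial
      simpa using this
    have : Cx = C1 ∨ Cx = C := by
      rcases hmem Cx with h | h <;> rcases hmem C1 with h' | h' <;> rcases hmem C with h'' | h''
      all_goals first
        | (left; rw [h, h']; done)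
        | (right; rw [h, h'']; done)
        | (exfalso; apply hC1; rw [h', h''])
    rcases this with h | h
    · left
      have h2 : ConjClasses.mk x = ConjClasses.mk 1 := congrArg Subtype.val h
      rw [ConjClasses.mk_eq_mk_iff_isConj] at h2
      exact isConj_one_left.1 h2
    · right
      have h2 : ConjClasses.mk x = C.1 := congrArg Subtype.val h
      rw [← hgC, ConjClasses.mk_eq_mk_iff_isConj] at h2
      exact h2.symm

section fin

variable [Fintype G] {χ : IrrCharacter G} {g : G}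

theorem TwoClass.sum_eq (h : TwoClass χ g) {f : G → ℂ} (hf : IsClassFunction G f) :
    ∑ x : G, (χ : G → ℂ) x * f x =
      (χ : G → ℂ) 1 * f 1 + ((Subgroup.centralizer {g}).index : ℂ) * ((χ : G → ℂ) g * f g) := by
  classical
  have hcl := isClassFunction_of_irr χ.2
  have hprod : IsClassFunction G (fun x => (χ : G → ℂ) x * f x) := by
    intro x c
    simp only [hcl x c, hf x c]
  have h1 : ∀ x : G, (χ : G → ℂ) x * f x =
      (if x = 1 then (χ : G → ℂ) 1 * f 1 else 0) +
        (if IsConj g x then (1 : ℂ) else 0) * ((χ : G → ℂ) x * f x) := by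
    intro x
    by_cases hx1 : x = 1
    · subst hx1
      have : ¬ IsConj g 1 := fun hc => h.ne_one (isConj_one_left.1 hc)
      rw [if_pos rfl, if_neg this, zero_mul, add_zero]
    · by_cases hc : IsConj g x
      · rw [if_neg hx1, if_pos hc, one_mul, zero_add]
      · have : (χ : G → ℂ) x = 0 := by
          by_contra h0
          rcases h.supp x h0 with h2 | h2
          · exact hx1 h2
          · exact hc h2
        rw [if_neg hx1, if_neg hc, this]; simp
  rw [Finset.sum_congr rfl (fun x _ => h1 x), Finset.sum_add_distrib, sum_indicator_mul g hprod]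
  simp

theorem TwoClass.index_pos : 0 < (Subgroup.centralizer ({g} : Set G)).index :=
  Nat.pos_of_ne_zero Subgroup.index_ne_zero_of_finite

theorem TwoClass.ne_trivial (h : TwoClass χ g) (hG : 2 < Nat.card G) :
    (χ : G → ℂ) ≠ fun _ => 1 := by
  intro hχ
  have h1 := h.sum_eq (f := fun _ => 1) (fun _ _ => rfl)
  simp only [hχ, mul_one, Finset.sum_const, Finset.card_univ, nsmul_eq_mul] at h1
  have h2 : Fintype.card G = 1 + (Subgroup.centralizer ({g} : Set G)).index := by
    exact_mod_cast h1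
  have h3 : (Subgroup.centralizer ({g} : Set G)).index ∣ Nat.card G :=
    Subgroup.index_dvd_card _
  rw [Nat.card_eq_fintype_card] at h3 hG
  rw [h2] at h3
  have h4 : (Subgroup.centralizer ({g} : Set G)).index ∣ 1 := by
    have := (Nat.dvd_add_left (dvd_refl (Subgroup.centralizer ({g} : Set G)).index)).1 h3
    exact this
  have h5 := Nat.dvd_one.1 h4
  omega

theorem TwoClass.inner_eq (h : TwoClass χ g) (ψ : IrrCharacter G) :
    (Nat.card G : ℂ) * classInner (χ : G → ℂ) (ψ : G → ℂ) =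
      (χ : G → ℂ) 1 * (ψ : G → ℂ) 1 +
        ((Subgroup.centralizer {g}).index : ℂ) * ((χ : G → ℂ) g * conj ((ψ : G → ℂ) g)) := by
  have hcl := isClassFunction_of_irr ψ.2
  have h1 := h.sum_eq (f := fun x => conj ((ψ : G → ℂ) x)) (fun x c => by
    show conj ((ψ : G → ℂ) (c * x * c⁻¹)) = conj ((ψ : G → ℂ) x)
    rw [hcl])
  rw [classInner, ← mul_assoc, mul_inv_cancel₀ card_ne_zero_complex, one_mul, h1,
    conj_irr_apply_one]

theorem TwoClass.rel_one (h : TwoClass χ g) (hG : 2 < Nat.card G) :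
    (χ : G → ℂ) 1 + ((Subgroup.centralizer {g}).index : ℂ) * (χ : G → ℂ) g = 0 := by
  have h1 := h.inner_eq ⟨fun _ => 1, isIrrCharacter_one⟩
  rw [classInner_irr_ne χ.2 isIrrCharacter_one (h.ne_trivial hG)] at h1
  simpa using h1.symm

/-- every other irreducible character has `g` in its kernel -/
theorem TwoClass.mem_ker (h : TwoClass χ g) (hG : 2 < Nat.card G) {ψ : IrrCharacter G}
    (hψ : ψ ≠ χ) : (ψ : G → ℂ) g = (ψ : G → ℂ) 1 := by
  have h1 := h.inner_eq ψ
  rw [classInner_irr_ne χ.2 ψ.2 (fun he => hψ (Subtype.ext he.symm)), mul_zero] at h1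
  have h2 := h.rel_one hG
  have h3 : (χ : G → ℂ) 1 * ((ψ : G → ℂ) 1 - conj ((ψ : G → ℂ) g)) = 0 := by
    linear_combination (-1 : ℂ) * h1 - conj ((ψ : G → ℂ) g) * h2
  rcases mul_eq_zero.1 h3 with h4 | h4
  · exact absurd h4 (irr_apply_one_ne_zero χ)
  · have h5 : conj ((ψ : G → ℂ) g) = (ψ : G → ℂ) 1 := (sub_eq_zero.1 h4).symm
    have h6 := congrArg conj h5
    rwa [Complex.conj_conj, conj_irr_apply_one] at h6

theorem TwoClass.norm_eq (h : TwoClass χ g) :
    (χ : G → ℂ) 1 * (χ : G → ℂ) 1 +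
        ((Subgroup.centralizer {g}).index : ℂ) * ((χ : G → ℂ) g * conj ((χ : G → ℂ) g)) =
      (Nat.card G : ℂ) := by
  have h1 := h.inner_eq χ
  rw [classInner_irr_self χ.2, mul_one] at h1
  exact h1.symm

/-- the value of `χ` at a non-identity element of the intersection of the other kernels -/
theorem TwoClass.ne_zero_of_ker (h : TwoClass χ g) {x : G}
    (hx : ∀ ψ : IrrCharacter G, ψ ≠ χ → (ψ : G → ℂ) x = (ψ : G → ℂ) 1) :
    (χ : G → ℂ) x ≠ 0 := by
  classical
  intro h0
  have hx1 : x ≠ 1 := by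
    rintro rfl
    exact irr_apply_one_ne_zero χ h0
  have h1 := sum_irr_one_mul x
  rw [if_neg hx1, ← Finset.add_sum_erase _ _ (Finset.mem_univ χ), h0, mul_zero, zero_add] at h1
  have h2 := sum_irr_sq (G := G)
  rw [← Finset.add_sum_erase _ _ (Finset.mem_univ χ)] at h2
  have h3 : ∑ ψ ∈ Finset.univ.erase χ, (ψ : G → ℂ) 1 ^ 2 = 0 := by
    rw [← h1]
    refine Finset.sum_congr rfl fun ψ hψ => ?_
    rw [hx ψ (Finset.ne_of_mem_erase hψ), sq]
  rw [h3, add_zero] at h2
  have h4 := h.norm_eq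
  rw [← h2] at h4
  have h5 : ((Subgroup.centralizer {g}).index : ℂ) * ((χ : G → ℂ) g * conj ((χ : G → ℂ) g)) = 0 := by
    linear_combination h4
  rcases mul_eq_zero.1 h5 with h6 | h6
  · exact index_centralizer_ne_zero g h6
  · rcases mul_eq_zero.1 h6 with h7 | h7
    · exact h.ne_zero h7
    · exact h.ne_zero ((map_eq_zero conj).1 h7)

theorem TwoClass.ne_zero_iff (h : TwoClass χ g) (hG : 2 < Nat.card G) (x : G) :
    (χ : G → ℂ) x ≠ 0 ↔ ∀ ψ : IrrCharacter G, ψ ≠ χ → (ψ : G → ℂ) x = (ψ : G → ℂ) 1 := by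
  constructor
  · intro hx ψ hψ
    rcases h.supp x hx with rfl | hc
    · rfl
    · rw [← isClassFunction_apply_of_isConj (isClassFunction_of_irr ψ.2) hc]
      exact h.mem_ker hG hψ
  · exact h.ne_zero_of_ker

/-- the support of `χ`, as a subgroup -/
def TwoClass.support (h : TwoClass χ g) (hG : 2 < Nat.card G) : Subgroup G where
  carrier := {x | (χ : G → ℂ) x ≠ 0}
  one_mem' := irr_apply_one_ne_zero χ
  mul_mem' := by
    intro x y hx hy
    change _ ≠ _ at hx hy ⊢
    rw [h.ne_zero_iff hG] at hx hy ⊢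
    intro ψ hψ
    rw [irr_mul_of_mem_ker ψ (hy ψ hψ), hx ψ hψ]
  inv_mem' := by
    intro x hx
    change _ ≠ _ at hx ⊢
    rw [isCharacter_inv (isCharacter_of_irr χ.2)]
    exact fun h0 => hx ((map_eq_zero conj).1 h0)

theorem TwoClass.mem_support (h : TwoClass χ g) (hG : 2 < Nat.card G) {x : G} :
    x ∈ h.support hG ↔ (χ : G → ℂ) x ≠ 0 := Iff.rfl

theorem TwoClass.support_normal (h : TwoClass χ g) (hG : 2 < Nat.card G) :
    (h.support hG).Normal := by
  refine ⟨fun x hx c => ?_⟩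
  rw [h.mem_support hG] at hx ⊢
  rwa [isClassFunction_of_irr χ.2]

end fin

/-- A non-trivial normal subgroup of a finite group all of whose non-identity elements are
conjugate in the group is elementary abelian. -/
theorem elemAb_of_conj_transitive [Finite G] (N : Subgroup G) (hN : N.Normal) (hN1 : N ≠ ⊥)
    (htr : ∀ x ∈ N, ∀ y ∈ N, x ≠ 1 → y ≠ 1 → ∃ c : G, c * x * c⁻¹ = y) :
    ∃ p : ℕ, p.Prime ∧ IsMulCommutative N ∧ ∀ a ∈ N, a ^ p = 1 := by
  have hcard : Nat.card N ≠ 1 := by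
    intro h
    exact hN1 ((Subgroup.card_eq_one).1 h)
  obtain ⟨p, hp, hdvd⟩ := Nat.exists_prime_and_dvd hcard
  have : Fact p.Prime := ⟨hp⟩
  obtain ⟨⟨x, hxN⟩, hx⟩ := exists_prime_orderOf_dvd_card' p hdvd
  have hxo : orderOf x = p := by
    rw [← hx]; exact (Subgroup.orderOf_mk x hxN).symm
  have hx1 : x ≠ 1 := by
    rintro rfl
    rw [orderOf_one] at hxo
    exact hp.one_lt.ne hxo
  have hpow : ∀ a ∈ N, a ^ p = 1 := by
    intro a ha
    by_cases ha1 : a = 1
    · rw [ha1, one_pow]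
    · obtain ⟨c, rfl⟩ := htr x hxN a ha hx1 ha1
      rw [conj_pow, ← hxo, pow_orderOf_eq_one]; group
  refine ⟨p, hp, ?_, hpow⟩
  have hpg : IsPGroup p N := by
    intro a
    refine ⟨1, ?_⟩
    apply Subtype.ext
    simpa using hpow a.1 a.2
  have : Nontrivial N := (Subgroup.nontrivial_iff_ne_bot N).2 hN1
  have : Finite N := inferInstance
  have hcn : Nontrivial (Subgroup.center N) := hpg.center_nontrivial
  obtain ⟨⟨⟨z, hzN⟩, hz⟩, hz1⟩ := exists_ne (1 : Subgroup.center N)
  have hz1' : z ≠ 1 := by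
    intro h
    apply hz1
    apply Subtype.ext
    apply Subtype.ext
    exact h
  have hzc : ∀ n ∈ N, n * z = z * n := by
    intro n hn
    have := Subgroup.mem_center_iff.1 hz ⟨n, hn⟩
    exact congrArg Subtype.val this
  refine ⟨⟨?_⟩⟩
  rintro ⟨a, ha⟩ ⟨b, hb⟩
  apply Subtype.ext
  show a * b = b * a
  by_cases ha1 : a = 1
  · rw [ha1]; simp
  obtain ⟨c, rfl⟩ := htr z hzN a ha hz1' ha1
  have h1 : c⁻¹ * b * c ∈ N := by
    have := hN.conj_mem b hb c⁻¹
    simpa using this
  have h2 := hzc _ h1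
  calc c * z * c⁻¹ * b = c * (z * (c⁻¹ * b * c)) * c⁻¹ := by group
    _ = c * ((c⁻¹ * b * c) * z) * c⁻¹ := by rw [h2]
    _ = b * (c * z * c⁻¹) := by group

end Cfsg.Agent.H25
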