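import Mathlib
import Cfsg.Agent.H25.Gagola
import Cfsg.Agent.CharLib.Ind
import Cfsg.Agent.S0189
import Cfsg.Agent.S0193

set_option autoImplicit false

namespace Cfsg.Agent.H25

open Cfsg Cfsg.Agent.CharLib Module
open scoped ComplexConjugate

universe u

variable {G : Type u} [Group G] [Fintype G]

/-- Sum of a class function supported on `1` and the class of `g`. -/
theorem sum_two_class {F : G → ℂ} (hF : IsClassFunction G F) {g : G} (hg : g ≠ 1)
    (hsupp : ∀ x, F x ≠ 0 → x = 1 ∨ IsConj g x) :
    ∑ x : G, F x = F 1 + ((Subgroup.centralizer {g}).index : ℂ) * F g := by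
  classical
  have h1 : ∀ x : G, F x =
      (if x = 1 then F 1 else 0) + (if IsConj g x then (1 : ℂ) else 0) * F x := by
    intro x
    by_cases hx1 : x = 1
    · subst hx1
      have : ¬ IsConj g 1 := fun hc => hg (isConj_one_left.1 hc)
      rw [if_pos rfl, if_neg this, zero_mul, add_zero]
    · by_cases hc : IsConj g x
      · rw [if_neg hx1, if_pos hc, one_mul, zero_add]
      · have : F x = 0 := by
          by_contra h0
          rcases hsupp x h0 with h2 | h2
          · exact hx1 h2
          · exact hc h2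
        rw [if_neg hx1, if_neg hc, this]; simp
  rw [Finset.sum_congr rfl (fun x _ => h1 x), Finset.sum_add_distrib, sum_indicator_mul g hF]
  simp

variable {χ : IrrCharacter G} {g : G}

/-- the order of the support -/
theorem TwoClass.card_support (h : TwoClass χ g) {N : Subgroup G}
    (hN : ∀ x, x ∈ N ↔ (χ : G → ℂ) x ≠ 0) :
    Nat.card N = 1 + (Subgroup.centralizer ({g} : Set G)).index := by
  classical
  have hcl := isClassFunction_of_irr χ.2
  have hF : IsClassFunction G (fun x => if x ∈ N then (1 : ℂ) else 0) := by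
    intro x c
    have : c * x * c⁻¹ ∈ N ↔ x ∈ N := by rw [hN, hN, hcl]
    simp only [this]
  have h1 := sum_two_class hF h.ne_one (fun x hx => by
    apply h.supp
    rw [← hN]
    by_contra hxN
    simp [hxN] at hx)
  rw [if_pos N.one_mem, if_pos ((hN g).2 h.ne_zero), mul_one, Finset.sum_boole] at h1
  have h2 : Nat.card N = (Finset.univ.filter (fun x => x ∈ N)).card := by
    rw [Nat.card_eq_fintype_card, Fintype.card_subtype]
  rw [h2]
  exact_mod_cast h1

/-- the basic numerical relation `c |G| = χ(1)² (c + 1)` -/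
theorem TwoClass.card_relation (h : TwoClass χ g) (hG : 2 < Nat.card G) {a : ℕ}
    (ha : (χ : G → ℂ) 1 = a) :
    (Subgroup.centralizer ({g} : Set G)).index * Nat.card G =
      a ^ 2 * (1 + (Subgroup.centralizer ({g} : Set G)).index) := by
  have h1 := h.rel_one hG
  have h2 := h.norm_eq
  have h3 := congrArg conj h1
  rw [map_add, map_mul, map_natCast, conj_irr_apply_one, map_zero] at h3
  rw [ha] at h1 h2 h3
  have h4 : ((Subgroup.centralizer ({g} : Set G)).index : ℂ) * (Nat.card G : ℂ) =
      (a : ℂ) ^ 2 * (1 + ((Subgroup.centralizer ({g} : Set G)).index : ℂ)) := by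
    rw [← h2]
    have e1 : ((Subgroup.centralizer ({g} : Set G)).index : ℂ) * (χ : G → ℂ) g = -a := by
      linear_combination h1
    have e2 : ((Subgroup.centralizer ({g} : Set G)).index : ℂ) * conj ((χ : G → ℂ) g) = -a := by
      linear_combination h3
    linear_combination ((Subgroup.centralizer ({g} : Set G)).index : ℂ) * conj ((χ : G → ℂ) g) * e1
      - (a : ℂ) * e2
  exact_mod_cast h4

/-- The centralizer of `g` has `p`-power order and index prime to `p`. -/
theorem TwoClass.centralizer_card (h : TwoClass χ g) (hG : 2 < Nat.card G) {N : Subgroup G}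
    (hN : ∀ x, x ∈ N ↔ (χ : G → ℂ) x ≠ 0) (p : ℕ) [hp : Fact p.Prime] (hNp : IsPGroup p N) :
    (∃ k, Nat.card (Subgroup.centralizer ({g} : Set G)) = p ^ k) ∧
      ¬ p ∣ (Subgroup.centralizer ({g} : Set G)).index := by
  set c := (Subgroup.centralizer ({g} : Set G)).index with hc
  have hc0 : c ≠ 0 := Subgroup.index_ne_zero_of_finite
  obtain ⟨n, hn⟩ := IsPGroup.iff_card.1 hNp
  have hcard := h.card_support hN
  rw [hn] at hcard
  have hn0 : n ≠ 0 := by
    rintro rfl
    rw [pow_zero] at hcard
    omega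
  obtain ⟨a, ha0, ha⟩ := irr_apply_one_nat χ
  have hrel := h.card_relation hG ha
  rw [← hc, ← hcard] at hrel
  have hGC : c * Nat.card (Subgroup.centralizer ({g} : Set G)) = Nat.card G :=
    Subgroup.index_mul_card _
  have hC0 : Nat.card (Subgroup.centralizer ({g} : Set G)) ≠ 0 := Nat.card_pos.ne'
  have hG0 : Nat.card G ≠ 0 := Nat.card_pos.ne'
  refine ⟨⟨_, Nat.eq_prime_pow_of_unique_prime_dvd hC0 ?_⟩, ?_⟩
  · intro q hq hqC
    by_contra hqp
    have : Fact q.Prime := ⟨hq⟩
    obtain ⟨Q⟩ : Nonempty (Sylow q G) := inferInstance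
    have hvan : ∀ x : G, x ∈ Q → x ≠ 1 → (χ : G → ℂ) x = 0 := by
      intro x hxQ hx1
      by_contra h0
      have hxN : x ∈ N := (hN x).2 h0
      obtain ⟨i, hi⟩ := hNp ⟨x, hxN⟩
      obtain ⟨j, hj⟩ := Q.2 ⟨x, hxQ⟩
      have hi' : x ^ p ^ i = 1 := by simpa using congrArg Subtype.val hi
      have hj' : x ^ q ^ j = 1 := by simpa using congrArg Subtype.val hj
      have hcop : Nat.Coprime (p ^ i) (q ^ j) :=
        Nat.Coprime.pow _ _ ((Nat.coprime_primes hp.out hq).2 (Ne.symm hqp))
      apply hx1
      have h1 := orderOf_dvd_of_pow_eq_one hi'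
      have h2 := orderOf_dvd_of_pow_eq_one hj'
      have h3 : orderOf x ∣ 1 := by
        rw [← Nat.Coprime.gcd_eq_one hcop]
        exact Nat.dvd_gcd h1 h2
      exact orderOf_eq_one_iff.1 (Nat.dvd_one.1 h3)
    obtain ⟨k', hk'⟩ := Cfsg.Agent.S0189.result q Q (χ : G → ℂ) (isCharacter_of_irr χ.2) hvan
    rw [ha] at hk'
    have hk'' : a = Nat.card Q * k' := by exact_mod_cast hk'
    have hQ := Q.card_eq_multiplicity
    -- valuations at q
    have v1 : (Nat.card G).factorization q ≤ a.factorization q := by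
      have hdvd : q ^ (Nat.card G).factorization q ∣ a := by
        rw [← hQ, hk'']; exact dvd_mul_right _ _
      exact (hq.pow_dvd_iff_le_factorization ha0.ne').1 hdvd
    have v2 : (c * Nat.card G).factorization q = (a ^ 2 * p ^ n).factorization q := by rw [hrel]
    rw [Nat.factorization_mul hc0 hG0, Nat.factorization_mul (pow_ne_zero _ ha0.ne')
      (pow_ne_zero _ hp.out.ne_zero), Nat.factorization_pow, Nat.factorization_pow] at v2
    simp only [Finsupp.coe_add, Finsupp.coe_smul, Pi.add_apply, Pi.smul_apply, smul_eq_mul] at v2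
    have v3 : p.factorization q = 0 := by
      apply Nat.factorization_eq_zero_of_not_dvd
      intro hd
      exact hqp ((Nat.prime_dvd_prime_iff_eq hq hp.out).1 hd)
    rw [v3, mul_zero, add_zero] at v2
    have v4 : (c * Nat.card (Subgroup.centralizer ({g} : Set G))).factorization q = (Nat.card G).factorization q := by rw [hGC]
    rw [Nat.factorization_mul hc0 hC0] at v4
    simp only [Finsupp.coe_add, Pi.add_apply] at v4
    have v5 : 1 ≤ (Nat.card (Subgroup.centralizer ({g} : Set G))).factorization q :=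
      (hq.dvd_iff_one_le_factorization hC0).1 hqC
    omega
  · intro hpc
    have : p ∣ p ^ n := dvd_pow_self p hn0
    rw [hcard] at this
    have h1 : p ∣ 1 := (Nat.dvd_add_left hpc).1 this
    exact hp.out.one_lt.ne' (Nat.dvd_one.1 h1)

/-- Any subgroup of order `|G|/c` is a Sylow `p`-subgroup. -/
theorem TwoClass.exists_sylow_eq (h : TwoClass χ g) (hG : 2 < Nat.card G) {N : Subgroup G}
    (hN : ∀ x, x ∈ N ↔ (χ : G → ℂ) x ≠ 0) (p : ℕ) [hp : Fact p.Prime] (hNp : IsPGroup p N)
    (T : Subgroup G)
    (hT : (Subgroup.centralizer ({g} : Set G)).index * Nat.card T = Nat.card G) :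
    ∃ P : Sylow p G, (P : Subgroup G) = T := by
  obtain ⟨⟨k, hk⟩, hpc⟩ := h.centralizer_card hG hN p hNp
  have hc0 : (Subgroup.centralizer ({g} : Set G)).index ≠ 0 := Subgroup.index_ne_zero_of_finite
  have h1 : Nat.card T = Nat.card (Subgroup.centralizer ({g} : Set G)) := by
    have := Subgroup.index_mul_card (Subgroup.centralizer ({g} : Set G))
    rw [← hT] at this
    exact (Nat.eq_of_mul_eq_mul_left (Nat.pos_of_ne_zero hc0) this).symm
  have h2 : T.index = (Subgroup.centralizer ({g} : Set G)).index := by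
    have e1 := Subgroup.index_mul_card T
    rw [← hT] at e1
    exact Nat.eq_of_mul_eq_mul_right Nat.card_pos e1
  have hTp : IsPGroup p T := IsPGroup.of_card (h1.trans hk)
  exact ⟨hTp.toSylow (by rw [h2]; exact hpc), IsPGroup.toSylow_coe _ _⟩

end Cfsg.Agent.H25
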