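import Mathlib
import Cfsg.Agent.H25.Gagola2
import Cfsg.Agent.H25.NormalSum

set_option autoImplicit false

namespace Cfsg.Agent.H25

open Cfsg Cfsg.Agent.CharLib Module
open scoped ComplexConjugate

universe u

section fin

variable {G : Type u} [Group G] [Fintype G]

variable {χ : IrrCharacter G} {g : G}

/-- every other irreducible character has the whole support in its kernel -/
theorem TwoClass.mem_ker' (h : TwoClass χ g) (hG : 2 < Nat.card G) {ψ : IrrCharacter G}
    (hψ : ψ ≠ χ) {n : G} (hn : (χ : G → ℂ) n ≠ 0) : (ψ : G → ℂ) n = (ψ : G → ℂ) 1 := by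
  rcases h.supp n hn with h1 | h1
  · rw [h1]
  · rw [← isClassFunction_apply_of_isConj (isClassFunction_of_irr ψ.2) h1]
    exact h.mem_ker hG hψ

/-- an element outside the support is conjugate to all its translates by the support -/
theorem TwoClass.isConj_mul (h : TwoClass χ g) (hG : 2 < Nat.card G) {x n : G}
    (hx : (χ : G → ℂ) x = 0) (hn : (χ : G → ℂ) n ≠ 0) : IsConj x (x * n) := by
  classical
  by_contra hc
  have h1 := sum_irr_mul_conj_of_not_isConj hc
  have h2 := sum_irr_mul_conj_self x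
  have h3 : ∑ ψ : IrrCharacter G, (ψ : G → ℂ) x * conj ((ψ : G → ℂ) (x * n)) =
      ∑ ψ : IrrCharacter G, (ψ : G → ℂ) x * conj ((ψ : G → ℂ) x) := by
    refine Finset.sum_congr rfl fun ψ _ => ?_
    by_cases hψ : ψ = χ
    · rw [hψ, hx, zero_mul, zero_mul]
    · rw [irr_mul_of_mem_ker ψ (h.mem_ker' hG hψ hn)]
  rw [h3, h2] at h1
  have : Nat.card (Subgroup.centralizer ({x} : Set G)) = 0 := by exact_mod_cast h1
  exact Nat.card_pos.ne' this

theorem TwoClass.card_centralizer_quot (h : TwoClass χ g) (hG : 2 < Nat.card G) {N : Subgroup G}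
    [hNn : N.Normal] (hN : ∀ x, x ∈ N ↔ (χ : G → ℂ) x ≠ 0) {x : G} (hx : x ∉ N) :
    Nat.card (Subgroup.centralizer ({x} : Set G)) =
      Nat.card (Subgroup.centralizer ({(x : G ⧸ N)} : Set (G ⧸ N))) := by
  classical
  have hx0 : (χ : G → ℂ) x = 0 := by
    by_contra h0
    exact hx ((hN x).2 h0)
  have h1 := card_isConj_eq_index x
  have : Fintype (G ⧸ N) := Fintype.ofFinite _
  have h2 := card_isConj_eq_index (x : G ⧸ N)
  have h3 := QuotientGroup.card_preimage_mk N {y : G ⧸ N | IsConj (x : G ⧸ N) y}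
  have h4 : (QuotientGroup.mk ⁻¹' {y : G ⧸ N | IsConj (x : G ⧸ N) y} : Set G) =
      {y : G | IsConj x y} := by
    ext y
    simp only [Set.mem_preimage, Set.mem_ofPred_eq]
    constructor
    · intro hy
      obtain ⟨c, hc⟩ := isConj_iff.1 hy
      obtain ⟨c, rfl⟩ := QuotientGroup.mk_surjective c
      have h5 : ((c * x * c⁻¹ : G) : G ⧸ N) = (y : G ⧸ N) := by
        rw [← hc]; simp
      have h6 : (c * x * c⁻¹)⁻¹ * y ∈ N := QuotientGroup.eq.1 h5
      have h7 : c⁻¹ * ((c * x * c⁻¹)⁻¹ * y) * c⁻¹⁻¹ ∈ N := hNn.conj_mem _ h6 _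
      have h8 := h.isConj_mul hG hx0 ((hN _).1 h7)
      refine h8.trans (isConj_iff.2 ⟨c, ?_⟩)
      group
    · intro hy
      obtain ⟨c, hc⟩ := isConj_iff.1 hy
      rw [← hc]
      exact isConj_iff.2 ⟨(c : G ⧸ N), by simp⟩
  rw [h4] at h3
  have h5 : Nat.card ({y : G | IsConj x y} : Set G) = Nat.card {y : G // IsConj x y} := rfl
  have h6 : Nat.card ({y : G ⧸ N | IsConj (x : G ⧸ N) y} : Set (G ⧸ N)) =
      Nat.card {y : G ⧸ N // IsConj (x : G ⧸ N) y} := rfl
  rw [h5, h6, h1, h2] at h3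
  have e1 := Subgroup.index_mul_card (Subgroup.centralizer ({x} : Set G))
  have e2 := Subgroup.index_mul_card (Subgroup.centralizer ({(x : G ⧸ N)} : Set (G ⧸ N)))
  have e3 := Subgroup.card_eq_card_quotient_mul_card_subgroup N
  rw [h3, e3, ← e2] at e1
  have hpos : 0 < Nat.card N * (Subgroup.centralizer ({(x : G ⧸ N)} : Set (G ⧸ N))).index :=
    Nat.mul_pos Nat.card_pos (Nat.pos_of_ne_zero Subgroup.index_ne_zero_of_finite)
  apply Nat.eq_of_mul_eq_mul_left hpos
  rw [e1]; ring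

/-- `p`-subgroups of centralizers of elements outside the support are small. -/
theorem TwoClass.card_mul_dvd (h : TwoClass χ g) (hG : 2 < Nat.card G) {N : Subgroup G}
    [hNn : N.Normal] (hN : ∀ x, x ∈ N ↔ (χ : G → ℂ) x ≠ 0) {x : G} (hx : x ∉ N)
    (p : ℕ) [hp : Fact p.Prime] (hNp : IsPGroup p N) (P : Sylow p G) (Q : Subgroup G)
    (hQ : IsPGroup p Q) (hQx : Q ≤ Subgroup.centralizer ({x} : Set G)) :
    Nat.card Q * Nat.card N ∣ Nat.card P := by
  obtain ⟨a, ha⟩ := IsPGroup.iff_card.1 hQ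
  obtain ⟨b, hb⟩ := IsPGroup.iff_card.1 hNp
  have h1 : Nat.card Q ∣ Nat.card (Subgroup.centralizer ({x} : Set G)) :=
    Subgroup.card_dvd_of_le hQx
  rw [h.card_centralizer_quot hG hN hx] at h1
  have h2 : Nat.card Q ∣ Nat.card (G ⧸ N) := h1.trans (Subgroup.card_subgroup_dvd_card _)
  have h3 : Nat.card Q * Nat.card N ∣ Nat.card G := by
    rw [Subgroup.card_eq_card_quotient_mul_card_subgroup N]
    exact Nat.mul_dvd_mul_right h2 _
  rw [P.card_eq_multiplicity]
  rw [ha, hb, ← pow_add] at h3 ⊢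
  exact pow_dvd_pow _ ((hp.out.pow_dvd_iff_le_factorization Nat.card_pos.ne').1 h3)

end fin

/-- If all commutators of `x` with `P` lie in `Z`, then `|P| ≤ |C_P(x)| |Z|`. -/
theorem card_le_of_commutators {G : Type u} [Group G] [Finite G] (P Z : Subgroup G) (x : G)
    (h : ∀ y ∈ P, y * x * y⁻¹ * x⁻¹ ∈ Z) :
    Nat.card P ≤ Nat.card (P ⊓ Subgroup.centralizer ({x} : Set G) : Subgroup G) * Nat.card Z := by
  classical
  cases nonempty_fintype G
  let f : P → Z := fun y => ⟨y * x * y⁻¹ * x⁻¹, h y y.2⟩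
  have hcardC : Nat.card (P ⊓ Subgroup.centralizer ({x} : Set G) : Subgroup G) =
      (Finset.univ.filter
        (fun y : G => y ∈ (P ⊓ Subgroup.centralizer ({x} : Set G) : Subgroup G))).card := by
    rw [Nat.card_eq_fintype_card, Fintype.card_subtype]
  have h1 := Finset.card_le_mul_card_image (f := f) Finset.univ
    (Nat.card (P ⊓ Subgroup.centralizer ({x} : Set G) : Subgroup G)) (by
      intro z hz
      obtain ⟨y0, -, hy0⟩ := Finset.mem_image.1 hz
      rw [hcardC]
      refine Finset.card_le_card_of_injOn (fun y : P => (y0 : G)⁻¹ * y) ?_ ?_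
      · intro y hy
        have hy' : f y = z := (Finset.mem_filter.1 hy).2
        rw [← hy0] at hy'
        have e : (y : G) * x * (y : G)⁻¹ * x⁻¹ = (y0 : G) * x * (y0 : G)⁻¹ * x⁻¹ :=
          congrArg Subtype.val hy'
        have e' : (y : G) * x * (y : G)⁻¹ = (y0 : G) * x * (y0 : G)⁻¹ := mul_right_cancel e
        simp only [Finset.coe_filter, Finset.mem_univ, true_and]
        refine Subgroup.mem_inf.2 ⟨P.mul_mem (P.inv_mem y0.2) y.2, ?_⟩
        rw [Subgroup.mem_centralizer_singleton_iff]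
        calc (y0 : G)⁻¹ * y * x = (y0 : G)⁻¹ * ((y : G) * x * (y : G)⁻¹) * y := by group
          _ = (y0 : G)⁻¹ * ((y0 : G) * x * (y0 : G)⁻¹) * y := by rw [e']
          _ = x * ((y0 : G)⁻¹ * y) := by group
      · intro y _ y' _ hyy
        apply Subtype.ext
        exact mul_left_cancel hyy)
  rw [Finset.card_univ, ← Nat.card_eq_fintype_card] at h1
  refine h1.trans (Nat.mul_le_mul_left _ ?_)
  rw [Nat.card_eq_fintype_card, ← Finset.card_univ]
  exact Finset.card_le_card (Finset.subset_univ _)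

end Cfsg.Agent.H25
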