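import Mathlib
import Cfsg.Prelude.Def_Characters
import Cfsg.Agent.CharLib.Complete
import Cfsg.Agent.CharLib.PermLemma

set_option autoImplicit false

namespace Cfsg.Agent.H25.MultFree

open Module Representation Cfsg Cfsg.Agent.CharLib
open scoped ComplexConjugate

universe u v

variable {G : Type u} [Group G] [Fintype G]

/-- Generalized orthogonality relation. -/
theorem sum_conj_mul_shift (χ φ : IrrCharacter G) (x : G) :
    ∑ g : G, conj ((χ : G → ℂ) g) * (φ : G → ℂ) (g * x) =
      classInner (φ : G → ℂ) (χ : G → ℂ) * ((Nat.card G : ℂ) * (φ : G → ℂ) x / (φ : G → ℂ) 1) := by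
  have hG : (Nat.card G : ℂ) ≠ 0 := card_ne_zero_complex
  have h1 : ∀ a : G, ∑ g : G, conj ((χ : G → ℂ) g) * (φ : G → ℂ) (g * x) =
      ∑ b : G, conj ((χ : G → ℂ) b) * (φ : G → ℂ) (a * b * a⁻¹ * x) := by
    intro a
    symm
    refine Fintype.sum_equiv (MulAut.conj a).toEquiv _ _ ?_
    intro b
    simp only [MulEquiv.toEquiv_eq_coe, MulEquiv.coe_toEquiv, MulAut.conj_apply]
    rw [isClassFunction_of_irr χ.2 b a]
  have h2 : (Nat.card G : ℂ) * ∑ g : G, conj ((χ : G → ℂ) g) * (φ : G → ℂ) (g * x) =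
      ∑ a : G, ∑ b : G, conj ((χ : G → ℂ) b) * (φ : G → ℂ) (a * b * a⁻¹ * x) := by
    rw [← Finset.sum_congr rfl (fun a _ => h1 a), Finset.sum_const, Finset.card_univ,
      nsmul_eq_mul, Nat.card_eq_fintype_card]
  rw [Finset.sum_comm] at h2
  simp only [← Finset.mul_sum, sum_irr_conj_mul] at h2
  apply mul_left_cancel₀ hG
  rw [h2, classInner, Finset.mul_sum, Finset.sum_mul, Finset.mul_sum]
  refine Finset.sum_congr rfl fun b _ => ?_
  field_simp

theorem sum_conj_mul_shift_char {ψ : G → ℂ} (hψ : IsClassFunction G ψ) (χ : IrrCharacter G)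
    (x : G) :
    ∑ g : G, conj ((χ : G → ℂ) g) * ψ (g * x) =
      classInner ψ (χ : G → ℂ) * ((Nat.card G : ℂ) * (χ : G → ℂ) x / (χ : G → ℂ) 1) := by
  classical
  have hdecomp := classFunction_eq_sum hψ
  have h1 : ∀ g : G, ψ (g * x) =
      ∑ φ : IrrCharacter G, classInner ψ (φ : G → ℂ) * (φ : G → ℂ) (g * x) := by
    intro g
    have := congrFun hdecomp (g * x)
    simpa [Finset.sum_apply] using this
  simp only [h1, Finset.mul_sum]
  rw [Finset.sum_comm]
  have h2 : ∀ φ : IrrCharacter G, ∑ g : G, conj ((χ : G → ℂ) g) *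
      (classInner ψ (φ : G → ℂ) * (φ : G → ℂ) (g * x)) =
      classInner ψ (φ : G → ℂ) * (classInner (φ : G → ℂ) (χ : G → ℂ) *
        ((Nat.card G : ℂ) * (φ : G → ℂ) x / (φ : G → ℂ) 1)) := by
    intro φ
    rw [← sum_conj_mul_shift, Finset.mul_sum]
    refine Finset.sum_congr rfl fun g _ => ?_
    ring
  simp only [h2]
  rw [Finset.sum_eq_single χ]
  · rw [classInner_irr_self χ.2, one_mul]
  · intro φ _ hne
    rw [classInner_irr_ne φ.2 χ.2 (fun h => hne (Subtype.ext h))]
    simp
  · intro h; exact absurd (Finset.mem_univ _) h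

variable {V : Type v} [AddCommGroup V] [Module ℂ V] [FiniteDimensional ℂ V]

omit [Fintype G] [FiniteDimensional ℂ V] in
theorem mem_invariants_iff (σ : Representation ℂ G V) (T : V →ₗ[ℂ] V) :
    T ∈ (σ.linHom σ).invariants ↔ ∀ g, T ∘ₗ σ g = σ g ∘ₗ T := by
  constructor
  · intro h g
    have h1 : σ g ∘ₗ T ∘ₗ σ g⁻¹ = T := h g
    conv_lhs => rw [← h1]
    ext v
    simp
  · intro h g
    show σ g ∘ₗ T ∘ₗ σ g⁻¹ = T
    rw [← LinearMap.comp_assoc, ← h g]
    ext v
    simp

theorem trace_opSum_comp (σ : Representation ℂ G V) (f : G → ℂ) (x : G) :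
    LinearMap.trace ℂ V (opSum σ f ∘ₗ σ x) = ∑ g, f g * σ.character (g * x) := by
  rw [opSum, ← Module.End.mul_eq_comp, Finset.sum_mul, map_sum]
  refine Finset.sum_congr rfl fun g _ => ?_
  rw [smul_mul_assoc, map_smul, smul_eq_mul, ← map_mul]
  rfl

/-- A multiplicity-free representation has a commutative centraliser ring. -/
theorem comm_of_mult_free (σ : Representation ℂ G V)
    (h : ∀ χ : G → ℂ, IsIrrCharacter G χ →
      classInner σ.character χ = 0 ∨ classInner σ.character χ = 1)
    (S T : V →ₗ[ℂ] V) (hS : S ∈ (σ.linHom σ).invariants) (hT : T ∈ (σ.linHom σ).invariants) :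
    S ∘ₗ T = T ∘ₗ S := by
  classical
  have hG : (Nat.card G : ℂ) ≠ 0 := card_ne_zero_complex
  have hcl : IsClassFunction G σ.character := isClassFunction_of_char (isCharacter_char σ)
  set E : {χ : IrrCharacter G // classInner σ.character (χ : G → ℂ) = 1} → (V →ₗ[ℂ] V) :=
    fun i => opSum σ (fun g => conj ((i.1 : G → ℂ) g)) with hE
  let Φ : (V →ₗ[ℂ] V) →ₗ[ℂ] (G → ℂ) :=
    { toFun := fun A x => LinearMap.trace ℂ V (A ∘ₗ σ x)
      map_add' := fun A B => by
        funext x
        simp [LinearMap.add_comp]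
      map_smul' := fun c A => by
        funext x
        simp [LinearMap.smul_comp] }
  have hΦ : ∀ i, Φ (E i) = ((Nat.card G : ℂ) / (i.1 : G → ℂ) 1) • (i.1 : G → ℂ) := by
    intro i
    funext x
    show LinearMap.trace ℂ V (opSum σ (fun g => conj ((i.1 : G → ℂ) g)) ∘ₗ σ x) = _
    rw [trace_opSum_comp, sum_conj_mul_shift_char hcl, i.2, one_mul, Pi.smul_apply, smul_eq_mul]
    ring
  have hli : LinearIndependent ℂ E := by
    apply LinearIndependent.of_comp Φ
    have h1 : LinearIndependent ℂ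
        (fun i : {χ : IrrCharacter G // classInner σ.character (χ : G → ℂ) = 1} =>
          ((i.1 : IrrCharacter G) : G → ℂ)) :=
      (linearIndependent_irr (G := G)).comp _ Subtype.val_injective
    have h2 := h1.units_smul (fun i => Units.mk0 ((Nat.card G : ℂ) / (i.1 : G → ℂ) 1)
      (div_ne_zero hG (irr_apply_one_ne_zero i.1)))
    convert h2 using 1
    funext i
    exact hΦ i
  have hfin1 : finrank ℂ (Submodule.span ℂ (Set.range E)) =
      Fintype.card {χ : IrrCharacter G // classInner σ.character (χ : G → ℂ) = 1} :=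
    finrank_span_eq_card hli
  have hfin2 : finrank ℂ (σ.linHom σ).invariants =
      Fintype.card {χ : IrrCharacter G // classInner σ.character (χ : G → ℂ) = 1} := by
    rw [(invariantsEquivIntertwiningMap σ σ).finrank_eq]
    have h1 := classInner_char_eq_finrank σ σ
    have h2 : classInner σ.character σ.character =
        ∑ χ : IrrCharacter G, classInner σ.character (χ : G → ℂ) *
          conj (classInner σ.character (χ : G → ℂ)) := by
      conv_lhs => rw [classFunction_eq_sum hcl]
      rw [classInner_sum_sum]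
    have h3 : ∀ χ : IrrCharacter G, classInner σ.character (χ : G → ℂ) *
          conj (classInner σ.character (χ : G → ℂ)) =
          if classInner σ.character (χ : G → ℂ) = 1 then 1 else 0 := by
      intro χ
      rcases h χ χ.2 with h0 | h0
      · rw [h0]; simp
      · rw [h0]; simp
    simp only [h3] at h2
    rw [Finset.sum_boole, h1] at h2
    rw [Fintype.card_subtype]
    exact_mod_cast h2
  have hle : Submodule.span ℂ (Set.range E) ≤ (σ.linHom σ).invariants := by
    rw [Submodule.span_le]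
    rintro _ ⟨i, rfl⟩
    rw [SetLike.mem_coe, mem_invariants_iff]
    intro g
    apply opSum_comm
    intro a b
    simp only
    rw [isClassFunction_of_irr i.1.2 a b]
  have heq : Submodule.span ℂ (Set.range E) = (σ.linHom σ).invariants :=
    Submodule.eq_of_le_of_finrank_eq hle (by rw [hfin1, hfin2])
  rw [← heq] at hS
  have hTc := (mem_invariants_iff σ T).1 hT
  induction hS using Submodule.span_induction with
  | mem A hA =>
    obtain ⟨i, rfl⟩ := hA
    simp only [hE, opSum]
    rw [← Module.End.mul_eq_comp, ← Module.End.mul_eq_comp, Finset.sum_mul, Finset.mul_sum]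
    refine Finset.sum_congr rfl fun g _ => ?_
    rw [smul_mul_assoc, mul_smul_comm, Module.End.mul_eq_comp, Module.End.mul_eq_comp, hTc g]
  | zero => simp
  | add A B _ _ hA hB => rw [LinearMap.add_comp, LinearMap.comp_add, hA, hB]
  | smul c A _ hA => rw [LinearMap.smul_comp, LinearMap.comp_smul, hA]

/-- A representation with commutative centraliser ring is multiplicity-free. -/
theorem mult_free_of_comm (σ : Representation ℂ G V)
    (hcomm : ∀ S T : V →ₗ[ℂ] V, S ∈ (σ.linHom σ).invariants → T ∈ (σ.linHom σ).invariants →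
      S ∘ₗ T = T ∘ₗ S) :
    ∀ χ : G → ℂ, IsIrrCharacter G χ →
      classInner σ.character χ = 0 ∨ classInner σ.character χ = 1 := by
  classical
  have hG : (Nat.card G : ℂ) ≠ 0 := card_ne_zero_complex
  rintro χ ⟨n, ρ, hirr, rfl⟩
  have := hirr
  rw [classInner_char_eq_finrank ρ σ]
  by_contra hcon
  have h2 : 1 < finrank ℂ (IntertwiningMap ρ σ) := by
    by_contra hlt
    apply hcon
    have : finrank ℂ (IntertwiningMap ρ σ) = 0 ∨ finrank ℂ (IntertwiningMap ρ σ) = 1 := by omega
    rcases this with h | h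
    · left; rw [h]; simp
    · right; rw [h]; simp
  obtain ⟨i₁, hi₁⟩ := Module.finrank_pos_iff_exists_ne_zero.1 (lt_trans Nat.zero_lt_one h2)
  obtain ⟨i₂, hind⟩ := exists_linearIndependent_pair_of_one_lt_finrank h2 hi₁
  have hiσ' : ∀ (i : IntertwiningMap ρ σ) (g : G) (v : Fin n → ℂ),
      i.toLinearMap (ρ g v) = σ g (i.toLinearMap v) :=
    fun i g v => LinearMap.congr_fun (i.isIntertwining' g) v
  -- `i₁` is injective
  have hinj : Function.Injective i₁.toLinearMap := by
    rw [← LinearMap.ker_eq_bot]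
    rcases ((isIrreducible_iff ρ).1 hirr).2 (LinearMap.ker i₁.toLinearMap) (by
      intro g v hv
      rw [LinearMap.mem_ker] at hv ⊢
      rw [hiσ', hv, map_zero]) with h | h
    · exact h
    · exfalso
      apply hi₁
      apply IntertwiningMap.ext
      rw [LinearMap.ker_eq_top] at h
      rw [h]; rfl
  obtain ⟨q, hq⟩ := LinearMap.exists_leftInverse_of_injective i₁.toLinearMap
    (LinearMap.ker_eq_bot.2 hinj)
  set p : V →ₗ[ℂ] (Fin n → ℂ) := (Nat.card G : ℂ)⁻¹ • ∑ g : G, ρ g⁻¹ ∘ₗ q ∘ₗ σ g with hp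
  have hpσ : ∀ h : G, p ∘ₗ σ h = ρ h ∘ₗ p := by
    intro h
    rw [hp, LinearMap.smul_comp, LinearMap.comp_smul]
    congr 1
    refine LinearMap.ext fun v => ?_
    simp only [LinearMap.comp_apply, LinearMap.sum_apply, map_sum]
    refine Fintype.sum_equiv (Equiv.mulRight h) _ _ ?_
    intro g
    simp only [Equiv.coe_mulRight, mul_inv_rev, map_mul, Module.End.mul_apply]
    rw [← Module.End.mul_apply (ρ h), ← map_mul, mul_inv_cancel, map_one, Module.End.one_apply]
  have hpi : p ∘ₗ i₁.toLinearMap = LinearMap.id := by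
    refine LinearMap.ext fun v => ?_
    simp only [hp, LinearMap.comp_apply, LinearMap.smul_apply, LinearMap.sum_apply,
      LinearMap.id_apply]
    have h3 : ∀ g : G, ρ g⁻¹ (q (σ g (i₁.toLinearMap v))) = v := by
      intro g
      rw [← hiσ']
      have h5 : q (i₁.toLinearMap (ρ g v)) = ρ g v := LinearMap.congr_fun hq _
      rw [h5, ← Module.End.mul_apply, ← map_mul, inv_mul_cancel, map_one, Module.End.one_apply]
    simp only [h3]
    rw [Finset.sum_const, Finset.card_univ, ← Nat.card_eq_fintype_card,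
      ← Nat.cast_smul_eq_nsmul ℂ, smul_smul, inv_mul_cancel₀ hG, one_smul]
  have hiσ : ∀ (i : IntertwiningMap ρ σ) (g : G), i.toLinearMap ∘ₗ ρ g = σ g ∘ₗ i.toLinearMap :=
    fun i g => i.isIntertwining' g
  obtain ⟨c, hc⟩ := schur ρ (p ∘ₗ i₂.toLinearMap) (by
    intro g
    rw [LinearMap.comp_assoc, hiσ, ← LinearMap.comp_assoc, hpσ, LinearMap.comp_assoc])
  set j : (Fin n → ℂ) →ₗ[ℂ] V := i₂.toLinearMap - c • i₁.toLinearMap with hj
  have hjσ : ∀ g : G, j ∘ₗ ρ g = σ g ∘ₗ j := by
    intro g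
    rw [hj, LinearMap.sub_comp, LinearMap.comp_sub, LinearMap.smul_comp, LinearMap.comp_smul,
      hiσ, hiσ]
  have hpj : p ∘ₗ j = 0 := by
    rw [hj, LinearMap.comp_sub, LinearMap.comp_smul, hc, hpi, sub_self]
  have hj0 : j ≠ 0 := by
    intro h0
    rw [LinearIndependent.pair_iff] at hind
    have h3 : (-c) • i₁ + (1 : ℂ) • i₂ = 0 := by
      apply IntertwiningMap.ext
      have : ((-c) • i₁ + (1 : ℂ) • i₂).toLinearMap = j := by
        rw [hj]
        ext v
        simp [sub_eq_add_neg, add_comm]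
      rw [this, h0]; rfl
    exact one_ne_zero (hind _ _ h3).2
  have hS : j ∘ₗ p ∈ (σ.linHom σ).invariants := by
    rw [mem_invariants_iff]
    intro g
    rw [LinearMap.comp_assoc, hpσ, ← LinearMap.comp_assoc, hjσ, LinearMap.comp_assoc]
  have hT : i₁.toLinearMap ∘ₗ p ∈ (σ.linHom σ).invariants := by
    rw [mem_invariants_iff]
    intro g
    rw [LinearMap.comp_assoc, hpσ, ← LinearMap.comp_assoc, hiσ, LinearMap.comp_assoc]
  have h5 := hcomm _ _ hS hT
  have h6 : (j ∘ₗ p) ∘ₗ (i₁.toLinearMap ∘ₗ p) = j ∘ₗ p := by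
    rw [LinearMap.comp_assoc, ← LinearMap.comp_assoc p, hpi, LinearMap.id_comp]
  have h7 : (i₁.toLinearMap ∘ₗ p) ∘ₗ (j ∘ₗ p) = 0 := by
    rw [LinearMap.comp_assoc, ← LinearMap.comp_assoc p, hpj, LinearMap.zero_comp,
      LinearMap.comp_zero]
  rw [h6, h7] at h5
  apply hj0
  have h8 : (j ∘ₗ p) ∘ₗ i₁.toLinearMap = j := by
    rw [LinearMap.comp_assoc, hpi, LinearMap.comp_id]
  rw [← h8, h5, LinearMap.zero_comp]

end Cfsg.Agent.H25.MultFree
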