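import Mathlib
import Cfsg.Prelude.Def_Characters
import Cfsg.Prelude.Def_Perm

set_option autoImplicit false

namespace Cfsg.Agent.H25.MultFree

open Cfsg

theorem permRep_character {G : Type*} [Group G] {Ω : Type*} [Fintype Ω] [MulAction G Ω] (g : G) :
    (Cfsg.permRep ℂ G Ω).character g = (Nat.card (MulAction.fixedBy Ω g) : ℂ) := by
  classical
  rw [Representation.character, LinearMap.trace_eq_matrix_trace ℂ (Pi.basisFun ℂ Ω), Matrix.trace]
  have h1 : ∀ x : Ω, Matrix.diag (LinearMap.toMatrix (Pi.basisFun ℂ Ω) (Pi.basisFun ℂ Ω)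
      (Cfsg.permRep ℂ G Ω g)) x = if g • x = x then 1 else 0 := by
    intro x
    rw [Matrix.diag_apply, LinearMap.toMatrix_apply, Pi.basisFun_apply, Pi.basisFun_repr]
    show (Pi.single x (1 : ℂ) : Ω → ℂ) (g⁻¹ • x) = _
    rw [Pi.single_apply]
    have : g⁻¹ • x = x ↔ g • x = x := by
      rw [inv_smul_eq_iff, eq_comm]
    simp only [this]
  simp only [h1]
  rw [Finset.sum_boole, Nat.card_eq_fintype_card]
  congr 1
  rw [← Fintype.card_subtype]
  rfl

end Cfsg.Agent.H25.MultFree
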