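import Mathlib
import Cfsg.Prelude.Def_Characters
import Cfsg.Agent.CharLib.PermOrbit
import Cfsg.Agent.CharLib.Perm
import Cfsg.Agent.CharLib.L.Galois

set_option autoImplicit false

namespace Cfsg.Agent.H25.Subdeg

open Cfsg Cfsg.Agent.CharLib
open scoped ComplexConjugate

variable {G : Type*} [Group G] [Fintype G] {Ω : Type*} [Fintype Ω] [MulAction G Ω]
  [MulAction.IsPretransitive G Ω]

/-- Summing over the group a function of `g • a` counts every point `|G_a|` times. -/
theorem sum_smul_eq (a : Ω) {M : Type*} [AddCommMonoid M] (F : Ω → M) :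
    ∑ g : G, F (g • a) = Nat.card (MulAction.stabilizer G a) • ∑ ω : Ω, F ω := by
  classical
  rw [Finset.sum_comp F (fun g : G => g • a), Finset.smul_sum]
  have himg : Finset.univ.image (fun g : G => g • a) = Finset.univ := by
    ext ω
    simp only [Finset.mem_image, Finset.mem_univ, true_and, iff_true]
    exact MulAction.exists_smul_eq G a ω
  rw [himg]
  refine Finset.sum_congr rfl fun ω _ => ?_
  congr 1
  obtain ⟨x, rfl⟩ := MulAction.exists_smul_eq G a ω
  have e : MulAction.stabilizer G a ≃ {g : G // g • a = x • a} :=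
    { toFun := fun s => ⟨x * s, by rw [mul_smul, MulAction.mem_stabilizer_iff.mp s.2]⟩
      invFun := fun g => ⟨x⁻¹ * g, by
        rw [MulAction.mem_stabilizer_iff, mul_smul, g.2, inv_smul_smul]⟩
      left_inv := fun s => by apply Subtype.ext; simp
      right_inv := fun g => by apply Subtype.ext; simp }
  rw [Nat.card_congr e]
  symm
  apply Nat.subtype_card
  intro g
  simp

open Classical in
/-- The normalised sum of `χ` over the double coset `{g | g • a ∈ G_a b}`. -/
noncomputable def tr (a b : Ω) (χ : G → ℂ) : ℂ :=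
  (Nat.card (MulAction.stabilizer G a) : ℂ)⁻¹ *
    ∑ g : G, if g • a ∈ MulAction.orbit (MulAction.stabilizer G a) b then χ g else 0

theorem card_stab_ne_zero (a : Ω) : (Nat.card (MulAction.stabilizer G a) : ℂ) ≠ 0 := by
  exact_mod_cast Nat.card_pos.ne'

theorem tr_one (a b : Ω) :
    tr (G := G) a b (fun _ => 1) = (Nat.card (MulAction.orbit (MulAction.stabilizer G a) b) : ℂ) := by
  classical
  rw [tr]
  have h := sum_smul_eq (G := G) a
    (fun ω : Ω => if ω ∈ MulAction.orbit (MulAction.stabilizer G a) b then (1 : ℂ) else 0)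
  rw [h, nsmul_eq_mul, ← mul_assoc, inv_mul_cancel₀ (card_stab_ne_zero a), one_mul,
    Finset.sum_boole, Nat.card_eq_fintype_card, Fintype.card_subtype]

theorem sum_irr_tr (a b : Ω) (hab : b ≠ a) :
    ∑ χ : IrrCharacter G, (χ : G → ℂ) 1 * tr a b (χ : G → ℂ) = 0 := by
  classical
  simp only [tr]
  have h1 : ∀ χ : IrrCharacter G, (χ : G → ℂ) 1 * ((Nat.card (MulAction.stabilizer G a) : ℂ)⁻¹ *
      ∑ g : G, if g • a ∈ MulAction.orbit (MulAction.stabilizer G a) b then (χ : G → ℂ) g else 0) =
      (Nat.card (MulAction.stabilizer G a) : ℂ)⁻¹ *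
      ∑ g : G, if g • a ∈ MulAction.orbit (MulAction.stabilizer G a) b then
        (χ : G → ℂ) 1 * (χ : G → ℂ) g else 0 := by
    intro χ
    rw [mul_left_comm, Finset.mul_sum]
    congr 1
    refine Finset.sum_congr rfl fun g _ => ?_
    split_ifs <;> simp
  simp only [h1]
  rw [← Finset.mul_sum, Finset.sum_comm]
  have h2 : ∀ g : G, ∑ χ : IrrCharacter G,
      (if g • a ∈ MulAction.orbit (MulAction.stabilizer G a) b then
        (χ : G → ℂ) 1 * (χ : G → ℂ) g else 0) = 0 := by
    intro g
    split_ifs with hg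
    · rw [sum_irr_one_mul, if_neg]
      rintro rfl
      rw [one_smul] at hg
      obtain ⟨h, hh⟩ := hg
      apply hab
      have h3 : (h : G) • b = a := hh
      have h4 : (h : G) • a = a := h.2
      have : (h : G) • b = (h : G) • a := by rw [h3, h4]
      exact smul_left_cancel _ this
    · simp
  simp only [h2]
  simp

/-- Eigenvalues of integer matrices are algebraic integers. -/
theorem isIntegral_of_mulVec {n : Type*} [Fintype n] [DecidableEq n] (A : Matrix n n ℤ)
    (w : n → ℂ) (hw : w ≠ 0) (μ : ℂ)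
    (h : (A.map (algebraMap ℤ ℂ)).mulVec w = μ • w) : IsIntegral ℤ μ := by
  refine ⟨A.charpoly, Matrix.charpoly_monic A, ?_⟩
  rw [Polynomial.eval₂_eq_eval_map, ← Matrix.charpoly_map, Matrix.eval_charpoly]
  apply Matrix.exists_mulVec_eq_zero_iff.mp
  refine ⟨w, hw, ?_⟩
  rw [Matrix.sub_mulVec, h, sub_eq_zero]
  ext i
  simp [Matrix.mulVec, dotProduct, Matrix.scalar_apply, Matrix.diagonal_apply]

omit [Fintype G] [Fintype Ω] [MulAction.IsPretransitive G Ω] in
theorem smul_mem_orbit_iff' {a b ω : Ω} {h : G} (hh : h ∈ MulAction.stabilizer G a) :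
    h • ω ∈ MulAction.orbit (MulAction.stabilizer G a) b ↔
      ω ∈ MulAction.orbit (MulAction.stabilizer G a) b := by
  constructor
  · rintro ⟨k, hk⟩
    refine ⟨(⟨h, hh⟩ : MulAction.stabilizer G a)⁻¹ * k, ?_⟩
    have hk' : (k : G) • b = h • ω := hk
    show (h⁻¹ * (k : G)) • b = ω
    rw [mul_smul, hk', inv_smul_smul]
  · rintro ⟨k, rfl⟩
    refine ⟨(⟨h, hh⟩ : MulAction.stabilizer G a) * k, ?_⟩
    show (h * (k : G)) • b = h • ((k : G) • b)
    rw [mul_smul]

open Classical in
theorem eigen_aux {V : Type*} [AddCommGroup V] [Module ℂ V] [FiniteDimensional ℂ V]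
    (ρ : Representation ℂ G V) (a b : Ω) (μ : ℂ) (hμ : μ ≠ 0) (u : V) (hu : u ≠ 0)
    (hT : (Nat.card (MulAction.stabilizer G a) : ℂ)⁻¹ •
      ∑ g : G, (if g • a ∈ MulAction.orbit (MulAction.stabilizer G a) b then ρ g u else 0) =
        μ • u) :
    IsIntegral ℤ μ ∧ ∀ h ∈ MulAction.stabilizer G a, ρ h u = u := by
  have hfix : ∀ h ∈ MulAction.stabilizer G a, ρ h u = u := by
    intro h hh
    have h1 : ρ h (μ • u) = μ • u := by
      rw [← hT, map_smul, map_sum]
      congr 1
      refine Fintype.sum_equiv (Equiv.mulLeft h) _ _ ?_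
      intro g
      show ρ h (if g • a ∈ MulAction.orbit (MulAction.stabilizer G a) b then ρ g u else 0) =
        if (h * g) • a ∈ MulAction.orbit (MulAction.stabilizer G a) b then ρ (h * g) u else 0
      have hiff : (h * g) • a ∈ MulAction.orbit (MulAction.stabilizer G a) b ↔
          g • a ∈ MulAction.orbit (MulAction.stabilizer G a) b := by
        rw [mul_smul]
        exact smul_mem_orbit_iff' hh
      by_cases hg : g • a ∈ MulAction.orbit (MulAction.stabilizer G a) b
      · rw [if_pos hg, if_pos (hiff.2 hg), map_mul, Module.End.mul_apply]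
      · rw [if_neg hg, if_neg (fun h' => hg (hiff.1 h')), map_zero]
    rw [map_smul] at h1
    exact smul_right_injective V hμ h1
  refine ⟨?_, hfix⟩
  -- a functional not killing `u`
  obtain ⟨ℓ, hℓ⟩ : ∃ ℓ : Module.Dual ℂ V, ℓ u ≠ 0 := by
    by_contra hcon
    push Not at hcon
    exact hu ((Module.forall_dual_apply_eq_zero_iff ℂ u).1 hcon)
  choose γ hγ using fun ω : Ω => MulAction.exists_smul_eq G a ω
  have hρ : ∀ g : G, ρ g u = ρ (γ (g • a)) u := by
    intro g
    have hmem : (γ (g • a))⁻¹ * g ∈ MulAction.stabilizer G a := by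
      rw [MulAction.mem_stabilizer_iff, mul_smul, inv_smul_eq_iff, hγ]
    have h2 := hfix _ hmem
    calc ρ g u = ρ (γ (g • a) * ((γ (g • a))⁻¹ * g)) u := by rw [mul_inv_cancel_left]
      _ = ρ (γ (g • a)) u := by rw [map_mul, Module.End.mul_apply, h2]
  set w : Ω → ℂ := fun ω => ℓ (ρ (γ ω) u) with hw
  have hwa : w a ≠ 0 := by
    have : ρ (γ a) u = u := hfix _ (hγ a)
    simp only [hw, this]
    exact hℓ
  have key : ∀ x : G, μ * ℓ (ρ x u) =
      ∑ ω : Ω, if x⁻¹ • ω ∈ MulAction.orbit (MulAction.stabilizer G a) b then w ω else 0 := by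
    intro x
    have h1 : μ * ℓ (ρ x u) = ℓ (ρ x (μ • u)) := by
      rw [map_smul, map_smul, smul_eq_mul]
    rw [h1, ← hT, map_smul, map_smul, map_sum, map_sum]
    have h2 : ∀ g : G, ℓ (ρ x (if g • a ∈ MulAction.orbit (MulAction.stabilizer G a) b then
        ρ g u else 0)) =
        (fun ω : Ω => if ω ∈ MulAction.orbit (MulAction.stabilizer G a) b then w (x • ω) else 0)
          (g • a) := by
      intro g
      simp only
      split_ifs with hg
      · rw [hw]
        simp only
        rw [← mul_smul, ← hρ (x * g), map_mul, Module.End.mul_apply]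
      · simp
    rw [Finset.sum_congr rfl (fun g _ => h2 g)]
    rw [sum_smul_eq (G := G) a (fun ω : Ω =>
      if ω ∈ MulAction.orbit (MulAction.stabilizer G a) b then w (x • ω) else 0),
      nsmul_eq_mul, smul_eq_mul, ← mul_assoc,
      inv_mul_cancel₀ (card_stab_ne_zero a), one_mul]
    refine Fintype.sum_equiv (MulAction.toPerm x) _ _ ?_
    intro ω
    simp only [MulAction.toPerm_apply, inv_smul_smul]
  set A : Matrix Ω Ω ℤ := fun ω ω' =>
    if (γ ω)⁻¹ • ω' ∈ MulAction.orbit (MulAction.stabilizer G a) b then 1 else 0 with hA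
  apply isIntegral_of_mulVec A w (fun h0 => hwa (by rw [h0]; rfl)) μ
  ext ω
  have h3 := key (γ ω)
  simp only [Matrix.mulVec, dotProduct, Matrix.map_apply, Pi.smul_apply, smul_eq_mul]
  show _ = μ * ℓ (ρ (γ ω) u)
  rw [h3]
  refine Finset.sum_congr rfl fun ω' _ => ?_
  simp only [hA]
  split_ifs <;> simp

open Classical in
/-- The Hecke-algebra trace of a character is an algebraic integer; it vanishes unless the
point stabilizer has a nonzero fixed vector. -/
theorem isIntegral_tr {V : Type*} [AddCommGroup V] [Module ℂ V] [FiniteDimensional ℂ V]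
    (ρ : Representation ℂ G V) (a b : Ω) :
    IsIntegral ℤ (tr a b ρ.character) ∧ (tr a b ρ.character ≠ 0 →
      ∃ u : V, u ≠ 0 ∧ ∀ h ∈ MulAction.stabilizer G a, ρ h u = u) := by
  set T : Module.End ℂ V := (Nat.card (MulAction.stabilizer G a) : ℂ)⁻¹ •
      ∑ g : G, (if g • a ∈ MulAction.orbit (MulAction.stabilizer G a) b then ρ g else 0) with hT
  have htr : LinearMap.trace ℂ V T = tr a b ρ.character := by
    rw [hT, map_smul, map_sum, tr, smul_eq_mul]
    congr 1
    refine Finset.sum_congr rfl fun g _ => ?_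
    split_ifs
    · rfl
    · simp
  have hTu : ∀ u : V, T u = (Nat.card (MulAction.stabilizer G a) : ℂ)⁻¹ •
      ∑ g : G, (if g • a ∈ MulAction.orbit (MulAction.stabilizer G a) b then ρ g u else 0) := by
    intro u
    rw [hT, LinearMap.smul_apply, LinearMap.sum_apply]
    congr 1
    refine Finset.sum_congr rfl fun g _ => ?_
    split_ifs
    · rfl
    · simp
  have hroots : ∀ μ ∈ T.charpoly.roots, μ ≠ 0 →
      IsIntegral ℤ μ ∧ ∃ u : V, u ≠ 0 ∧ ∀ h ∈ MulAction.stabilizer G a, ρ h u = u := by
    intro μ hμ hμ0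
    have h1 : T.HasEigenvalue μ := by
      rw [Module.End.hasEigenvalue_iff_isRoot_charpoly]
      exact (Polynomial.mem_roots'.1 hμ).2
    obtain ⟨u, hu⟩ := h1.exists_hasEigenvector
    have h2 := eigen_aux ρ a b μ hμ0 u hu.2 (by rw [← hTu]; exact hu.apply_eq_smul)
    exact ⟨h2.1, u, hu.2, h2.2⟩
  have hsum : LinearMap.trace ℂ V T = T.charpoly.roots.sum :=
    Module.End.trace_eq_sum_roots_charpoly_of_splits (IsAlgClosed.splits _)
  rw [← htr, hsum]
  constructor
  · apply IsIntegral.multiset_sum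
    intro μ hμ
    by_cases h0 : μ = 0
    · rw [h0]; exact isIntegral_zero
    · exact (hroots μ hμ h0).1
  · intro hne
    by_contra hcon
    apply hne
    apply Multiset.sum_eq_zero
    intro μ hμ
    by_contra h0
    exact hcon (hroots μ hμ h0).2

/-- `[π, χ]` computed on the point stabilizer. -/
theorem classInner_perm (a : Ω) [Fintype (MulAction.stabilizer G a)] {χ : G → ℂ}
    (hχ : IsClassFunction G χ) :
    classInner (fun g : G => (Nat.card (MulAction.fixedBy Ω g) : ℂ)) χ =
      (Nat.card (MulAction.stabilizer G a) : ℂ)⁻¹ *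
        ∑ h : MulAction.stabilizer G a, conj (χ h) := by
  classical
  have h1 : (fun g : G => (Nat.card (MulAction.fixedBy Ω g) : ℂ)) =
      indFun (MulAction.stabilizer G a) (fun _ => 1) := by
    funext g
    rw [H2.indFun_stabilizer_one, Nat.card_eq_fintype_card, ← Fintype.card_subtype]
    congr 1
    apply Fintype.card_congr
    refine Equiv.subtypeEquivRight fun y => ?_
    rw [MulAction.mem_fixedBy, MulAction.orbit_eq_univ]
    simp
  rw [h1, H2.frobenius_reciprocity _ _ hχ, classInner]
  simp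

theorem tr_eq_zero {V : Type*} [AddCommGroup V] [Module ℂ V] [FiniteDimensional ℂ V]
    (ρ : Representation ℂ G V) (a b : Ω)
    (h0 : classInner (fun g : G => (Nat.card (MulAction.fixedBy Ω g) : ℂ)) ρ.character = 0) :
    tr a b ρ.character = 0 := by
  classical
  by_contra hne
  obtain ⟨u, hu, hfix⟩ := (isIntegral_tr ρ a b).2 hne
  rw [classInner_perm a (isClassFunction_of_char (isCharacter_char ρ))] at h0
  have : Invertible (Nat.card (MulAction.stabilizer G a) : ℂ) :=
    invertibleOfNonzero (card_stab_ne_zero a)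
  have h1 := Representation.card_inv_mul_sum_char_eq_finrank
    (ρ.comp (MulAction.stabilizer G a).subtype)
  have h2 : 0 < Module.finrank ℂ
      (Representation.invariants (ρ.comp (MulAction.stabilizer G a).subtype)) := by
    rw [Module.finrank_pos_iff_exists_ne_zero]
    refine ⟨⟨u, fun h => hfix h h.2⟩, ?_⟩
    intro h3
    exact hu (congrArg Subtype.val h3)
  have h3 : (Nat.card (MulAction.stabilizer G a) : ℂ)⁻¹ *
        ∑ h : MulAction.stabilizer G a, ρ.character h = 0 := by
    have := congrArg (starRingEnd ℂ) h0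
    rw [map_mul, map_sum, map_zero, map_inv₀, Complex.conj_natCast] at this
    simpa using this
  have h4 : ((Module.finrank ℂ
      (Representation.invariants (ρ.comp (MulAction.stabilizer G a).subtype)) : ℕ) : ℂ) = 0 := by
    rw [← h1]; exact h3
  exact h2.ne' (by exact_mod_cast h4)

/-- A common divisor of the degrees of the non-principal constituents of the permutation
character divides every non-trivial subdegree. -/
theorem dvd_subdegree (f : ℕ)
    (hf : ∀ χ : G → ℂ, IsIrrCharacter G χ → χ ≠ (fun _ => 1) →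
      classInner (fun g : G => (Nat.card (MulAction.fixedBy Ω g) : ℂ)) χ ≠ 0 →
      ∃ m : ℕ, χ 1 = (f : ℂ) * m) (a b : Ω) (hab : b ≠ a) :
    f ∣ Nat.card (MulAction.orbit (MulAction.stabilizer G a) b) := by
  classical
  have hz : ∀ χ : IrrCharacter G, χ ≠ ⟨fun _ => 1, isIrrCharacter_one⟩ →
      ∃ z : ℂ, IsIntegral ℤ z ∧ (χ : G → ℂ) 1 * tr a b (χ : G → ℂ) = (f : ℂ) * z := by
    intro χ hχ
    obtain ⟨n, ρ, hirr, hρ⟩ := χ.2
    by_cases h0 : classInner (fun g : G => (Nat.card (MulAction.fixedBy Ω g) : ℂ)) (χ : G → ℂ) = 0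
    · refine ⟨0, isIntegral_zero, ?_⟩
      rw [← hρ] at h0 ⊢
      rw [tr_eq_zero ρ a b h0]
      simp
    · obtain ⟨m, hm⟩ := hf χ χ.2 (fun h => hχ (Subtype.ext h)) h0
      refine ⟨m * tr a b (χ : G → ℂ), ?_, by rw [hm]; ring⟩
      have hm' : IsIntegral ℤ (m : ℂ) := by
        have := isIntegral_algebraMap (R := ℤ) (A := ℂ) (x := (m : ℤ))
        simpa using this
      apply IsIntegral.mul hm'
      rw [← hρ]
      exact (isIntegral_tr ρ a b).1
  choose! z hz1 hz2 using hz
  have hsum := sum_irr_tr (G := G) a b hab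
  rw [← Finset.add_sum_erase _ _ (Finset.mem_univ (⟨fun _ => 1, isIrrCharacter_one⟩ :
    IrrCharacter G))] at hsum
  simp only [one_mul] at hsum
  rw [tr_one, Finset.sum_congr rfl (fun χ hχ => hz2 χ (Finset.ne_of_mem_erase hχ)),
    ← Finset.mul_sum] at hsum
  set Z : ℂ := ∑ χ ∈ Finset.univ.erase (⟨fun _ => 1, isIrrCharacter_one⟩ : IrrCharacter G), z χ
    with hZ
  have hZint : IsIntegral ℤ Z :=
    IsIntegral.sum _ (fun χ hχ => hz1 χ (Finset.ne_of_mem_erase hχ))
  rcases Nat.eq_zero_or_pos f with rfl | hfpos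
  · simp only [Nat.cast_zero, zero_mul, add_zero] at hsum
    have : Nat.card (MulAction.orbit (MulAction.stabilizer G a) b) = 0 := by exact_mod_cast hsum
    rw [this]
  · have hf0 : (f : ℂ) ≠ 0 := by exact_mod_cast hfpos.ne'
    have hq : Z = ((-(Nat.card (MulAction.orbit (MulAction.stabilizer G a) b) : ℚ) / f : ℚ) : ℂ) := by
      push_cast
      field_simp
      linear_combination hsum
    obtain ⟨k, hk⟩ := L.exists_int_of_isIntegral_of_rat hZint hq
    rw [hk] at hsum
    have h5 : (Nat.card (MulAction.orbit (MulAction.stabilizer G a) b) : ℤ) + f * k = 0 := by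
      exact_mod_cast hsum
    have h6 : (f : ℤ) ∣ (Nat.card (MulAction.orbit (MulAction.stabilizer G a) b) : ℤ) :=
      ⟨-k, by linarith⟩
    exact_mod_cast h6

end Cfsg.Agent.H25.Subdeg
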