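import Mathlib
import Cfsg.Prelude.Def_Characters
import Cfsg.Agent.H25.Subdeg
import Cfsg.Agent.CharLib.Complete

set_option autoImplicit false

namespace Cfsg.Agent.H25.Subdeg

open Cfsg Cfsg.Agent.CharLib
open scoped ComplexConjugate

variable {G : Type*} [Group G] [Fintype G] {Ω : Type*} [Fintype Ω] [MulAction G Ω]
  [MulAction.IsPretransitive G Ω]

/-- Multiplicities of the permutation character, with the degree and rank formulas. -/
theorem exists_mult (a : Ω) :
    ∃ e d : IrrCharacter G → ℕ,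
      (∀ χ : IrrCharacter G,
        classInner (fun g : G => (Nat.card (MulAction.fixedBy Ω g) : ℂ)) (χ : G → ℂ) = e χ) ∧
      (∀ χ : IrrCharacter G, (χ : G → ℂ) 1 = d χ) ∧ (∀ χ, 0 < d χ) ∧
      e ⟨fun _ => 1, isIrrCharacter_one⟩ = 1 ∧
      Nat.card Ω = ∑ χ, e χ * d χ ∧
      Nat.card (MulAction.orbitRel.Quotient (MulAction.stabilizer G a) Ω) = ∑ χ, e χ ^ 2 := by
  classical
  have hchar := isCharacter_fixedBy (G := G) Ω
  choose e he using fun χ : IrrCharacter G => classInner_char_nat hchar (isCharacter_of_irr χ.2)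
  choose d hd0 hd using fun χ : IrrCharacter G => irr_apply_one_nat χ
  have hdecomp := classFunction_eq_sum (isClassFunction_of_char hchar)
  refine ⟨e, d, he, hd, hd0, ?_, ?_, ?_⟩
  · have h1 := he ⟨fun _ => 1, isIrrCharacter_one⟩
    rw [classInner_perm a (isClassFunction_of_irr isIrrCharacter_one)] at h1
    simp only [map_one, Finset.sum_const, Finset.card_univ, nsmul_eq_mul, mul_one] at h1
    rw [← Nat.card_eq_fintype_card, inv_mul_cancel₀ (card_stab_ne_zero a)] at h1
    exact_mod_cast h1.symm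
  · have h1 := congrFun hdecomp 1
    simp only [Finset.sum_apply, Pi.smul_apply, smul_eq_mul, he, hd] at h1
    have h2 : Nat.card (MulAction.fixedBy Ω (1 : G)) = Nat.card Ω := by
      apply Nat.card_congr
      exact Equiv.subtypeUnivEquiv (fun x => by simp [MulAction.mem_fixedBy])
    rw [h2] at h1
    exact_mod_cast h1
  · have h1 : classInner (fun g : G => (Nat.card (MulAction.fixedBy Ω g) : ℂ))
        (fun g : G => (Nat.card (MulAction.fixedBy Ω g) : ℂ)) = ∑ χ, (e χ : ℂ) ^ 2 := by
      conv_lhs => rw [hdecomp]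
      rw [classInner_sum_sum]
      refine Finset.sum_congr rfl fun χ _ => ?_
      rw [he, Complex.conj_natCast, sq]
    rw [classInner_perm a (isClassFunction_of_char hchar)] at h1
    have h2 := MulAction.sum_card_fixedBy_eq_card_orbits_mul_card_group
      (MulAction.stabilizer G a) Ω
    have h3 : ∑ h : MulAction.stabilizer G a,
        conj ((Nat.card (MulAction.fixedBy Ω (h : G)) : ℂ)) =
        ((∑ h : MulAction.stabilizer G a, Fintype.card (MulAction.fixedBy Ω h) : ℕ) : ℂ) := by
      push_cast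
      refine Finset.sum_congr rfl fun h _ => ?_
      rw [Complex.conj_natCast, Nat.card_eq_fintype_card]
      rfl
    rw [h3, h2] at h1
    push_cast at h1
    rw [← Nat.card_eq_fintype_card, ← Nat.card_eq_fintype_card, mul_comm, mul_assoc,
      mul_inv_cancel₀ (card_stab_ne_zero a), mul_one] at h1
    exact_mod_cast h1

omit [Fintype G] [MulAction.IsPretransitive G Ω] in
theorem card_eq_sum_orbits (a : Ω) :
    ∃ (Qs : Finset (MulAction.orbitRel.Quotient (MulAction.stabilizer G a) Ω)),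
      Qs.card + 1 = Nat.card (MulAction.orbitRel.Quotient (MulAction.stabilizer G a) Ω) ∧
      Nat.card Ω = 1 + ∑ q ∈ Qs, Nat.card (MulAction.orbit (MulAction.stabilizer G a) q.out) ∧
      (∀ q ∈ Qs, q.out ≠ a) ∧
      (∀ b : Ω, b ≠ a → ∃ q ∈ Qs, MulAction.orbit (MulAction.stabilizer G a) q.out =
        MulAction.orbit (MulAction.stabilizer G a) b) := by
  classical
  have : Fintype (MulAction.orbitRel.Quotient (MulAction.stabilizer G a) Ω) := Fintype.ofFinite _
  set qa : MulAction.orbitRel.Quotient (MulAction.stabilizer G a) Ω := Quotient.mk'' a with hqa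
  have hout : ∀ b : Ω, (Quotient.mk'' b : MulAction.orbitRel.Quotient
      (MulAction.stabilizer G a) Ω).out ∈ MulAction.orbit (MulAction.stabilizer G a) b := by
    intro b
    have h1 := Quotient.out_eq' (Quotient.mk'' b : MulAction.orbitRel.Quotient
      (MulAction.stabilizer G a) Ω)
    rw [Quotient.eq''] at h1
    exact h1
  have horba : ∀ x ∈ MulAction.orbit (MulAction.stabilizer G a) a, x = a := by
    rintro x ⟨h, rfl⟩
    exact h.2
  have hqaout : qa.out = a := horba _ (hout a)
  refine ⟨Finset.univ.erase qa, ?_, ?_, ?_, ?_⟩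
  · rw [Finset.card_erase_of_mem (Finset.mem_univ _), Finset.card_univ,
      Nat.card_eq_fintype_card]
    have : 0 < Fintype.card (MulAction.orbitRel.Quotient (MulAction.stabilizer G a) Ω) :=
      Fintype.card_pos_iff.2 ⟨qa⟩
    omega
  · rw [Nat.card_congr (MulAction.selfEquivSigmaOrbits (MulAction.stabilizer G a) Ω),
      Nat.card_sigma, ← Finset.add_sum_erase _ _ (Finset.mem_univ qa)]
    congr 1
    rw [hqaout]
    have : MulAction.orbit (MulAction.stabilizer G a) a = {a} := by
      ext x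
      constructor
      · intro hx; exact horba x hx
      · rintro rfl; exact MulAction.mem_orbit_self _
    rw [this]
    simp
  · intro q hq h
    apply Finset.ne_of_mem_erase hq
    rw [hqa]
    have h5 := (Quotient.out_eq' q).symm
    exact h5.trans (congrArg _ h)
  · intro b hb
    refine ⟨Quotient.mk'' b, ?_, MulAction.orbit_eq_iff.2 (hout b)⟩
    apply Finset.mem_erase.2 ⟨?_, Finset.mem_univ _⟩
    intro h
    rw [hqa, Quotient.eq''] at h
    exact hb (horba b h)

omit [Fintype G] [MulAction.IsPretransitive G Ω] in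
theorem le_card_of_dvd (a : Ω) (f : ℕ)
    (hdiv : ∀ b : Ω, b ≠ a → f ∣ Nat.card (MulAction.orbit (MulAction.stabilizer G a) b)) :
    ∃ r : ℕ, r + 1 = Nat.card (MulAction.orbitRel.Quotient (MulAction.stabilizer G a) Ω) ∧
      1 + r * f ≤ Nat.card Ω ∧ (Nat.card Ω ≤ 1 + r * f → ∀ b : Ω, b ≠ a →
        Nat.card (MulAction.orbit (MulAction.stabilizer G a) b) = f) := by
  classical
  obtain ⟨Qs, h1, h2, h3, h4⟩ := card_eq_sum_orbits (G := G) a
  have hle : ∀ q ∈ Qs, f ≤ Nat.card (MulAction.orbit (MulAction.stabilizer G a) q.out) := by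
    intro q hq
    apply Nat.le_of_dvd _ (hdiv _ (h3 q hq))
    have : Nonempty (MulAction.orbit (MulAction.stabilizer G a) q.out) :=
      ⟨⟨_, MulAction.mem_orbit_self _⟩⟩
    exact Nat.card_pos
  have hsum : ∑ _q ∈ Qs, f = Qs.card * f := by simp
  refine ⟨Qs.card, h1, ?_, ?_⟩
  · rw [h2, ← hsum]
    exact Nat.add_le_add_left (Finset.sum_le_sum hle) 1
  · intro hle2 b hb
    obtain ⟨q, hq, hqb⟩ := h4 b hb
    rw [← hqb]
    have heq : ∑ _q ∈ Qs, f =
        ∑ q ∈ Qs, Nat.card (MulAction.orbit (MulAction.stabilizer G a) q.out) := by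
      apply le_antisymm (Finset.sum_le_sum hle)
      rw [hsum]; omega
    exact ((Finset.sum_eq_sum_iff_of_le hle).1 heq q hq).symm

theorem mult_free_of_equal_degrees (a : Ω) (f : ℕ)
    (hf : ∀ χ : G → ℂ, IsIrrCharacter G χ → χ ≠ (fun _ => 1) →
      classInner (fun g : G => (Nat.card (MulAction.fixedBy Ω g) : ℂ)) χ ≠ 0 → χ 1 = f) :
    (∀ χ : G → ℂ, IsIrrCharacter G χ →
      classInner (fun g : G => (Nat.card (MulAction.fixedBy Ω g) : ℂ)) χ = 0 ∨
      classInner (fun g : G => (Nat.card (MulAction.fixedBy Ω g) : ℂ)) χ = 1) ∧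
    ∀ b : Ω, b ≠ a → Nat.card (MulAction.orbit (MulAction.stabilizer G a) b) = f := by
  classical
  obtain ⟨e, d, he, hd, hd0, he1, hn, hr⟩ := exists_mult (G := G) a
  set t : IrrCharacter G := ⟨fun _ => 1, isIrrCharacter_one⟩ with ht
  have hdt : d t = 1 := by
    have := hd t
    simp only [ht] at this
    exact_mod_cast this.symm
  have hdf : ∀ χ : IrrCharacter G, χ ≠ t → e χ ≠ 0 → d χ = f := by
    intro χ h1 h2
    have h3 := hf χ χ.2 (fun h => h1 (Subtype.ext h)) (by rw [he]; exact_mod_cast h2)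
    rw [hd] at h3
    exact_mod_cast h3
  have hdiv : ∀ b : Ω, b ≠ a → f ∣ Nat.card (MulAction.orbit (MulAction.stabilizer G a) b) :=
    fun b hb => dvd_subdegree f (fun χ h1 h2 h3 => ⟨1, by rw [hf χ h1 h2 h3]; simp⟩) a b hb
  obtain ⟨r, hr1, hle, heq⟩ := le_card_of_dvd (G := G) a f hdiv
  rw [← Finset.add_sum_erase _ _ (Finset.mem_univ t), he1, hdt] at hn
  rw [← Finset.add_sum_erase _ _ (Finset.mem_univ t), he1] at hr
  have hn' : ∑ χ ∈ Finset.univ.erase t, e χ * d χ = f * ∑ χ ∈ Finset.univ.erase t, e χ := by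
    rw [Finset.mul_sum]
    refine Finset.sum_congr rfl fun χ hχ => ?_
    by_cases h0 : e χ = 0
    · simp [h0]
    · rw [hdf χ (Finset.ne_of_mem_erase hχ) h0, mul_comm]
  have hr' : r = ∑ χ ∈ Finset.univ.erase t, e χ ^ 2 := by omega
  have hterm : ∀ χ ∈ Finset.univ.erase t, e χ ≤ e χ ^ 2 := by
    intro χ _
    exact Nat.le_self_pow (by norm_num) _
  have hsle : ∑ χ ∈ Finset.univ.erase t, e χ ≤ ∑ χ ∈ Finset.univ.erase t, e χ ^ 2 :=
    Finset.sum_le_sum hterm
  rw [hn'] at hn
  constructor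
  · intro χ hχ
    have hgoal : e ⟨χ, hχ⟩ = 0 ∨ e ⟨χ, hχ⟩ = 1 := by
      by_cases hχt : (⟨χ, hχ⟩ : IrrCharacter G) = t
      · right; rw [hχt, he1]
      · rcases Nat.eq_zero_or_pos f with hf0 | hfpos
        · left
          by_contra h0
          have := hdf _ hχt h0
          have := hd0 ⟨χ, hχ⟩
          omega
        · have h1 : f * ∑ χ ∈ Finset.univ.erase t, e χ ^ 2 ≤
              f * ∑ χ ∈ Finset.univ.erase t, e χ := by
            rw [← hr', mul_comm]; omega
          have h2 := Nat.le_of_mul_le_mul_left h1 hfpos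
          have h3 := (Finset.sum_eq_sum_iff_of_le hterm).1 (le_antisymm hsle h2) ⟨χ, hχ⟩
            (Finset.mem_erase.2 ⟨hχt, Finset.mem_univ _⟩)
          rcases Nat.eq_zero_or_pos (e ⟨χ, hχ⟩) with h4 | h4
          · left; exact h4
          · right
            have h5 : e ⟨χ, hχ⟩ * 1 = e ⟨χ, hχ⟩ * e ⟨χ, hχ⟩ := by rw [mul_one, ← sq]; exact h3
            exact (Nat.eq_of_mul_eq_mul_left h4 h5).symm
    have h6 := he ⟨χ, hχ⟩
    simp only at h6
    rcases hgoal with h | h
    · left; rw [h6, h]; simp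
    · right; rw [h6, h]; simp
  · apply heq
    rw [hn, hr', mul_comm _ f]
    exact Nat.add_le_add_left (Nat.mul_le_mul_left f hsle) 1

theorem mult_free_of_rank_le_five (a : Ω)
    (h5 : Nat.card (MulAction.orbitRel.Quotient (MulAction.stabilizer G a) Ω) ≤ 5) :
    ∀ χ : G → ℂ, IsIrrCharacter G χ →
      classInner (fun g : G => (Nat.card (MulAction.fixedBy Ω g) : ℂ)) χ = 0 ∨
      classInner (fun g : G => (Nat.card (MulAction.fixedBy Ω g) : ℂ)) χ = 1 := by
  classical
  obtain ⟨e, d, he, hd, hd0, he1, hn, hr⟩ := exists_mult (G := G) a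
  set t : IrrCharacter G := ⟨fun _ => 1, isIrrCharacter_one⟩ with ht
  have hdt : d t = 1 := by
    have := hd t
    simp only [ht] at this
    exact_mod_cast this.symm
  intro χ₀ hχ₀
  set χ : IrrCharacter G := ⟨χ₀, hχ₀⟩ with hχ
  have hgoal : e χ = 0 ∨ e χ = 1 := by
    by_contra hcon
    have h2 : 2 ≤ e χ := by omega
    have hχt : χ ≠ t := by
      intro h; rw [h, he1] at h2; omega
    rw [← Finset.add_sum_erase _ _ (Finset.mem_univ t), he1, hdt,
      ← Finset.add_sum_erase _ _ (Finset.mem_erase.2 ⟨hχt, Finset.mem_univ _⟩)] at hn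
    rw [← Finset.add_sum_erase _ _ (Finset.mem_univ t), he1,
      ← Finset.add_sum_erase _ _ (Finset.mem_erase.2 ⟨hχt, Finset.mem_univ _⟩)] at hr
    have h4 : 4 ≤ e χ ^ 2 := by nlinarith
    have h3 : e χ = 2 := by
      by_contra h
      have : 3 ≤ e χ := by omega
      have : 9 ≤ e χ ^ 2 := by nlinarith
      omega
    have hrest : ∑ ψ ∈ (Finset.univ.erase t).erase χ, e ψ ^ 2 = 0 := by omega
    have hzero : ∀ ψ ∈ (Finset.univ.erase t).erase χ, e ψ = 0 := by
      intro ψ hψ
      have := (Finset.sum_eq_zero_iff.1 hrest) ψ hψ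
      exact pow_eq_zero_iff (by norm_num) |>.1 this
    have hrest2 : ∑ ψ ∈ (Finset.univ.erase t).erase χ, e ψ * d ψ = 0 := by
      apply Finset.sum_eq_zero
      intro ψ hψ
      rw [hzero ψ hψ, zero_mul]
    have hdiv : ∀ b : Ω, b ≠ a →
        d χ ∣ Nat.card (MulAction.orbit (MulAction.stabilizer G a) b) := by
      intro b hb
      apply dvd_subdegree (d χ) _ a b hb
      intro ψ h1 h2 h3
      refine ⟨1, ?_⟩
      have h6 : (⟨ψ, h1⟩ : IrrCharacter G) = χ := by
        by_contra hne
        have h7 := hzero ⟨ψ, h1⟩ (Finset.mem_erase.2 ⟨hne, Finset.mem_erase.2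
          ⟨fun h => h2 (congrArg Subtype.val h), Finset.mem_univ _⟩⟩)
        have h8 := he ⟨ψ, h1⟩
        rw [h7] at h8
        exact h3 (by simpa using h8)
      have h9 := hd χ
      rw [← h6] at h9
      simp only at h9
      rw [h9, h6]; simp
    obtain ⟨r, hr1, hle, -⟩ := le_card_of_dvd (G := G) a (d χ) hdiv
    have hr4 : r = 4 := by
      rw [h3] at hr; omega
    rw [hr4, hn, hrest2, h3] at hle
    have := hd0 χ
    omega
  have h6 := he χ
  simp only [hχ] at h6
  rcases hgoal with h | h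
  · left; rw [h6, ← hχ, h]; simp
  · right; rw [h6, ← hχ, h]; simp

end Cfsg.Agent.H25.Subdeg
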