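import Mathlib
import Cfsg.Prelude.Def_Characters
import Cfsg.Prelude.Def_Perm
import Cfsg.Agent.H25.Subdeg2
import Cfsg.Agent.H25.MultFree
import Cfsg.Agent.H25.PermRepChar

set_option autoImplicit false

namespace Cfsg.Agent.H25.GenPair

open Cfsg Cfsg.Agent.CharLib
open scoped ComplexConjugate

variable {G : Type*} [Group G] [Fintype G] {Ω : Type*} [Fintype Ω] [MulAction G Ω]
  [MulAction.IsPretransitive G Ω] {Z : Type*} [CommGroup Z] [Fintype Z] [MulAction Z Ω]
  [SMulCommClass G Z Ω]

omit [Fintype G] [Fintype Ω] [Fintype Z] in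
/-- invariant kernels are invariant under the commuting group. -/
theorem kernel_smul
    (hgen : ∀ x y x' y' : Ω, (∀ c : Z, y ≠ c • x) → (∀ c : Z, y' ≠ c • x') →
      ∃ g : G, g • x = x' ∧ g • y = y')
    (u : Ω → Ω → ℂ) (hu : ∀ (g : G) x y, u (g • x) (g • y) = u x y) (c : Z) (x y : Ω) :
    u (c • x) (c • y) = u x y := by
  by_cases h : ∃ d : Z, y = d • x
  · obtain ⟨d, rfl⟩ := h
    obtain ⟨g, hg⟩ := MulAction.exists_smul_eq G x (c • x)
    have h1 : g • (d • x) = c • (d • x) := by
      rw [smul_comm g d x, hg, smul_smul, smul_smul, mul_comm]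
    rw [← h1, ← hg]
    exact hu g x (d • x)
  · push Not at h
    have h' : ∀ d : Z, c • y ≠ d • (c • x) := by
      intro d hd
      apply h d
      rw [smul_comm d c x] at hd
      exact smul_left_cancel c hd
    obtain ⟨g, hg1, hg2⟩ := hgen x y (c • x) (c • y) h h'
    rw [← hg1, ← hg2, hu]

omit [Fintype Z] [CommGroup Z] [MulAction Z Ω] [SMulCommClass G Z Ω] [Fintype G] in
theorem row_eq_col (u : Ω → Ω → ℂ) (hu : ∀ (g : G) x y, u (g • x) (g • y) = u x y) (x z : Ω) :
    ∑ y, u x y = ∑ y, u y z := by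
  classical
  have hrow : ∀ x x' : Ω, ∑ y, u x y = ∑ y, u x' y := by
    intro x x'
    obtain ⟨g, rfl⟩ := MulAction.exists_smul_eq G x x'
    calc ∑ y, u x y = ∑ y, u (g • x) (g • y) := Finset.sum_congr rfl fun y _ => (hu g x y).symm
      _ = ∑ y, u (g • x) y := Equiv.sum_comp (MulAction.toPerm g) (fun y => u (g • x) y)
  have hcol : ∀ z z' : Ω, ∑ y, u y z = ∑ y, u y z' := by
    intro z z'
    obtain ⟨g, rfl⟩ := MulAction.exists_smul_eq G z z'
    calc ∑ y, u y z = ∑ y, u (g • y) (g • z) := Finset.sum_congr rfl fun y _ => (hu g y z).symm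
      _ = ∑ y, u y (g • z) := Equiv.sum_comp (MulAction.toPerm g) (fun y => u y (g • z))
  have h1 : (Fintype.card Ω : ℂ) * ∑ y, u x y = ∑ x', ∑ y, u x' y := by
    rw [Finset.sum_congr rfl fun x' _ => hrow x' x, Finset.sum_const, Finset.card_univ,
      nsmul_eq_mul]
  have h2 : (Fintype.card Ω : ℂ) * ∑ y, u y z = ∑ z', ∑ y, u y z' := by
    rw [Finset.sum_congr rfl fun z' _ => hcol z' z, Finset.sum_const, Finset.card_univ,
      nsmul_eq_mul]
  rw [Finset.sum_comm] at h2
  have h0 : (Fintype.card Ω : ℂ) ≠ 0 := by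
    have : Nonempty Ω := ⟨x⟩
    exact_mod_cast Fintype.card_ne_zero
  exact mul_left_cancel₀ h0 (h1.trans h2.symm)

omit [Fintype G] in
/-- invariant kernels commute under convolution. -/
theorem kernel_comm [DecidableEq Ω] (hfree : ∀ (c : Z) (x : Ω), c • x = x → c = 1)
    (hgen : ∀ x y x' y' : Ω, (∀ c : Z, y ≠ c • x) → (∀ c : Z, y' ≠ c • x') →
      ∃ g : G, g • x = x' ∧ g • y = y')
    (s t : Ω → Ω → ℂ) (hs : ∀ (g : G) x y, s (g • x) (g • y) = s x y)
    (ht : ∀ (g : G) x y, t (g • x) (g • y) = t x y) (x z : Ω) :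
    ∑ y, s x y * t y z = ∑ y, t x y * s y z := by
  classical
  have hinj : ∀ (c d : Z) (w : Ω), c • w = d • w → c = d := by
    intro c d w h
    have h1 : (d⁻¹ * c) • w = w := by
      rw [mul_smul, h, inv_smul_smul]
    have := hfree _ _ h1
    rw [inv_mul_eq_one] at this
    exact this.symm
  -- the structure constants of `s`
  set α : Z → ℂ := fun c => s x (c • x) with hα
  have hα' : ∀ (c : Z) (w : Ω), s w (c • w) = α c := by
    intro c w
    obtain ⟨g, rfl⟩ := MulAction.exists_smul_eq G x w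
    rw [hα]
    show s (g • x) (c • g • x) = s x (c • x)
    rw [← smul_comm g c x, hs]
  obtain ⟨β, hβ⟩ : ∃ β : ℂ, ∀ w y : Ω, (∀ c : Z, y ≠ c • w) → s w y = β := by
    by_cases h : ∃ w y : Ω, ∀ c : Z, y ≠ c • w
    · obtain ⟨w₀, y₀, h₀⟩ := h
      refine ⟨s w₀ y₀, ?_⟩
      intro w y hwy
      obtain ⟨g, hg1, hg2⟩ := hgen w y w₀ y₀ hwy h₀
      rw [← hg1, ← hg2, hs]
    · push Not at h
      refine ⟨0, ?_⟩
      intro w y hwy
      obtain ⟨c, hc⟩ := h w y
      exact absurd hc (hwy c)
  have hform : ∀ w y : Ω, s w y = β + ∑ c : Z, (α c - β) * (if y = c • w then 1 else 0) := by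
    intro w y
    by_cases h : ∃ d : Z, y = d • w
    · obtain ⟨d, rfl⟩ := h
      rw [Finset.sum_eq_single d]
      · rw [if_pos rfl, hα']; ring
      · intro c _ hc
        rw [if_neg (fun h => hc (hinj _ _ _ h).symm), mul_zero]
      · intro h; exact absurd (Finset.mem_univ _) h
    · push Not at h
      rw [hβ w y h, Finset.sum_eq_zero, add_zero]
      intro c _
      rw [if_neg (h c), mul_zero]
  have hL : ∑ y, s x y * t y z = β * ∑ y, t y z + ∑ c : Z, (α c - β) * t (c • x) z := by
    simp only [hform x, add_mul, Finset.sum_add_distrib, Finset.sum_mul, ← Finset.mul_sum]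
    congr 1
    rw [Finset.sum_comm]
    refine Finset.sum_congr rfl fun c _ => ?_
    rw [Finset.sum_eq_single (c • x)]
    · rw [if_pos rfl, mul_one]
    · intro y _ hy
      rw [if_neg hy, mul_zero, zero_mul]
    · intro h; exact absurd (Finset.mem_univ _) h
  have hR : ∑ y, t x y * s y z = β * ∑ y, t x y + ∑ c : Z, (α c - β) * t x (c⁻¹ • z) := by
    simp only [hform _ z, mul_add, Finset.sum_add_distrib, Finset.mul_sum]
    congr 1
    · refine Finset.sum_congr rfl fun y _ => mul_comm _ _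
    · rw [Finset.sum_comm]
      refine Finset.sum_congr rfl fun c _ => ?_
      rw [Finset.sum_eq_single (c⁻¹ • z)]
      · rw [if_pos (smul_inv_smul c z).symm, mul_one, mul_comm]
      · intro y _ hy
        rw [if_neg, mul_zero, mul_zero]
        intro h
        apply hy
        rw [h, inv_smul_smul]
      · intro h; exact absurd (Finset.mem_univ _) h
  rw [hL, hR, row_eq_col (G := G) t ht x z]
  congr 1
  refine Finset.sum_congr rfl fun c _ => ?_
  congr 1
  have := kernel_smul (G := G) hgen t ht c⁻¹ (c • x) z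
  rw [inv_smul_smul] at this
  exact this.symm

end Cfsg.Agent.H25.GenPair
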