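import Mathlib
import Cfsg.Agent.H25.GenPair

set_option autoImplicit false

namespace Cfsg.Agent.H25.GenPair

open Cfsg Cfsg.Agent.CharLib
open scoped ComplexConjugate

variable {G : Type*} [Group G] [Fintype G] {Ω : Type*} [Fintype Ω] [MulAction G Ω]
  [MulAction.IsPretransitive G Ω] {Z : Type*} [CommGroup Z] [Fintype Z] [MulAction Z Ω]
  [SMulCommClass G Z Ω]

theorem mult_free (hfree : ∀ (c : Z) (x : Ω), c • x = x → c = 1)
    (hgen : ∀ x y x' y' : Ω, (∀ c : Z, y ≠ c • x) → (∀ c : Z, y' ≠ c • x') →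
      ∃ g : G, g • x = x' ∧ g • y = y') :
    ∀ χ : G → ℂ, IsIrrCharacter G χ →
      classInner (fun g : G => (Nat.card (MulAction.fixedBy Ω g) : ℂ)) χ = 0 ∨
      classInner (fun g : G => (Nat.card (MulAction.fixedBy Ω g) : ℂ)) χ = 1 := by
  classical
  set σ := Cfsg.permRep ℂ G Ω with hσ
  have hsingle : ∀ (g : G) (j : Ω), σ g (Pi.single j 1) = Pi.single (g • j) 1 := by
    intro g j
    funext x
    show (Pi.single j (1 : ℂ) : Ω → ℂ) (g⁻¹ • x) = (Pi.single (g • j) (1 : ℂ) : Ω → ℂ) x
    rw [Pi.single_apply, Pi.single_apply]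
    have : g⁻¹ • x = j ↔ x = g • j := inv_smul_eq_iff
    simp only [this]
  have hker : ∀ T : (Ω → ℂ) →ₗ[ℂ] (Ω → ℂ), T ∈ (σ.linHom σ).invariants →
      ∀ (g : G) (x y : Ω), T (Pi.single (g • y) 1) (g • x) = T (Pi.single y 1) x := by
    intro T hT g x y
    have h1 := (MultFree.mem_invariants_iff σ T).1 hT g
    have h2 := congrArg (fun S : (Ω → ℂ) →ₗ[ℂ] (Ω → ℂ) => S (Pi.single y 1) (g • x)) h1
    simp only [LinearMap.comp_apply, hsingle] at h2
    rw [h2]
    show T (Pi.single y 1) (g⁻¹ • g • x) = _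
    rw [inv_smul_smul]
  have hexp : ∀ (T : (Ω → ℂ) →ₗ[ℂ] (Ω → ℂ)) (f : Ω → ℂ) (x : Ω),
      T f x = ∑ y, T (Pi.single y 1) x * f y := by
    intro T f x
    have h1 : f = ∑ y, f y • (Pi.single y 1 : Ω → ℂ) := by
      funext w
      simp [Finset.sum_apply, Pi.single_apply]
    conv_lhs => rw [h1]
    rw [map_sum, Finset.sum_apply]
    refine Finset.sum_congr rfl fun y _ => ?_
    rw [map_smul, Pi.smul_apply, smul_eq_mul, mul_comm]
  have h := MultFree.mult_free_of_comm σ (by
    intro S T hS hT
    apply LinearMap.pi_ext'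
    intro z
    apply LinearMap.ext_ring
    funext x
    simp only [LinearMap.comp_apply, LinearMap.single_apply]
    rw [hexp S, hexp T]
    exact kernel_comm (G := G) (Z := Z) hfree hgen (fun x y => S (Pi.single y 1) x)
      (fun x y => T (Pi.single y 1) x) (fun g x y => hker S hS g x y)
      (fun g x y => hker T hT g x y) x z)
  have hchar : σ.character = fun g : G => (Nat.card (MulAction.fixedBy Ω g) : ℂ) :=
    funext MultFree.permRep_character
  rwa [hchar] at h

omit [Fintype G] [Fintype Ω] [MulAction.IsPretransitive G Ω] in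
theorem card_orbits (hfree : ∀ (c : Z) (x : Ω), c • x = x → c = 1)
    (hgen : ∀ x y x' y' : Ω, (∀ c : Z, y ≠ c • x) → (∀ c : Z, y' ≠ c • x') →
      ∃ g : G, g • x = x' ∧ g • y = y') (a b₀ : Ω) (hb : ∀ c : Z, b₀ ≠ c • a) :
    Nat.card (MulAction.orbitRel.Quotient (MulAction.stabilizer G a) Ω) = Fintype.card Z + 1 := by
  classical
  let f : Option Z → MulAction.orbitRel.Quotient (MulAction.stabilizer G a) Ω := fun o =>
    match o with
    | some c => Quotient.mk'' (c • a)
    | none => Quotient.mk'' b₀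
  have hfix : ∀ (h : MulAction.stabilizer G a) (c : Z), h • (c • a) = c • a := by
    intro h c
    show (h : G) • (c • a) = c • a
    rw [smul_comm, h.2]
  have hbij : Function.Bijective f := by
    constructor
    · intro o o' hoo
      rcases o with _ | c <;> rcases o' with _ | d
      · rfl
      · exfalso
        obtain ⟨h, hh⟩ : b₀ ∈ MulAction.orbit (MulAction.stabilizer G a) (d • a) :=
          Quotient.exact' hoo
        simp only [hfix] at hh
        exact hb d hh.symm
      · exfalso
        obtain ⟨h, hh⟩ : b₀ ∈ MulAction.orbit (MulAction.stabilizer G a) (c • a) :=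
          Quotient.exact' hoo.symm
        simp only [hfix] at hh
        exact hb c hh.symm
      · obtain ⟨h, hh⟩ : c • a ∈ MulAction.orbit (MulAction.stabilizer G a) (d • a) :=
          Quotient.exact' hoo
        simp only [hfix] at hh
        have h1 : (c⁻¹ * d) • a = a := by rw [mul_smul, hh, inv_smul_smul]
        have h2 := hfree _ _ h1
        rw [inv_mul_eq_one] at h2
        rw [h2]
    · intro q
      induction q using Quotient.inductionOn' with
      | h y =>
        by_cases hy : ∃ c : Z, y = c • a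
        · obtain ⟨c, rfl⟩ := hy
          exact ⟨some c, rfl⟩
        · push Not at hy
          obtain ⟨g, hg1, hg2⟩ := hgen a y a b₀ hy hb
          refine ⟨none, ?_⟩
          apply Quotient.sound'
          exact ⟨⟨g, hg1⟩, hg2⟩
  rw [← Nat.card_congr (Equiv.ofBijective f hbij), Nat.card_eq_fintype_card, Fintype.card_option]

theorem main (hfree : ∀ (c : Z) (x : Ω), c • x = x → c = 1)
    (hgen : ∀ x y x' y' : Ω, (∀ c : Z, y ≠ c • x) → (∀ c : Z, y' ≠ c • x') →
      ∃ g : G, g • x = x' ∧ g • y = y') (a b₀ : Ω) (hb : ∀ c : Z, b₀ ≠ c • a) :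
    ∃ χ : Fin (Fintype.card Z) → (G → ℂ), (∀ i, IsIrrCharacter G (χ i)) ∧ Function.Injective χ ∧
      ∀ g : G, (Nat.card (MulAction.fixedBy Ω g) : ℂ) = 1 + ∑ i, χ i g := by
  classical
  obtain ⟨e, d, he, hd, hd0, he1, hn, hr⟩ := Subdeg.exists_mult (G := G) a
  rw [card_orbits (G := G) hfree hgen a b₀ hb] at hr
  have he01 : ∀ χ, e χ = 0 ∨ e χ = 1 := by
    intro χ
    rcases mult_free (G := G) (Z := Z) hfree hgen χ χ.2 with h | h
    · left
      rw [he] at h
      exact_mod_cast h
    · right
      rw [he] at h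
      exact_mod_cast h
  set t : IrrCharacter G := ⟨fun _ => 1, isIrrCharacter_one⟩ with ht
  set X : Finset (IrrCharacter G) := Finset.univ.filter (fun χ => e χ = 1 ∧ χ ≠ t) with hX
  have htX : t ∉ X := by simp [hX]
  have hins : Finset.univ.filter (fun χ => e χ = 1) = insert t X := by
    ext χ
    simp only [hX, Finset.mem_filter, Finset.mem_univ, true_and, Finset.mem_insert]
    constructor
    · intro h
      by_cases hχ : χ = t
      · left; exact hχ
      · right; exact ⟨h, hχ⟩
    · rintro (h | h)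
      · rw [h]; exact he1
      · exact h.1
  have hsum : ∀ F : IrrCharacter G → ℂ, ∑ χ, (e χ : ℂ) * F χ = F t + ∑ χ ∈ X, F χ := by
    intro F
    rw [← Finset.sum_insert htX, ← hins, Finset.sum_filter]
    refine Finset.sum_congr rfl fun χ _ => ?_
    rcases he01 χ with h | h
    · rw [h, if_neg (by omega)]; simp
    · rw [h, if_pos rfl]; simp
  have hcard : X.card = Fintype.card Z := by
    have h1 := hsum (fun _ => 1)
    simp only [mul_one, Finset.sum_const, nsmul_eq_mul] at h1
    have h2 : ∑ χ, e χ ^ 2 = ∑ χ, e χ := by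
      refine Finset.sum_congr rfl fun χ _ => ?_
      rcases he01 χ with h | h <;> rw [h] <;> norm_num
    rw [h2] at hr
    have h3 : ((∑ χ, e χ : ℕ) : ℂ) = 1 + (X.card : ℂ) := by
      push_cast
      exact h1
    have h4 : ∑ χ, e χ = 1 + X.card := by exact_mod_cast h3
    omega
  have hdecomp := classFunction_eq_sum (isClassFunction_of_char (isCharacter_fixedBy (G := G) Ω))
  let ε := X.equivFinOfCardEq hcard
  refine ⟨fun i => ((ε.symm i : X) : IrrCharacter G).1, fun i => ((ε.symm i : X) : IrrCharacter G).2,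
    ?_, ?_⟩
  · intro i j hij
    have h1 : ((ε.symm i : X) : IrrCharacter G) = ((ε.symm j : X) : IrrCharacter G) :=
      Subtype.ext hij
    exact ε.symm.injective (Subtype.ext h1)
  · intro g
    have h1 := congrFun hdecomp g
    simp only [Finset.sum_apply, Pi.smul_apply, smul_eq_mul, he] at h1
    rw [h1, hsum (fun χ => (χ : G → ℂ) g)]
    congr 1
    rw [← Finset.sum_coe_sort X (fun χ => (χ : G → ℂ) g)]
    exact (Equiv.sum_comp ε.symm (fun χ : X => ((χ : IrrCharacter G) : G → ℂ) g)).symm

end Cfsg.Agent.H25.GenPair
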