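import Mathlib
import Cfsg.Agent.Lib.Helper16.Tate
import Cfsg.Agent.Lib.Helper8.Transfer

/-!
# Normal complements to Sylow normalizers: the group-theoretic part
-/

set_option autoImplicit false

namespace Cfsg.Agent.H25.NormExt

open scoped Pointwise commutatorElement

universe u

theorem extend_of_fusion {X : Type*} [Group X] [Finite X] {p : ℕ} [hp : Fact p.Prime]
    (H : Subgroup X) (hidx : ¬ p ∣ H.index) {C : Type*} [CommGroup C] (hC : ∀ c : C, c ^ p = 1)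
    (ϕ : H →* C)
    (hf : ∀ (x : H) (g : X) (h : g⁻¹ * (x : X) * g ∈ H), ϕ ⟨g⁻¹ * (x : X) * g, h⟩ = ϕ x) :
    ∃ δ' : X →* C, ∀ x : H, δ' (x : X) = ϕ x := by
  have hcop : Nat.Coprime H.index p := ((Nat.Prime.coprime_iff_not_dvd hp.out).mpr hidx).symm
  obtain ⟨m', -, hm'⟩ := Nat.exists_mul_mod_eq_one_of_coprime hcop hp.out.one_lt
  refine ⟨(powMonoidHom m').comp (MonoidHom.transfer ϕ), fun x => ?_⟩
  have h1 : MonoidHom.transfer ϕ (x : X) = ϕ ⟨(x : X), x.2⟩ ^ H.index := by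
    apply Cfsg.Agent.Lib.Helper8.transfer_eq_pow_of_map
    intro k g₀ hk
    have h2 := hf (x ^ k) g₀ hk
    rw [map_pow] at h2
    exact h2
  change (MonoidHom.transfer ϕ (x : X)) ^ m' = ϕ x
  rw [h1, ← pow_mul]
  change ϕ x ^ (H.index * m') = ϕ x
  conv_lhs => rw [← Nat.div_add_mod (H.index * m') p]
  rw [hm', pow_add, pow_mul, hC, one_pow, one_mul, pow_one]

variable {G : Type u} [Group G] [Finite G] {p : ℕ} [hp : Fact p.Prime]

theorem fusion (P : Sylow p G) (K₁ M : Subgroup G) [hK₁ : K₁.Normal] [hMn : M.Normal]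
    (hPK : (P : Subgroup G) ≤ K₁)
    (hK : ∀ x ∈ K₁, x ∈ Subgroup.normalizer ((P : Subgroup G) : Set G) → x ∈ (P : Subgroup G))
    (hM : ∀ x ∈ (P : Subgroup G), ∀ y ∈ (P : Subgroup G), ⁅x, y⁆ ∈ M)
    {x g : G} (hx : x ∈ (P : Subgroup G)) (hg : g ∈ K₁) (hy : g⁻¹ * x * g ∈ (P : Subgroup G)) :
    ∃ n ∈ (P : Subgroup G), (g⁻¹ * x * g)⁻¹ * (n * x * n⁻¹) ∈ M := by
  set y := g⁻¹ * x * g with hydef
  let π := QuotientGroup.mk' M
  let C₀ : Subgroup G := K₁ ⊓ (Subgroup.centralizer {π y}).comap π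
  have hmem : ∀ k : G, k ∈ C₀ ↔ k ∈ K₁ ∧ π k * π y = π y * π k := by
    intro k
    change k ∈ K₁ ∧ π k ∈ Subgroup.centralizer {π y} ↔ _
    rw [Subgroup.mem_centralizer_singleton_iff]
  have hcomm : ∀ a b : G, (a * b)⁻¹ * (b * a) ∈ M → π a * π b = π b * π a := by
    intro a b h
    rw [← map_mul, ← map_mul]
    exact QuotientGroup.eq.2 h
  have hP0 : (P : Subgroup G) ≤ C₀ := by
    intro u hu
    rw [hmem]
    refine ⟨hPK hu, hcomm _ _ ?_⟩
    have h1 := hM y⁻¹ (inv_mem hy) u⁻¹ (inv_mem hu)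
    have h2 : ⁅y⁻¹, u⁻¹⁆ = (u * y)⁻¹ * (y * u) := by
      rw [commutatorElement_def]; group
    rwa [h2] at h1
  have hQ0 : ((g⁻¹ • P : Sylow p G) : Subgroup G) ≤ C₀ := by
    intro k hk
    change k ∈ MulAut.conj g⁻¹ • (P : Subgroup G) at hk
    rw [Subgroup.mem_pointwise_smul_iff_inv_smul_mem,
      MulAut.smul_def, ← map_inv, MulAut.conj_apply, inv_inv] at hk
    set u := g * k * g⁻¹ with hu
    have hku : k = g⁻¹ * u * g := by rw [hu]; group
    rw [hmem]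
    refine ⟨?_, hcomm _ _ ?_⟩
    · rw [hku]
      exact K₁.mul_mem (K₁.mul_mem (inv_mem hg) (hPK hk)) hg
    · have h1 := hM x⁻¹ (inv_mem hx) u⁻¹ (inv_mem hk)
      have h2 := hMn.conj_mem _ h1 g⁻¹
      have h3 : g⁻¹ * ⁅x⁻¹, u⁻¹⁆ * g⁻¹⁻¹ = (k * y)⁻¹ * (y * k) := by
        rw [commutatorElement_def, hku, hydef]; group
      rwa [h3] at h2
  obtain ⟨c, hc⟩ := MulAction.exists_smul_eq C₀ ((g⁻¹ • P : Sylow p G).subtype hQ0) (P.subtype hP0)
  rw [Sylow.smul_subtype] at hc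
  have hc2 : c • (g⁻¹ • P : Sylow p G) = P := Sylow.subtype_injective hc
  have hc3 : ((c : G) * g⁻¹) • P = P := by
    rw [mul_smul]; exact hc2
  rw [Sylow.smul_eq_iff_mem_normalizer] at hc3
  have hcm := (hmem c).1 c.2
  have hn : (c : G) * g⁻¹ ∈ (P : Subgroup G) := hK _ (K₁.mul_mem hcm.1 (inv_mem hg)) hc3
  refine ⟨(c : G) * g⁻¹, hn, ?_⟩
  have h4 : (c : G) * g⁻¹ * x * ((c : G) * g⁻¹)⁻¹ = c * y * (c : G)⁻¹ := by
    rw [hydef]; group
  rw [h4, ← QuotientGroup.eq_one_iff]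
  change π (y⁻¹ * (c * y * (c : G)⁻¹)) = 1
  rw [map_mul, map_mul, map_mul, hcm.2, map_inv, map_inv]
  group

theorem exists_complement (P : Sylow p G) (K₁ M : Subgroup G) [hK₁ : K₁.Normal] [hMn : M.Normal]
    (hPK : (P : Subgroup G) ≤ K₁)
    (hK : ∀ x ∈ K₁, x ∈ Subgroup.normalizer ((P : Subgroup G) : Set G) → x ∈ (P : Subgroup G))
    (hM : ∀ x ∈ (P : Subgroup G), ∀ y ∈ (P : Subgroup G), ⁅x, y⁆ ∈ M)
    (hMP : ∀ (C : Type u) [CommGroup C] (δ : (P : Subgroup G) →* C) (x : (P : Subgroup G)),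
      (x : G) ∈ M → δ x = 1) :
    ∃ K : Subgroup G, K.Normal ∧ K ⊔ Subgroup.normalizer ((P : Subgroup G) : Set G) = ⊤ ∧
      K ⊓ Subgroup.normalizer ((P : Subgroup G) : Set G) = ⊥ := by
  let ι : (P : Subgroup G) →* K₁ := Subgroup.inclusion hPK
  have hι : Function.Injective ι := Subgroup.inclusion_injective _
  have hrange : ι.range = (P : Subgroup G).subgroupOf K₁ := Subgroup.inclusion_range _
  have hidx : ¬ p ∣ ι.range.index := by
    rw [hrange]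
    intro hd
    exact P.not_dvd_index (hd.trans (Subgroup.relIndex_dvd_index_of_le hPK))
  obtain ⟨φ, hφ, hcop⟩ := Cfsg.Agent.Lib.Helper16.tate_retract P.2 ι hι hidx (by
    intro C _ hC hCp δ
    let _ : CommGroup C := { ‹Group C› with mul_comm := hC }
    let e := Subgroup.subgroupOfEquivOfLe hPK
    obtain ⟨δ', hδ'⟩ := extend_of_fusion (p := p) ((P : Subgroup G).subgroupOf K₁)
      (by rw [← hrange]; exact hidx) hCp (δ.comp e.toMonoidHom) (by
        intro x g h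
        have hx : ((x : K₁) : G) ∈ (P : Subgroup G) := x.2
        have hy : (g : G)⁻¹ * ((x : K₁) : G) * g ∈ (P : Subgroup G) := h
        obtain ⟨n, hn, hnM⟩ := fusion P K₁ M hPK hK hM hx g.2 hy
        change δ ⟨(g : G)⁻¹ * ((x : K₁) : G) * g, hy⟩ = δ ⟨((x : K₁) : G), hx⟩
        have h1 := hMP C δ (⟨(g : G)⁻¹ * ((x : K₁) : G) * g, hy⟩⁻¹ *
          (⟨n, hn⟩ * ⟨((x : K₁) : G), hx⟩ * ⟨n, hn⟩⁻¹)) hnM
        rw [map_mul, map_mul, map_mul, map_inv, map_inv, mul_comm (δ ⟨n, hn⟩),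
          mul_inv_cancel_right, inv_mul_eq_one] at h1
        exact h1)
    refine ⟨δ', fun x => ?_⟩
    have := hδ' ⟨ι x, x.2⟩
    exact this)
  have hφP : ∀ x : K₁, (x : G) ∈ (P : Subgroup G) → ((φ x : (P : Subgroup G)) : G) = x := by
    intro x hx
    have := hφ ⟨(x : G), hx⟩
    have h2 : ι ⟨(x : G), hx⟩ = x := Subtype.ext rfl
    rw [h2] at this
    rw [this]
  refine ⟨φ.ker.map K₁.subtype, ⟨?_⟩, ?_, ?_⟩
  · rintro _ ⟨k, hk, rfl⟩ g
    have hmem : g * (k : G) * g⁻¹ ∈ K₁ := hK₁.conj_mem _ k.2 g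
    refine ⟨⟨g * (k : G) * g⁻¹, hmem⟩, ?_, rfl⟩
    change φ _ = 1
    set z : K₁ := ⟨g * (k : G) * g⁻¹, hmem⟩ with hz
    have ho : orderOf z = orderOf k := by
      rw [← Subgroup.orderOf_coe, ← Subgroup.orderOf_coe]
      change orderOf (g * (k : G) * g⁻¹) = _
      exact (MulAut.conj g).orderOf_eq (k : G)
    have h1 : orderOf (φ z) ∣ Nat.card φ.ker := by
      refine (orderOf_map_dvd φ z).trans ?_
      rw [ho]
      have : orderOf (⟨k, hk⟩ : φ.ker) = orderOf k := Subgroup.orderOf_mk k hk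
      rw [← this]
      exact orderOf_dvd_natCard _
    obtain ⟨j, hj⟩ := (IsPGroup.iff_orderOf.1 P.2) (φ z)
    have h2 : Nat.Coprime (orderOf (φ z)) p := Nat.Coprime.coprime_dvd_left h1 hcop
    rw [hj] at h2
    rcases Nat.eq_zero_or_pos j with rfl | hjpos
    · rw [pow_zero, orderOf_eq_one_iff] at hj
      exact hj
    · exfalso
      have h3 : Nat.Coprime p p := Nat.Coprime.coprime_dvd_left (dvd_pow_self p hjpos.ne') h2
      rw [Nat.coprime_self] at h3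
      exact hp.out.one_lt.ne' h3
  · have hfr := Sylow.normalizer_sup_eq_top (P.subtype hPK)
    have hmap : ((P.subtype hPK : Sylow p K₁) : Subgroup K₁).map K₁.subtype = (P : Subgroup G) := by
      rw [Sylow.coe_subtype, Subgroup.subgroupOf_map_subtype, inf_eq_left.2 hPK]
    rw [hmap] at hfr
    rw [eq_top_iff, ← hfr, sup_le_iff]
    refine ⟨le_sup_right, ?_⟩
    intro k hk
    have h1 : (⟨k, hk⟩ : K₁) * (ι (φ ⟨k, hk⟩))⁻¹ ∈ φ.ker := by
      rw [MonoidHom.mem_ker, map_mul, map_inv, hφ, mul_inv_cancel]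
    have h2 : k = (((⟨k, hk⟩ : K₁) * (ι (φ ⟨k, hk⟩))⁻¹ : K₁) : G) * ((φ ⟨k, hk⟩ : (P : Subgroup G)) : G) := by
      change k = k * ((φ ⟨k, hk⟩ : (P : Subgroup G)) : G)⁻¹ * _
      group
    rw [h2]
    exact Subgroup.mul_mem _ (Subgroup.mem_sup_left ⟨_, h1, rfl⟩)
      (Subgroup.mem_sup_right (Subgroup.le_normalizer (φ ⟨k, hk⟩).2))
  · rw [eq_bot_iff]
    rintro _ ⟨⟨k, hk, rfl⟩, hkN⟩
    have h1 : (k : G) ∈ (P : Subgroup G) := hK _ k.2 hkN
    have h2 := hφP k h1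
    rw [MonoidHom.mem_ker.1 hk] at h2
    exact h2.symm

end Cfsg.Agent.H25.NormExt
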