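import Cfsg.Agent.H25.NormExt
import Cfsg.Agent.H25.KGV
import Cfsg.Agent.Lib.Helper24.UniqueSing

/-!
# Normal complements to Sylow normalizers: the character-theoretic part
-/

set_option autoImplicit false

namespace Cfsg.Agent.H25.NormExt

open Cfsg Cfsg.Agent.CharLib
open scoped Pointwise commutatorElement

universe u

variable {G : Type u} [Group G] [Finite G] {p : ℕ} [hp : Fact p.Prime]

theorem exists_normal_inf (N : Subgroup G) (T : Subgroup N) [T.Normal]
    (hext : ∀ ψ : IrrCharacter (N ⧸ T), ∃ χ : IrrCharacter G,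
      ∀ x : N, (χ : G → ℂ) x = (ψ : N ⧸ T → ℂ) (QuotientGroup.mk' T x)) :
    ∃ K : Subgroup G, K.Normal ∧ ∀ x : N, (x : G) ∈ K ↔ x ∈ T := by
  choose χ hχ using hext
  have h1 : ∀ ψ, (χ ψ : G → ℂ) 1 = (ψ : N ⧸ T → ℂ) 1 := by
    intro ψ
    have := hχ ψ 1
    rwa [map_one] at this
  refine ⟨⨅ ψ, kerSub (χ ψ), Subgroup.normal_iInf_normal (fun ψ => inferInstance), fun x => ?_⟩
  rw [Subgroup.mem_iInf]
  constructor
  · intro h
    by_contra hx
    have hne : QuotientGroup.mk' T x ≠ 1 := by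
      intro h0
      exact hx ((QuotientGroup.eq_one_iff x).1 h0)
    obtain ⟨ψ, hψ⟩ := Cfsg.Agent.Lib.Helper24.UniqueSing.exists_irr_ne hne
    apply hψ
    have h2 := h ψ
    rw [mem_kerSub] at h2
    rw [← hχ ψ x, h2, h1]
  · intro hx ψ
    have h0 : QuotientGroup.mk' T x = 1 := (QuotientGroup.eq_one_iff x).2 hx
    rw [mem_kerSub, hχ ψ x, h0, h1]

theorem not_dvd_degree {X : Type u} [Group X] [Finite X] (S T : Subgroup X) [S.Normal] [T.Normal]
    (hidx : ¬ p ∣ S.index) (hTS : T ≤ S) (hST : ⁅S, S⁆ ≤ T) (ψ : IrrCharacter (X ⧸ T)) :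
    ¬ p ∣ charDegree (ψ : X ⧸ T → ℂ) := by
  haveI : (S.map (QuotientGroup.mk' T)).Normal :=
    Subgroup.Normal.map inferInstance _ (QuotientGroup.mk'_surjective T)
  have h1 := KGV.charDegree_dvd_index_of_normal_comm ψ (S.map (QuotientGroup.mk' T)) (by
    rintro _ ⟨a, ha, rfl⟩ _ ⟨b, hb, rfl⟩
    rw [← map_mul, ← map_mul]
    apply QuotientGroup.eq.2
    have h2 := hST (Subgroup.commutator_mem_commutator (inv_mem hb) (inv_mem ha))
    have h3 : ⁅b⁻¹, a⁻¹⁆ = (a * b)⁻¹ * (b * a) := by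
      rw [commutatorElement_def]; group
    rwa [h3] at h2)
  have h2 : (S.map (QuotientGroup.mk' T)).index = S.index := by
    rw [Subgroup.index_map, QuotientGroup.ker_mk', sup_eq_left.2 hTS,
      MonoidHom.range_eq_top.2 (QuotientGroup.mk'_surjective T), Subgroup.index_top, mul_one]
  rw [h2] at h1
  exact fun hd => hidx (hd.trans h1)

theorem main (P : Sylow p G)
    (h : ∀ θ : IrrCharacter ↥(Subgroup.normalizer ((P : Subgroup G) : Set G)),
      ¬ p ∣ charDegree (θ : ↥(Subgroup.normalizer ((P : Subgroup G) : Set G)) → ℂ) →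
      ∃ χ : IrrCharacter G, ∀ x : ↥(Subgroup.normalizer ((P : Subgroup G) : Set G)),
        (χ : G → ℂ) x = (θ : ↥(Subgroup.normalizer ((P : Subgroup G) : Set G)) → ℂ) x) :
    ∃ K : Subgroup G, K.Normal ∧ K ⊔ Subgroup.normalizer ((P : Subgroup G) : Set G) = ⊤ ∧
      K ⊓ Subgroup.normalizer ((P : Subgroup G) : Set G) = ⊥ := by
  set N := Subgroup.normalizer ((P : Subgroup G) : Set G) with hN
  have hPN : (P : Subgroup G) ≤ N := Subgroup.le_normalizer
  let S : Subgroup N := (P : Subgroup G).subgroupOf N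
  haveI hSn : S.Normal := Subgroup.normal_in_normalizer
  have hidx : ¬ p ∣ S.index :=
    fun hd => P.not_dvd_index (hd.trans (Subgroup.relIndex_dvd_index_of_le hPN))
  have key : ∀ T : Subgroup N, T.Normal → T ≤ S → ⁅S, S⁆ ≤ T →
      ∃ K : Subgroup G, K.Normal ∧ ∀ x : N, (x : G) ∈ K ↔ x ∈ T := by
    intro T hT hTS hST
    apply exists_normal_inf N T
    intro ψ
    let θ : IrrCharacter N := ⟨fun x => (ψ : N ⧸ T → ℂ) (QuotientGroup.mk' T x),
      isIrrCharacter_comp_of_surjective ψ.2 _ (QuotientGroup.mk'_surjective T)⟩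
    have hdeg : charDegree (θ : N → ℂ) = charDegree (ψ : N ⧸ T → ℂ) := by
      unfold charDegree
      simp only [θ, map_one]
    obtain ⟨χ, hχ⟩ := h θ (by rw [hdeg]; exact not_dvd_degree S T hidx hTS hST ψ)
    exact ⟨χ, hχ⟩
  have hSS : ⁅S, S⁆ ≤ S := Subgroup.commutator_le_left S S
  obtain ⟨K₁, hK₁n, hK₁⟩ := key S inferInstance le_rfl hSS
  obtain ⟨M, hMn, hM⟩ := key ⁅S, S⁆ inferInstance hSS le_rfl
  apply exists_complement P K₁ M
  · intro x hx
    exact (hK₁ ⟨x, hPN hx⟩).2 hx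
  · intro x hx hxN
    exact (hK₁ ⟨x, hxN⟩).1 hx
  · intro x hx y hy
    exact (hM ⁅(⟨x, hPN hx⟩ : N), ⟨y, hPN hy⟩⁆).2
      (Subgroup.commutator_mem_commutator (H₁ := S) (H₂ := S) hx hy)
  · intro C _ δ x hx
    have h1 : (⟨(x : G), hPN x.2⟩ : N) ∈ ⁅S, S⁆ := (hM ⟨(x : G), hPN x.2⟩).1 hx
    have h2 : ⁅S, S⁆ ≤ δ.ker.map (Subgroup.inclusion hPN) := by
      rw [Subgroup.commutator_le]
      intro a ha b hb
      refine ⟨⁅(⟨(a : G), ha⟩ : (P : Subgroup G)), ⟨(b : G), hb⟩⁆, ?_, rfl⟩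
      rw [SetLike.mem_coe, MonoidHom.mem_ker, map_commutatorElement,
        commutatorElement_eq_one_iff_mul_comm, mul_comm]
    obtain ⟨y, hy, hyx⟩ := h2 h1
    have h3 : y = x := by
      apply Subtype.ext
      exact congrArg (fun z : N => (z : G)) hyx
    rw [← h3]
    exact hy

theorem converse (N K : Subgroup G) [hK : K.Normal] (h1 : K ⊔ N = ⊤) (h2 : K ⊓ N = ⊥)
    (θ : IrrCharacter N) :
    ∃ χ : IrrCharacter G, ∀ x : N, (χ : G → ℂ) x = (θ : N → ℂ) x := by
  have hc : K.IsComplement' N :=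
    Subgroup.isComplement'_of_disjoint_and_mul_eq_univ (disjoint_iff.2 h2) (by
      rw [← Subgroup.normal_mul, h1, Subgroup.coe_top])
  let e := SemidirectProduct.mulEquivSubgroup hc
  let r : G →* N := SemidirectProduct.rightHom.comp e.symm.toMonoidHom
  have hr : ∀ x : N, r x = x := by
    intro x
    have h3 : e (SemidirectProduct.inr x) = (x : G) := by
      simp [e]
    change SemidirectProduct.rightHom (e.symm (x : G)) = x
    rw [← h3, e.symm_apply_apply, SemidirectProduct.rightHom_inr]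
  refine ⟨⟨fun g => (θ : N → ℂ) (r g),
    isIrrCharacter_comp_of_surjective θ.2 r (fun x => ⟨x, hr x⟩)⟩, fun x => ?_⟩
  change (θ : N → ℂ) (r x) = _
  rw [hr]

end Cfsg.Agent.H25.NormExt
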