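import Mathlib

set_option autoImplicit false

namespace Cfsg.Agent.H25.SLPairs

open Matrix

theorem exists_equiv {F : Type*} [Field F] {V : Type*} [AddCommGroup V] [Module F V]
    (x y x' y' : V) (hD : LinearIndependent F ![x, y]) (hE : LinearIndependent F ![x', y']) :
    ∃ g : V ≃ₗ[F] V, g x = x' ∧ g y = y' := by
  have qD : ((hD.linearCombinationEquiv (Finsupp.single 0 1) : _) : V) = x := by simp
  have qD' : ((hD.linearCombinationEquiv (Finsupp.single 1 1) : _) : V) = y := by simp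
  have qE : ((hE.linearCombinationEquiv (Finsupp.single 0 1) : _) : V) = x' := by simp
  have qE' : ((hE.linearCombinationEquiv (Finsupp.single 1 1) : _) : V) = y' := by simp
  let f := hD.linearCombinationEquiv.symm ≪≫ₗ hE.linearCombinationEquiv
  have : FiniteDimensional F (Submodule.span F (Set.range ![x, y])) :=
    FiniteDimensional.span_of_finite F (Set.finite_range _)
  obtain ⟨g, hg⟩ := Submodule.exists_linearEquiv_restrict_eq f
  refine ⟨g, ?_, ?_⟩
  · rw [← qD, ← hg]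
    refine Eq.trans ?_ qE
    simp [f]
  · rw [← qD', ← hg]
    refine Eq.trans ?_ qE'
    simp [f]

variable {F : Type*} [Field F] {n : ℕ}

theorem exists_SL_std (hn : 3 ≤ n) (x y : Fin n → F) (h : LinearIndependent F ![x, y]) :
    ∃ g : Matrix.SpecialLinearGroup (Fin n) F,
      (g : Matrix (Fin n) (Fin n) F) *ᵥ (Pi.single ⟨0, by omega⟩ 1) = x ∧
      (g : Matrix (Fin n) (Fin n) F) *ᵥ (Pi.single ⟨1, by omega⟩ 1) = y := by
  set i₀ : Fin n := ⟨0, by omega⟩ with hi₀
  set i₁ : Fin n := ⟨1, by omega⟩ with hi₁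
  set i₂ : Fin n := ⟨2, by omega⟩ with hi₂
  have h01 : i₀ ≠ i₁ := by simp [hi₀, hi₁]
  have h02 : i₀ ≠ i₂ := by simp [hi₀, hi₂]
  have h12 : i₁ ≠ i₂ := by simp [hi₁, hi₂]
  have hstd : LinearIndependent F ![(Pi.single i₀ 1 : Fin n → F), Pi.single i₁ 1] := by
    rw [LinearIndependent.pair_iff]
    intro s t hst
    have e0 := congrFun hst i₀
    have e1 := congrFun hst i₁
    simp [Pi.single_apply, h01, h01.symm] at e0 e1
    exact ⟨e0, e1⟩
  obtain ⟨A, hA0, hA1⟩ := exists_equiv _ _ x y hstd h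
  set M := LinearMap.toMatrix' (A : (Fin n → F) →ₗ[F] (Fin n → F)) with hM
  have hdet : M.det ≠ 0 := by
    rw [hM, LinearMap.det_toMatrix']
    exact (LinearEquiv.isUnit_det' A).ne_zero
  set d : Fin n → F := Function.update (fun _ => 1) i₂ (M.det)⁻¹ with hd
  have hdetD : (Matrix.diagonal d).det = (M.det)⁻¹ := by
    rw [Matrix.det_diagonal, Finset.prod_eq_single i₂]
    · simp [hd]
    · intro j _ hj
      simp [hd, Function.update_of_ne hj]
    · intro h; exact absurd (Finset.mem_univ _) h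
  refine ⟨⟨M * Matrix.diagonal d, by rw [Matrix.det_mul, hdetD, mul_inv_cancel₀ hdet]⟩, ?_, ?_⟩
  · show (M * Matrix.diagonal d) *ᵥ _ = x
    rw [← Matrix.mulVec_mulVec, Matrix.diagonal_mulVec_single, hd, Function.update_of_ne h02,
      one_mul, hM, LinearMap.toMatrix'_mulVec]
    exact hA0
  · show (M * Matrix.diagonal d) *ᵥ _ = y
    rw [← Matrix.mulVec_mulVec, Matrix.diagonal_mulVec_single, hd, Function.update_of_ne h12,
      one_mul, hM, LinearMap.toMatrix'_mulVec]
    exact hA1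

theorem exists_SL (hn : 3 ≤ n) (x y x' y' : Fin n → F) (h : LinearIndependent F ![x, y])
    (h' : LinearIndependent F ![x', y']) :
    ∃ g : Matrix.SpecialLinearGroup (Fin n) F,
      (g : Matrix (Fin n) (Fin n) F) *ᵥ x = x' ∧ (g : Matrix (Fin n) (Fin n) F) *ᵥ y = y' := by
  obtain ⟨a, ha0, ha1⟩ := exists_SL_std hn x y h
  obtain ⟨b, hb0, hb1⟩ := exists_SL_std hn x' y' h'
  have hinv : ((a⁻¹ * a : Matrix.SpecialLinearGroup (Fin n) F) : Matrix (Fin n) (Fin n) F) = 1 := by
    rw [inv_mul_cancel]; rfl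
  rw [Matrix.SpecialLinearGroup.coe_mul] at hinv
  refine ⟨b * a⁻¹, ?_, ?_⟩
  · rw [Matrix.SpecialLinearGroup.coe_mul, ← Matrix.mulVec_mulVec, ← ha0, Matrix.mulVec_mulVec _ _ (a : Matrix (Fin n) (Fin n) F),
      hinv, Matrix.one_mulVec, hb0]
  · rw [Matrix.SpecialLinearGroup.coe_mul, ← Matrix.mulVec_mulVec, ← ha1, Matrix.mulVec_mulVec _ _ (a : Matrix (Fin n) (Fin n) F),
      hinv, Matrix.one_mulVec, hb1]

end Cfsg.Agent.H25.SLPairs
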