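import Mathlib
import Cfsg.Agent.H25.SLPairs
import Cfsg.Agent.H25.GenPair2

set_option autoImplicit false

namespace Cfsg.Agent.H25.SLVec

open Matrix Cfsg

/-- the non-zero vectors -/
def Om (F : Type*) [Field F] (n : ℕ) := {v : Fin n → F // v ≠ 0}

variable {F : Type*} [Field F] {n : ℕ}

theorem mulVec_ne_zero (g : Matrix.SpecialLinearGroup (Fin n) F) {v : Fin n → F} (hv : v ≠ 0) :
    (g : Matrix (Fin n) (Fin n) F) *ᵥ v ≠ 0 := by
  intro h
  apply hv
  have hinv : ((g⁻¹ * g : Matrix.SpecialLinearGroup (Fin n) F) : Matrix (Fin n) (Fin n) F) = 1 := by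
    rw [inv_mul_cancel]; rfl
  rw [Matrix.SpecialLinearGroup.coe_mul] at hinv
  have h1 : ((g⁻¹ : Matrix.SpecialLinearGroup (Fin n) F) : Matrix (Fin n) (Fin n) F) *ᵥ
      ((g : Matrix (Fin n) (Fin n) F) *ᵥ v) = v := by
    rw [Matrix.mulVec_mulVec, hinv, Matrix.one_mulVec]
  rw [← h1, h, Matrix.mulVec_zero]

instance : MulAction (Matrix.SpecialLinearGroup (Fin n) F) (Om F n) where
  smul g v := ⟨(g : Matrix (Fin n) (Fin n) F) *ᵥ v.1, mulVec_ne_zero g v.2⟩
  one_smul v := Subtype.ext (by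
    show ((1 : Matrix.SpecialLinearGroup (Fin n) F) : Matrix (Fin n) (Fin n) F) *ᵥ v.1 = v.1
    rw [Matrix.SpecialLinearGroup.coe_one, Matrix.one_mulVec])
  mul_smul g h v := Subtype.ext (by
    show ((g * h : Matrix.SpecialLinearGroup (Fin n) F) : Matrix (Fin n) (Fin n) F) *ᵥ v.1 =
      (g : Matrix (Fin n) (Fin n) F) *ᵥ ((h : Matrix (Fin n) (Fin n) F) *ᵥ v.1)
    rw [Matrix.SpecialLinearGroup.coe_mul, Matrix.mulVec_mulVec])

instance : MulAction Fˣ (Om F n) where
  smul c v := ⟨(c : F) • v.1, smul_ne_zero c.ne_zero v.2⟩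
  one_smul v := Subtype.ext (by
    show ((1 : Fˣ) : F) • v.1 = v.1
    rw [Units.val_one, one_smul])
  mul_smul c d v := Subtype.ext (by
    show ((c * d : Fˣ) : F) • v.1 = (c : F) • ((d : F) • v.1)
    rw [Units.val_mul, mul_smul])

theorem sl_smul_val (g : Matrix.SpecialLinearGroup (Fin n) F) (v : Om F n) :
    (g • v).1 = (g : Matrix (Fin n) (Fin n) F) *ᵥ v.1 := rfl

theorem units_smul_val (c : Fˣ) (v : Om F n) : (c • v).1 = (c : F) • v.1 := rfl

instance : SMulCommClass (Matrix.SpecialLinearGroup (Fin n) F) Fˣ (Om F n) where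
  smul_comm g c v := Subtype.ext (by
    rw [sl_smul_val, units_smul_val, units_smul_val, sl_smul_val, Matrix.mulVec_smul])

theorem free (c : Fˣ) (x : Om F n) (h : c • x = x) : c = 1 := by
  have h1 : (c : F) • x.1 = x.1 := congrArg Subtype.val h
  obtain ⟨i, hi⟩ := Function.ne_iff.1 x.2
  have h2 := congrFun h1 i
  rw [Pi.smul_apply, smul_eq_mul] at h2
  have h3 : (c : F) = 1 := by
    have hi' : x.1 i ≠ 0 := hi
    field_simp at h2
    exact h2
  exact Units.ext h3

theorem indep_of_generic (x y : Om F n) (h : ∀ c : Fˣ, y ≠ c • x) :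
    LinearIndependent F ![x.1, y.1] := by
  rw [LinearIndependent.pair_iff]
  intro s t hst
  have ht : t = 0 := by
    by_contra ht
    have h1 : y.1 = (-s / t) • x.1 := by
      have h2 : t • y.1 = -(s • x.1) := by
        rw [eq_neg_iff_add_eq_zero, add_comm]; exact hst
      calc y.1 = t⁻¹ • (t • y.1) := by rw [smul_smul, inv_mul_cancel₀ ht, one_smul]
        _ = (-s / t) • x.1 := by rw [h2, ← neg_smul, smul_smul]; congr 1; field_simp
    have h3 : -s / t ≠ 0 := by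
      intro h0
      rw [h0, zero_smul] at h1
      exact y.2 h1
    exact h (Units.mk0 _ h3) (Subtype.ext h1)
  refine ⟨?_, ht⟩
  rw [ht, zero_smul, add_zero] at hst
  exact (smul_eq_zero.1 hst).resolve_right x.2

theorem gen (hn : 3 ≤ n) (x y x' y' : Om F n) (h : ∀ c : Fˣ, y ≠ c • x)
    (h' : ∀ c : Fˣ, y' ≠ c • x') :
    ∃ g : Matrix.SpecialLinearGroup (Fin n) F, g • x = x' ∧ g • y = y' := by
  obtain ⟨g, h1, h2⟩ := SLPairs.exists_SL hn x.1 y.1 x'.1 y'.1 (indep_of_generic x y h)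
    (indep_of_generic x' y' h')
  exact ⟨g, Subtype.ext h1, Subtype.ext h2⟩

theorem exists_generic (hn : 3 ≤ n) (x : Om F n) : ∃ y : Om F n, ∀ c : Fˣ, y ≠ c • x := by
  obtain ⟨i, hi⟩ := Function.ne_iff.1 x.2
  have hi' : x.1 i ≠ 0 := hi
  obtain ⟨j, hj⟩ : ∃ j : Fin n, j ≠ i := by
    by_cases h0 : i = ⟨0, by omega⟩
    · exact ⟨⟨1, by omega⟩, by rw [h0]; simp⟩
    · exact ⟨⟨0, by omega⟩, fun h => h0 h.symm⟩
  refine ⟨⟨Pi.single j 1, ?_⟩, ?_⟩
  · intro h
    have := congrFun h j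
    simp at this
  · intro c h
    have h1 := congrFun (congrArg Subtype.val h) i
    rw [units_smul_val] at h1
    simp only [Pi.smul_apply, smul_eq_mul] at h1
    rw [Pi.single_eq_of_ne hj.symm] at h1
    exact (mul_ne_zero c.ne_zero hi') h1.symm

theorem pretransitive (hn : 3 ≤ n) :
    MulAction.IsPretransitive (Matrix.SpecialLinearGroup (Fin n) F) (Om F n) := by
  constructor
  intro x x'
  obtain ⟨y, hy⟩ := exists_generic hn x
  obtain ⟨y', hy'⟩ := exists_generic hn x'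
  obtain ⟨g, hg, -⟩ := gen hn x y x' y' hy hy'
  exact ⟨g, hg⟩

end Cfsg.Agent.H25.SLVec
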