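import Cfsg.Agent.H25.Cover

/-!
# The stabilizer of a block of a normal subgroup, in terms of its idempotent
-/

set_option autoImplicit false

namespace Cfsg.Agent.H25

open Cfsg Cfsg.Agent.BlockLib Cfsg.Agent.CharLib

universe u

variable {M : Ideal AlgInt} [M.IsPrime] {G : Type u} [Group G] [Fintype G]
variable {N : Subgroup G}

theorem cj_epsS_eq_iff [hN : N.Normal] {b : Set (IrrCharacter N)} (hb : IsPBlock M b) (g : G) :
    (∀ θ ∈ b, ∀ θ' : IrrCharacter N,
      (∀ n : N, (θ' : N → ℂ) n = (θ : N → ℂ) ⟨g * n * g⁻¹, hN.conj_mem n n.2 g⟩) → θ' ∈ b) ↔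
      CA.cj g (epsS M N b) = epsS M N b := by
  have : Fintype N := Fintype.ofFinite N
  have hK : N = CA.cjs g⁻¹ N := (CA.cjs_eq_of_mem_normalizer (by
    rw [Subgroup.normalizer_eq_top]; trivial)).symm
  have key : CA.cj g (epsS M N b) = epsS M N b ↔ conjSet N N g⁻¹ b = b := by
    constructor
    · intro h
      apply epsS_injective (isPBlock_conjSet hK hb) hb
      rw [epsS_conjSet hK]
      conv_lhs => rw [← h]
      rw [← CA.cj_mul, inv_mul_cancel, CA.cj_one]
    · intro h
      have h1 := epsS_conjSet (M := M) hK b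
      rw [h] at h1
      conv_lhs => rw [h1]
      rw [← CA.cj_mul, mul_inv_cancel, CA.cj_one]
  rw [key]
  constructor
  · intro h
    by_contra hne
    obtain ⟨ξ', hξ'⟩ := pb_nonempty (isPBlock_conjSet hK hb)
    have h1 : ξ' ∈ b := by
      obtain ⟨ξ, hξ, hc⟩ := hξ'
      refine h ξ hξ ξ' fun n => hc _ n ?_
      simp [mul_assoc]
    exact Set.disjoint_left.mp (pb_disjoint_of_ne (isPBlock_conjSet hK hb) hb hne) hξ' h1
  · intro h θ hθ θ' hθ'
    rw [← h]
    refine ⟨θ, hθ, fun c c' hcc' => ?_⟩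
    rw [hθ' c']
    have e : (⟨g * (c' : G) * g⁻¹, hN.conj_mem c' c'.2 g⟩ : N) = c := by
      apply Subtype.ext
      simp [hcc', mul_assoc]
    rw [e]

end Cfsg.Agent.H25
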